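/-
Standard double covers of `Ω₈⁺(2)`: the model `N ≤ W`, the subgroups `DD`, and the list of finite facts.
-/
import Cfsg.Agent.TE.Cyc
import Cfsg.Agent.Even.ParChar

set_option autoImplicit false

open Cfsg Subgroup CL.Even CL.Grp
open scoped commutatorElement

namespace CL.O8S

section DD

variable {G G' : Type*} [Group G] [Group G']

/-- the subgroup generated by the elements of odd order -/
def Yo (H : Subgroup G) : Subgroup G := closure {y | y ∈ H ∧ Odd (orderOf y)}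

/-- the subgroup generated by the 2-elements -/
def Dt (H : Subgroup G) : Subgroup G := closure {y | y ∈ H ∧ ∃ k : ℕ, y ^ 2 ^ k = 1}

def DD (H : Subgroup G) : Subgroup G := Dt (Yo H)

abbrev C1 (x : G) : Subgroup G := centralizer ({x} : Set G)

theorem Yo_le (H : Subgroup G) : Yo H ≤ H := (closure_le _).2 fun _ h => h.1

theorem Dt_le (H : Subgroup G) : Dt H ≤ H := (closure_le _).2 fun _ h => h.1

theorem DD_le (H : Subgroup G) : DD H ≤ H := (Dt_le _).trans (Yo_le H)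

theorem Yo_mono {H K : Subgroup G} (h : H ≤ K) : Yo H ≤ Yo K := closure_mono fun _ e => ⟨h e.1, e.2⟩

theorem Dt_mono {H K : Subgroup G} (h : H ≤ K) : Dt H ≤ Dt K := closure_mono fun _ e => ⟨h e.1, e.2⟩

theorem DD_mono {H K : Subgroup G} (h : H ≤ K) : DD H ≤ DD K := Dt_mono (Yo_mono h)

theorem Yo_map {f : G →* G'} (hf : Function.Injective f) (H : Subgroup G) : (Yo H).map f = Yo (H.map f) := by
  rw [Yo, MonoidHom.map_closure]
  congr 1
  ext y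
  exact ⟨fun ⟨x, hx, e⟩ => ⟨⟨x, hx.1, e⟩, e ▸ (orderOf_injective f hf x).symm ▸ hx.2⟩,
    fun ⟨⟨x, hx, e⟩, ho⟩ => ⟨x, ⟨hx, orderOf_injective f hf x ▸ e.symm ▸ ho⟩, e⟩⟩

theorem Dt_map {f : G →* G'} (hf : Function.Injective f) (H : Subgroup G) : (Dt H).map f = Dt (H.map f) := by
  rw [Dt, MonoidHom.map_closure]
  congr 1
  ext y
  exact ⟨fun ⟨x, ⟨hx, k, hk⟩, e⟩ => ⟨⟨x, hx, e⟩, k, by rw [← e, ← map_pow, hk, map_one]⟩,
    fun ⟨⟨x, hx, e⟩, k, hk⟩ => ⟨x, ⟨hx, k, hf (by rw [map_pow, e, hk, map_one])⟩, e⟩⟩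

theorem DD_map {f : G →* G'} (hf : Function.Injective f) (H : Subgroup G) : (DD H).map f = DD (H.map f) := by
  rw [DD, Dt_map hf, Yo_map hf, DD]

/-- the subgroup attached to a pair of involutions -/
def DG (z t : G) : Subgroup G := DD (C1 z ⊓ C1 t)

theorem cj_C1 (g x : G) : cj g (C1 x) = C1 (g * x * g⁻¹) := by
  ext y
  rw [mem_cj, mem_cent_singleton, mem_cent_singleton, ← (MulAut.conj g).injective.eq_iff]
  simp [mul_assoc]

theorem cj_DG (g z t : G) : cj g (DG z t) = DG (g * z * g⁻¹) (g * t * g⁻¹) := by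
  rw [DG, DG, ← cj_C1, ← cj_C1]
  exact (DD_map (MulAut.conj g).injective _).trans (congrArg DD (map_inf _ _ _ (MulAut.conj g).injective))

theorem DG_comm (z t : G) : DG z t = DG t z := by rw [DG, inf_comm, DG]

theorem pow_mem_of_card [Finite G] {H Y : Subgroup G} (h1 : Y ≤ H) (h2 : H ≤ 𝒩(Y)) {m : ℕ}
    (hc : Nat.card H = m * Nat.card Y) {y : G} (hy : y ∈ H) : y ^ m ∈ Y := by
  have : (Y.subgroupOf H).Normal := (normal_subgroupOf_iff_le_normalizer h1).2 h2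
  have e := (Y.subgroupOf H).index_mul_card
  rw [Nat.card_congr (subgroupOfEquivOfLe h1).toEquiv, hc] at e
  exact Nat.eq_of_mul_eq_mul_right Nat.card_pos e ▸ (Y.subgroupOf H).pow_index_mem ⟨y, hy⟩

theorem mem_of_coprime [Finite G] {Y : Subgroup G} {y : G} {m : ℕ} (h : y ^ m ∈ Y) (hc : (orderOf y).Coprime m) :
    y ∈ Y := by
  obtain ⟨k, hk⟩ := exists_pow_eq_self_of_coprime hc.symm
  exact hk ▸ pow_mem h k

theorem Yo_le_of [Finite G] {H Y : Subgroup G} (h1 : Y ≤ H) (h2 : H ≤ 𝒩(Y)) {a : ℕ}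
    (hc : Nat.card H = 2 ^ a * Nat.card Y) : Yo H ≤ Y := (closure_le _).2 fun _ hy =>
  mem_of_coprime (pow_mem_of_card h1 h2 hc hy.1) ((Nat.coprime_two_right.2 hy.2).pow_right a)

theorem Dt_le_of [Finite G] {H Y : Subgroup G} (h1 : Y ≤ H) (h2 : H ≤ 𝒩(Y)) {m : ℕ} (hm : Odd m)
    (hc : Nat.card H = m * Nat.card Y) : Dt H ≤ Y := (closure_le _).2 fun _ ⟨hy, k, hk⟩ =>
  mem_of_coprime (pow_mem_of_card h1 h2 hc hy) (Nat.Coprime.coprime_dvd_left (orderOf_dvd_of_pow_eq_one hk)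
    ((Nat.coprime_two_left.2 hm).pow_left k))

/-- An element of `D` that is central modulo `u` but not central. -/
def Pr (D : Subgroup G) (u : G) : Prop :=
  ∃ x ∈ D, (∃ y ∈ D, ⁅x, y⁆ ≠ 1) ∧ ∀ y ∈ D, ⁅x, y⁆ = 1 ∨ ⁅x, y⁆ = u

theorem pr_map {f : G →* G'} (hf : Function.Injective f) {D : Subgroup G} {u : G} : Pr (D.map f) (f u) ↔ Pr D u := by
  constructor
  · rintro ⟨_, ⟨x, hx, rfl⟩, ⟨_, ⟨y, hy, rfl⟩, h1⟩, h2⟩
    refine ⟨x, hx, ⟨y, hy, fun e => h1 (by rw [← map_commutatorElement, e, map_one])⟩, fun y hy => ?_⟩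
    have := h2 _ ⟨y, hy, rfl⟩
    rw [← map_commutatorElement] at this
    exact this.imp (fun e => hf (e.trans f.map_one.symm)) fun e => hf e
  · rintro ⟨x, hx, ⟨y, hy, h1⟩, h2⟩
    refine ⟨_, ⟨x, hx, rfl⟩, ⟨_, ⟨y, hy, rfl⟩, fun e => h1 (hf ?_)⟩, ?_⟩
    · rw [map_commutatorElement, e, map_one]
    · rintro _ ⟨y, hy, rfl⟩
      rw [← map_commutatorElement]
      exact (h2 y hy).imp (fun e => by rw [e, map_one]) fun e => by rw [e]

end DD

variable {P G : Type*} [Group P] [Group G]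

/-- the subgroup attached to an element of `W` -/
def DW (N : Subgroup P) (w : P) : Subgroup P := DD (N ⊓ C1 w)

/-- `N` has index two in `W` and centralizer `⟨ζ⟩`. -/
structure W0 (W N : Subgroup P) (ζ : P) : Prop where
  le : N ≤ W
  norm : ∀ w ∈ W, ∀ l ∈ N, w * l * w⁻¹ ∈ N
  idx : ∀ w ∈ W, ∀ w' ∈ W, w ∉ N → w' ∉ N → w * w' ∈ N
  zN : ζ ∈ N
  zz : ζ * ζ = 1
  z1 : ζ ≠ 1
  zc : ∀ w ∈ W, Commute ζ w
  cW : ∀ w ∈ W, (∀ l ∈ N, Commute w l) → w = 1 ∨ w = ζ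

/-- The finite facts. -/
structure WF (W N : Subgroup P) (ζ rA rB rC rE rF rG : P) : Prop extends W0 W N ζ where
  cls : ∀ w ∈ W, w * w = 1 ∨ w * w = ζ → w = 1 ∨ w = ζ ∨
    ∃ r ∈ [rA, rB, rC, rE, rF, rG], ∃ c ∈ W, c * r * c⁻¹ = w ∨ c * r * c⁻¹ = w * ζ
  mA : rA ∈ N
  mB : rB ∈ N
  mC : rC ∈ N
  mE : rE ∈ N
  mF : rF ∈ W
  mG : rG ∈ W
  nF : rF ∉ N
  nG : rG ∉ N
  sA : rA * rA = 1
  sB : rB * rB = 1
  sC : rC * rC = ζ
  sE : rE * rE = 1
  sF : rF * rF = 1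
  sG : rG * rG = 1
  cA : Nat.card (DW N rA) = 1024
  cB : Nat.card (DW N rB) = 11520
  cC : Nat.card (DW N rC) = 23040
  cE : Nat.card (DW N rE) ∣ 768
  cF : Nat.card (DW N rF) = 1451520
  cG : Nat.card (DW N rG) ∣ 1152
  pA1 : Pr (DW N rA) rA
  pA2 : Pr (DW N rA) (rA * ζ)
  pA0 : ¬ Pr (DW N rA) ζ
  zB : ζ ∉ DW N rB
  rB' : rB ∈ DW N rB
  dB : ∃ x1 ∈ N, ∃ x2 ∈ N, ∃ y, x1 * (rB * ζ) * x1⁻¹ = y ∧ x2 * (rB * ζ) * x2⁻¹ = y * (rB * ζ) ∧ Commute y (rB * ζ) ∧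
    ∃ e ∈ DD (N ⊓ C1 (rB * ζ) ⊓ C1 y), orderOf e = 5
  zC : ζ ∈ DW N rC
  dE : ∃ x1 ∈ N, ∃ x2 ∈ N, ∃ c ∈ W, x1 * rE * x1⁻¹ = rE * ζ ∧ c * rA * c⁻¹ ∈ DW N rE ∧
    x2 * rE * x2⁻¹ = c * rA * c⁻¹ * rE
  oF : ∀ φ : MulAut (DW N rF), ∃ d, φ = MulAut.conj d
  dF : ∃ x ∈ N, ∃ r2, x * rF * x⁻¹ = r2 ∧ Commute rF r2 ∧ rF * r2 * ζ ∈ DW N rF ∧
    x⁻¹ * (rF * r2 * ζ) * x ∈ DW N rF ∧ rA * ζ ∈ DW N rF ∧ rE ∈ DW N rF ∧ x⁻¹ * (rE * ζ) * x ∈ DW N rF ∧
    rA = rF * r2 * rE ∧ Commute r2 rE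
  dG : ∃ x1 ∈ N, ∃ x2 ∈ N, ∃ x3 ∈ N, ∃ a b c, x1 * rG * x1⁻¹ = a ∧ x2 * rG * x2⁻¹ = b ∧ x3 * rG * x3⁻¹ = c ∧
    Commute a rG ∧ Commute b rG ∧ Commute c rG ∧ a ≠ rG ∧ b ≠ rG ∧ c ≠ rG ∧ a * b * c = rG

/-- `x` acts on the image of `N` as `w` acts on `N`. -/
def Ind (N : Subgroup P) (ι : P → G) (x : G) (w : P) : Prop := ∀ l ∈ N, x * ι l * x⁻¹ = ι (w * l * w⁻¹)

/-- A model of the action of `C(z)` on `L`. -/
structure Mo (W N : Subgroup P) (ζ : P) (z : G) (ι : P → G) : Prop where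
  mul : ∀ {a b}, a ∈ N → b ∈ N → ι (a * b) = ι a * ι b
  inj : ∀ {a}, a ∈ N → ι a = 1 → a = 1
  zz : ι ζ = z
  ind : ∀ x, Commute x z → ∃ w ∈ W, Ind N ι x w
  kinv : ∀ k, Ind N ι k 1 → k * k = 1 → k = 1 ∨ k = z
  kodd : ∀ k k', Ind N ι k 1 → Ind N ι k' 1 → Odd (orderOf k) → Odd (orderOf k') → Odd (orderOf (k * k'))

variable {W N : Subgroup P} {ζ : P} {z : G} {ι : P → G}

theorem ind_one_iff {k : G} : Ind N ι k 1 ↔ ∀ l ∈ N, Commute k (ι l) := by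
  simp only [Ind, one_mul, inv_one, mul_one, mul_inv_eq_iff_eq_mul]
  rfl

namespace Mo

variable (h : Mo W N ζ z ι)
include h

def hom : N →* G := MonoidHom.mk' (fun a => ι a) fun a b => h.mul a.2 b.2

theorem hom_inj : Function.Injective h.hom := (injective_iff_map_eq_one _).2 fun a e => Subtype.ext (h.inj a.2 e)

theorem one : ι 1 = 1 := h.hom.map_one

theorem inv {a : P} (ha : a ∈ N) : ι a⁻¹ = (ι a)⁻¹ := h.hom.map_inv ⟨a, ha⟩

theorem pow {a : P} (ha : a ∈ N) (n : ℕ) : ι (a ^ n) = ι a ^ n := h.hom.map_pow ⟨a, ha⟩ n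

theorem ext {a b : P} (ha : a ∈ N) (hb : b ∈ N) (e : ι a = ι b) : a = b :=
  congrArg Subtype.val (h.hom_inj (a₁ := ⟨a, ha⟩) (a₂ := ⟨b, hb⟩) e)

theorem ord {a : P} (ha : a ∈ N) : orderOf (ι a) = orderOf a :=
  (orderOf_injective h.hom h.hom_inj ⟨a, ha⟩).trans (orderOf_coe _).symm

theorem conj {a b : P} (ha : a ∈ N) (hb : b ∈ N) : ι (a * b * a⁻¹) = ι a * ι b * (ι a)⁻¹ := by
  rw [h.mul (mul_mem ha hb) (inv_mem ha), h.mul ha hb, h.inv ha]

theorem comm {a b : P} (ha : a ∈ N) (hb : b ∈ N) (e : Commute a b) : Commute (ι a) (ι b) := by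
  rw [Commute, SemiconjBy, ← h.mul ha hb, e.eq, h.mul hb ha]

theorem ind_ι {a : P} (ha : a ∈ N) : Ind N ι (ι a) a := fun _ hl => (h.conj ha hl).symm

/-- the image of a subgroup -/
def im (A : Subgroup P) : Subgroup G := (A.subgroupOf N).map h.hom

theorem mem_im {A : Subgroup P} {x : G} : x ∈ h.im A ↔ ∃ a ∈ A, a ∈ N ∧ ι a = x :=
  ⟨fun ⟨a, ha, e⟩ => ⟨a, ha, a.2, e⟩, fun ⟨a, ha, hn, e⟩ => ⟨⟨a, hn⟩, ha, e⟩⟩

theorem ι_mem_im {A : Subgroup P} {a : P} (ha : a ∈ N) : ι a ∈ h.im A ↔ a ∈ A :=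
  ⟨fun e => let ⟨_, hb, hn, e⟩ := h.mem_im.1 e; h.ext hn ha e ▸ hb, fun e => h.mem_im.2 ⟨a, e, ha, rfl⟩⟩

theorem card_im {A : Subgroup P} (hA : A ≤ N) : Nat.card (h.im A) = Nat.card A :=
  (card_map_of_injective h.hom_inj).trans (Nat.card_congr (subgroupOfEquivOfLe hA).toEquiv)

theorem im_Yo {A : Subgroup P} (hA : A ≤ N) : h.im (Yo A) = Yo (h.im A) := by
  rw [im, im, ← Yo_map h.hom_inj]
  congr 1
  apply map_injective N.subtype_injective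
  rw [Yo_map N.subtype_injective, map_subgroupOf_eq_of_le hA, map_subgroupOf_eq_of_le ((Yo_le A).trans hA)]

theorem im_Dt {A : Subgroup P} (hA : A ≤ N) : h.im (Dt A) = Dt (h.im A) := by
  rw [im, im, ← Dt_map h.hom_inj]
  congr 1
  apply map_injective N.subtype_injective
  rw [Dt_map N.subtype_injective, map_subgroupOf_eq_of_le hA, map_subgroupOf_eq_of_le ((Dt_le A).trans hA)]

theorem im_DD {A : Subgroup P} (hA : A ≤ N) : h.im (DD A) = DD (h.im A) := by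
  rw [DD, h.im_Dt ((Yo_le A).trans hA), h.im_Yo hA, DD]

theorem pr_im {A : Subgroup P} (hA : A ≤ N) {u : P} (hu : u ∈ N) : Pr (h.im A) (ι u) ↔ Pr A u := by
  refine (pr_map h.hom_inj (u := ⟨u, hu⟩)).trans ?_
  rw [← pr_map N.subtype_injective, map_subgroupOf_eq_of_le hA]
  rfl

end Mo

theorem Ind.mul (F : W0 W N ζ) {x y : G} {w v : P} (hv : v ∈ W) (h1 : Ind N ι x w) (h2 : Ind N ι y v) :
    Ind N ι (x * y) (w * v) := fun l hl => by
  rw [show x * y * ι l * (x * y)⁻¹ = x * (y * ι l * y⁻¹) * x⁻¹ by group, h2 l hl, h1 _ (F.norm v hv l hl)]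
  congr 1
  group

theorem Ind.inv (F : W0 W N ζ) {x : G} {w : P} (hw : w ∈ W) (h1 : Ind N ι x w) : Ind N ι x⁻¹ w⁻¹ := fun l hl => by
  have := h1 _ (F.norm _ (inv_mem hw) l hl)
  rw [show w * (w⁻¹ * l * w⁻¹⁻¹) * w⁻¹ = l by group] at this
  rw [← this]
  group

theorem Ind.one : Ind N ι 1 1 := fun l _ => by simp

theorem Ind.pow (F : W0 W N ζ) {x : G} {w : P} (hw : w ∈ W) (h1 : Ind N ι x w) (n : ℕ) : Ind N ι (x ^ n) (w ^ n) := by
  induction n with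
  | zero => simpa using Ind.one
  | succ n ih => rw [pow_succ, pow_succ]; exact ih.mul F hw h1

theorem Ind.conj (F : W0 W N ζ) {x y : G} {w v : P} (hw : w ∈ W) (hv : v ∈ W) (h1 : Ind N ι x w) (h2 : Ind N ι y v) :
    Ind N ι (x * y * x⁻¹) (w * v * w⁻¹) := (h1.mul F hv h2).mul F (inv_mem hw) (h1.inv F hw)

theorem Ind.mul_z (F : W0 W N ζ) {x : G} {w : P} (h1 : Ind N ι x w) : Ind N ι x (w * ζ) := fun l hl => by
  rw [h1 l hl, mul_inv_rev, mul_assoc w ζ, (F.zc l (F.le hl)).eq]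
  congr 1
  group

namespace Mo

variable (h : Mo W N ζ z ι) (F : W0 W N ζ)
include h F

theorem uniq {x : G} {w v : P} (hw : w ∈ W) (hv : v ∈ W) (h1 : Ind N ι x w) (h2 : Ind N ι x v) : w = v ∨ w = v * ζ := by
  have := F.cW (v⁻¹ * w) (mul_mem (inv_mem hv) hw) fun l hl => by
    have := h.ext (F.norm w hw l hl) (F.norm v hv l hl) ((h1 l hl).symm.trans (h2 l hl))
    calc v⁻¹ * w * l = v⁻¹ * (w * l * w⁻¹) * w := by group
      _ = _ := by rw [this]; group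
  exact this.imp (fun e => (inv_mul_eq_one.1 e).symm) fun e => inv_mul_eq_iff_eq_mul.1 e

theorem mem_of_ind {x : G} {w v : P} (hw : w ∈ W) (hv : v ∈ N) (h1 : Ind N ι x w) (h2 : Ind N ι x v) : w ∈ N := by
  rcases h.uniq F hw (F.le hv) h1 h2 with rfl | rfl
  exacts [hv, mul_mem hv F.zN]

theorem z_sq : z * z = 1 := by rw [← h.zz, ← h.mul F.zN F.zN, F.zz, h.one]

theorem z_ne : z ≠ 1 := fun e => F.z1 (h.inj F.zN (h.zz.trans e))

theorem cz {a : P} (ha : a ∈ N) : Commute (ι a) z := h.zz ▸ h.comm ha F.zN (F.zc a (F.le ha)).symm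

theorem ind_z : Ind N ι z 1 := ind_one_iff.2 fun _ hl => (h.cz F hl).symm

theorem comm_z {x : G} {w : P} (hw : w ∈ W) (h1 : Ind N ι x w) : Commute x z := by
  have := h1 ζ F.zN
  rw [← (F.zc w hw).eq, mul_inv_cancel_right, h.zz] at this
  exact mul_inv_eq_iff_eq_mul.1 this

theorem ι_z {a : P} (ha : a ∈ N) : ι (a * ζ) = ι a * z := by rw [h.mul ha F.zN, h.zz]

/-- change of the model -/
theorem twist {c : P} (hc : c ∈ W) : Mo W N ζ z fun a => ι (c * a * c⁻¹) := by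
  have k : ∀ k, Ind N (fun a => ι (c * a * c⁻¹)) k 1 → Ind N ι k 1 := fun k hk => ind_one_iff.2 fun l hl => by
    have := ind_one_iff.1 hk _ (F.norm _ (inv_mem hc) l hl)
    rwa [show c * (c⁻¹ * l * c⁻¹⁻¹) * c⁻¹ = l by group] at this
  refine ⟨fun ha hb => ?_, fun ha e => ?_, ?_, fun x hx => ?_, fun a ha => h.kinv a (k a ha),
    fun a b ha hb => h.kodd a b (k a ha) (k b hb)⟩
  · rw [← h.mul (F.norm c hc _ ha) (F.norm c hc _ hb), conj_mul]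
  · exact conj_eq_one_iff.1 (h.inj (F.norm c hc _ ha) e)
  · rw [← (F.zc c hc).eq, mul_inv_cancel_right, h.zz]
  · obtain ⟨w, hw, e⟩ := h.ind x hx
    refine ⟨c⁻¹ * w * c, mul_mem (mul_mem (inv_mem hc) hw) hc, fun l hl => (e _ (F.norm c hc l hl)).trans ?_⟩
    congr 1
    group

omit h in
theorem ind_twist {c r : P} (hc : c ∈ W) {t : G} (e : Ind N ι t (c * r * c⁻¹)) :
    Ind N (fun a => ι (c * a * c⁻¹)) t r := fun l hl => (e _ (F.norm c hc l hl)).trans (by congr 1; group)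

theorem inner {r : P} (hr : r ∈ N) (h2 : r * r = 1) {t : G} (e : Ind N ι t r) (ht : t * t = 1) :
    t = ι r ∨ t = ι r * z := by
  have k1 : Ind N ι ((ι r)⁻¹ * t) 1 := by
    simpa using ((h.ind_ι hr).inv F (F.le hr)).mul F (F.le hr) e
  have c := ind_one_iff.1 k1 r hr
  have : (ι r)⁻¹ * t * ((ι r)⁻¹ * t) = 1 := by
    have e2 : ι r * ι r = 1 := by rw [← h.mul hr hr, h2, h.one]
    rw [← ht, ← mul_assoc, c.inv_right.eq, ← mul_assoc, ← mul_inv_rev, e2, inv_one, one_mul]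
  exact (h.kinv _ k1 this).imp (fun e => (inv_mul_eq_one.1 e).symm) fun e => inv_mul_eq_iff_eq_mul.1 e

theorem eq_one_of_odd {k : G} (hk : Ind N ι k 1) (ho : Odd (orderOf k)) {a : P} (ha : a ∈ N) {j : ℕ}
    (e : ι a * k ^ 2 ^ j = 1) : k = 1 := by
  have h1 : Ind N ι (ι a) 1 := by
    rw [eq_inv_of_mul_eq_one_left e]
    simpa using (hk.pow F W.one_mem (2 ^ j)).inv F (pow_mem W.one_mem _)
  have h2 : k ^ 2 ^ (j + 1) = 1 := by
    rw [pow_succ, pow_mul, eq_inv_of_mul_eq_one_right e, inv_pow, pow_two, ← h.mul ha ha]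
    rcases h.uniq F (F.le ha) W.one_mem (h.ind_ι ha) h1 with e | e <;> rw [e]
    · rw [one_mul, h.one, inv_one]
    · rw [one_mul, F.zz, h.one, inv_one]
  exact orderOf_eq_one_iff.1 (Nat.Coprime.eq_one_of_dvd ((Nat.coprime_two_right.2 ho).pow_right _)
    (orderOf_dvd_of_pow_eq_one h2))

/-- Elements of odd order split. -/
theorem odd_split [Finite G] {y : G} (hy : Commute y z) (ho : Odd (orderOf y)) :
    ∃ l ∈ N, ∃ k, Odd (orderOf l) ∧ Ind N ι k 1 ∧ Odd (orderOf k) ∧ y = ι l * k := by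
  obtain ⟨m, hm⟩ := id ho
  obtain ⟨v, hv, e⟩ := h.ind (y ^ (m + 1)) (hy.pow_left _)
  have hN : v * v ∈ N := by
    by_cases hv' : v ∈ N
    exacts [mul_mem hv' hv', F.idx v hv v hv hv' hv']
  have e1 : Ind N ι y (v * v) := by
    have := e.mul F hv e
    rwa [← pow_add, show m + 1 + (m + 1) = orderOf y + 1 by omega, pow_succ, pow_orderOf_eq_one, one_mul] at this
  have key : ∀ l ∈ N, Ind N ι y l → l ^ orderOf y = 1 → ∃ l ∈ N, ∃ k, Odd (orderOf l) ∧ Ind N ι k 1 ∧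
      Odd (orderOf k) ∧ y = ι l * k := fun l hl e h1 => by
    have k1 : Ind N ι ((ι l)⁻¹ * y) 1 := by simpa using ((h.ind_ι hl).inv F (F.le hl)).mul F (F.le hl) e
    refine ⟨l, hl, _, ho.of_dvd_nat (orderOf_dvd_of_pow_eq_one h1), k1, ho.of_dvd_nat (orderOf_dvd_of_pow_eq_one ?_),
      (mul_inv_cancel_left _ _).symm⟩
    have c : Commute (ι l) ((ι l)⁻¹ * y) := (ind_one_iff.1 k1 l hl).symm
    have := c.mul_pow (orderOf y)
    rwa [mul_inv_cancel_left, pow_orderOf_eq_one, ← h.pow hl, h1, h.one, one_mul, eq_comm] at this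
  have e2 := e1.pow F (F.le hN) (orderOf y)
  rw [pow_orderOf_eq_one] at e2
  rcases h.uniq F (pow_mem (F.le hN) _) W.one_mem e2 Ind.one with e3 | e3
  · exact key _ hN e1 e3
  · refine key _ (mul_mem hN F.zN) (e1.mul_z F) ?_
    rw [(F.zc _ (F.le hN)).symm.mul_pow, e3, one_mul, hm, pow_succ, pow_mul, pow_two, F.zz, one_pow, one_mul, F.zz]

/-- The subgroup attached to `z` and `t` only depends on the action of `t`. -/
theorem DG_eq [Finite G] {t : G} {w : P} (hw : w ∈ W) (e : Ind N ι t w) : DG z t = h.im (DW N w) := by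
  have hle : h.im (N ⊓ C1 w) ≤ C1 z ⊓ C1 t := fun x hx => by
    obtain ⟨a, ha, hn, rfl⟩ := h.mem_im.1 hx
    refine ⟨mem_cent_singleton.2 (h.cz F hn), mem_cent_singleton.2 (mul_inv_eq_iff_eq_mul.1 ?_).symm⟩
    rw [e a hn, ← mem_cent_singleton.1 ha.2, mul_inv_cancel_right]
  refine le_antisymm ?_ (h.im_DD inf_le_left ▸ DD_mono hle)
  have key : ∀ y ∈ Yo (C1 z ⊓ C1 t), ∃ a ∈ Yo (N ⊓ C1 w), ∃ k, Ind N ι k 1 ∧ Odd (orderOf k) ∧ y = ι a * k := by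
    intro y hy
    have hYN : Yo (N ⊓ C1 w) ≤ N := (Yo_le _).trans inf_le_left
    induction hy using closure_induction with
    | mem y hy =>
      obtain ⟨l, hl, k, o1, k1, o2, rfl⟩ := h.odd_split F (mem_cent_singleton.1 hy.1.1) hy.2
      refine ⟨l, subset_closure ⟨⟨hl, mem_cent_singleton.2 ?_⟩, o1⟩, k, k1, o2, rfl⟩
      have a1 : Ind N ι (ι l * k) l := by simpa using (h.ind_ι hl).mul F W.one_mem k1
      have a2 := e.conj F hw (F.le hl) a1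
      rw [← mem_cent_singleton.1 hy.1.2, mul_inv_cancel_right] at a2
      rcases h.uniq F (F.le (F.norm w hw l hl)) (F.le hl) a2 a1 with e | e
      · exact (mul_inv_eq_iff_eq_mul.1 e).symm
      · exfalso
        obtain ⟨m, hm⟩ := o1
        have := congrArg (· ^ orderOf l) e
        simp only [conj_pow, pow_orderOf_eq_one, mul_one, mul_inv_cancel] at this
        rw [(F.zc _ (F.le hl)).symm.mul_pow, pow_orderOf_eq_one, hm, pow_succ, pow_mul, pow_two, F.zz, one_pow,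
          one_mul, one_mul] at this
        exact F.z1 this.symm
    | one => exact ⟨1, one_mem _, 1, Ind.one, by simp, by rw [h.one, one_mul]⟩
    | mul x y _ _ h1 h2 =>
      obtain ⟨a, ha, k, k1, o1, rfl⟩ := h1
      obtain ⟨b, hb, k', k2, o2, rfl⟩ := h2
      refine ⟨a * b, mul_mem ha hb, k * k', by simpa using k1.mul F W.one_mem k2, h.kodd _ _ k1 k2 o1 o2, ?_⟩
      rw [h.mul (hYN ha) (hYN hb), mul_assoc, mul_assoc, ← mul_assoc k, (ind_one_iff.1 k1 b (hYN hb)).eq, mul_assoc]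
    | inv x _ h1 =>
      obtain ⟨a, ha, k, k1, o1, rfl⟩ := h1
      refine ⟨a⁻¹, inv_mem ha, k⁻¹, by simpa using k1.inv F W.one_mem, by rwa [orderOf_inv], ?_⟩
      rw [h.inv (hYN ha), ← (ind_one_iff.1 k1 a (hYN ha)).eq, mul_inv_rev]
  refine (closure_le _).2 fun y ⟨hy, j, hj⟩ => ?_
  obtain ⟨a, ha, k, k1, o1, rfl⟩ := key y hy
  have hN : a ∈ N := ((Yo_le _) ha).1
  rw [(ind_one_iff.1 k1 a hN).symm.mul_pow, ← h.pow hN] at hj
  obtain rfl := h.eq_one_of_odd F k1 o1 (pow_mem hN _) hj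
  rw [one_pow, mul_one] at hj
  exact h.mem_im.2 ⟨a, subset_closure ⟨ha, j, h.inj (pow_mem hN _) hj⟩, hN, (mul_one _).symm⟩

end Mo

end CL.O8S
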