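/-
Standard double covers of `Ω₈⁺(2)`: the central involution is isolated.
-/
import Cfsg.Agent.TE.O8S0

set_option autoImplicit false

open Cfsg Subgroup CL.Even CL.Grp
open scoped commutatorElement

namespace CL.O8S

variable {P G : Type*} [Group P] [Group G] [Finite G] {W N : Subgroup P} {ζ rA rB rC rE rF rG : P} {z : G} {ι : P → G}

/-- a conjugate of `z` that commutes with `z` -/
structure Ok (z t : G) : Prop where
  ex : ∃ g, g * t * g⁻¹ = z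
  cm : Commute t z
  ne : t ≠ z

/-- `t` acts as `r` in some model -/
def Ty (W N : Subgroup P) (ζ : P) (z : G) (r : P) (t : G) : Prop := ∃ ι, Mo W N ζ z ι ∧ Ind N ι t r

omit [Finite G] in
theorem Ok.partner {t g : G} (o : Ok z t) (hg : g * t * g⁻¹ = z) : Ok z (g * z * g⁻¹) :=
  ⟨⟨g⁻¹, by group⟩, by
    have := o.cm.symm.map (MulAut.conj g)
    simp only [MulAut.conj_apply, hg] at this
    exact this, fun e => o.ne (conj_injective (hg.trans e.symm))⟩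

omit [Finite G] in
theorem Ok.conj {t x : G} (o : Ok z t) (hx : Commute x z) : Ok z (x * t * x⁻¹) :=
  let ⟨g, hg⟩ := o.ex
  ⟨⟨g * x⁻¹, by rw [← hg]; group⟩, (hx.mul_left o.cm).mul_left hx.inv_left, fun e => o.ne (conj_injective (x := x)
    (e.trans (show z = x * z * x⁻¹ by rw [hx.eq, mul_inv_cancel_right])))⟩

omit [Finite G] in
theorem cj_pair {t g : G} (hg : g * t * g⁻¹ = z) : cj g (DG z t) = DG z (g * z * g⁻¹) := by rw [cj_DG, hg, DG_comm]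

omit [Finite G] in
theorem fix_of {y a : G} (c : Commute y a) : y * a * y⁻¹ = a := by rw [c.eq, mul_inv_cancel_right]

section

variable (h : Mo W N ζ z ι) (F : WF W N ζ rA rB rC rE rF rG)
include h F

omit [Finite G] in
theorem Ok.sq {t : G} (o : Ok z t) : t * t = 1 := by
  obtain ⟨g, hg⟩ := o.ex
  have := h.z_sq F.toW0
  rwa [← hg, conj_mul, conj_eq_one_iff] at this

omit [Finite G] in
theorem Ok.ne_one {t : G} (o : Ok z t) : t ≠ 1 := fun e => by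
  obtain ⟨g, hg⟩ := o.ex
  exact h.z_ne F.toW0 (by rw [← hg, e, mul_one, mul_inv_cancel])

omit [Finite G] h in
theorem rep_mem {r : P} (hr : r ∈ [rA, rB, rC, rE, rF, rG]) : r ∈ W := by
  simp only [List.mem_cons, List.not_mem_nil, or_false] at hr
  rcases hr with rfl | rfl | rfl | rfl | rfl | rfl
  exacts [F.le F.mA, F.le F.mB, F.le F.mC, F.le F.mE, F.mF, F.mG]

omit [Finite G] in
theorem cls0 {t : G} (o : Ok z t) : ∃ r ∈ [rA, rB, rC, rE, rF, rG], ∃ c ∈ W, Ind N ι t (c * r * c⁻¹) := by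
  obtain ⟨w, hw, e⟩ := h.ind t o.cm
  have e2 := e.mul F.toW0 hw e
  rw [o.sq h F] at e2
  have k : ¬ Ind N ι t 1 := fun k => (h.kinv t k (o.sq h F)).elim (o.ne_one h F) o.ne
  rcases F.cls w hw (by simpa using h.uniq F.toW0 (mul_mem hw hw) W.one_mem e2 Ind.one) with e1 | e1 | ⟨r, hr, c, hc, e1⟩
  · exact (k (e1 ▸ e)).elim
  · exact (k (by simpa [e1, F.zz] using e.mul_z F.toW0)).elim
  · exact ⟨r, hr, c, hc, e1.elim (fun e1 => e1 ▸ e) fun e1 => e1 ▸ e.mul_z F.toW0⟩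

omit [Finite G] in
theorem ty_of {t : G} {r c : P} (hc : c ∈ W) (e : Ind N ι t (c * r * c⁻¹)) : Ty W N ζ z r t :=
  ⟨_, h.twist F.toW0 hc, Mo.ind_twist F.toW0 hc e⟩

omit h in
theorem Ty.card {t : G} {r : P} (hr : r ∈ W) (e : Ty W N ζ z r t) : Nat.card (DG z t) = Nat.card (DW N r) := by
  obtain ⟨ι, h, e⟩ := e
  rw [h.DG_eq F.toW0 hr e, h.card_im (A := DW N r) ((DD_le _).trans inf_le_left)]

/-- the type is determined by the order of `DG` -/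
theorem cls1 {t : G} (o : Ok z t) : ∃ c ∈ W,
    (Ind N ι t (c * rA * c⁻¹) ∧ Nat.card (DG z t) = 1024) ∨ (Ind N ι t (c * rB * c⁻¹) ∧ Nat.card (DG z t) = 11520) ∨
    (Ind N ι t (c * rC * c⁻¹) ∧ Nat.card (DG z t) = 23040) ∨ (Ind N ι t (c * rE * c⁻¹) ∧ Nat.card (DG z t) ∣ 768) ∨
    (Ind N ι t (c * rF * c⁻¹) ∧ Nat.card (DG z t) = 1451520) ∨ (Ind N ι t (c * rG * c⁻¹) ∧ Nat.card (DG z t) ∣ 1152) := by
  obtain ⟨r, hr, c, hc, e⟩ := cls0 h F o
  have k := Ty.card F (rep_mem F hr) (ty_of h F hc e)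
  refine ⟨c, hc, ?_⟩
  rw [k]
  simp only [List.mem_cons, List.not_mem_nil, or_false] at hr
  rcases hr with rfl | rfl | rfl | rfl | rfl | rfl
  exacts [.inl ⟨e, F.cA⟩, .inr (.inl ⟨e, F.cB⟩), .inr (.inr (.inl ⟨e, F.cC⟩)), .inr (.inr (.inr (.inl ⟨e, F.cE⟩))),
    .inr (.inr (.inr (.inr (.inl ⟨e, F.cF⟩)))), .inr (.inr (.inr (.inr (.inr ⟨e, F.cG⟩))))]

theorem card_partner {t g : G} {r : P} (hr : r ∈ W) (e : Ind N ι t r) (hg : g * t * g⁻¹ = z) :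
    Nat.card (DG z (g * z * g⁻¹)) = Nat.card (DW N r) := by
  rw [← cj_pair hg, card_cj, Ty.card F hr ⟨ι, h, e⟩]

theorem noC {t : G} (o : Ok z t) : ¬ Ind N ι t rC := fun e => by
  obtain ⟨g, hg⟩ := o.ex
  have k := (card_partner h F (F.le F.mC) e hg).trans F.cC
  obtain ⟨c, hc, H⟩ := cls1 h F (o.partner hg)
  rw [k] at H
  obtain ⟨ι', h', e'⟩ : Ty W N ζ z rC (g * z * g⁻¹) := by
    rcases H with H | H | H | H | H | H
    all_goals try (exfalso; have := H.2; omega)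
    exact ty_of h F hc H.1
  have h1 : z ∈ DG z (g * z * g⁻¹) := h'.DG_eq F.toW0 (F.le F.mC) e' ▸ h'.mem_im.2 ⟨ζ, F.zC, F.zN, h'.zz⟩
  rw [← cj_pair hg, mem_cj, show g⁻¹ * z * g = t by rw [← hg]; group, h.DG_eq F.toW0 (F.le F.mC) e] at h1
  obtain ⟨u, -, hu, rfl⟩ := h.mem_im.1 h1
  have h2 : u * u = 1 := h.inj (mul_mem hu hu) (by rw [h.mul hu hu, o.sq h F])
  refine F.z1 ?_
  rcases h.uniq F.toW0 (F.le F.mC) (F.le hu) e (h.ind_ι hu) with e1 | e1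
  · rw [← F.sC, e1, h2]
  · rw [← F.sC, e1, mul_assoc, ← mul_assoc ζ, (F.zc u (F.le hu)).eq, mul_assoc, F.zz, mul_one, h2]

theorem f0 {t y : G} (e : Ind N ι t rF) (hy : ∀ d ∈ DW N rF, Commute y (ι d)) (h1 : y * t * y⁻¹ = z)
    (h2 : y * z * y⁻¹ = t ∨ y * z * y⁻¹ = t * z) : False := by
  obtain ⟨x, hx, r2, er, c1, m1, m2, m3, m4, m5, ea, -⟩ := F.dF
  have F0 := F.toW0
  have DN : DW N rF ≤ N := (DD_le _).trans inf_le_left
  have zz := h.z_sq F0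
  have tz : Commute t z := h.comm_z F0 F.mF e
  set δ := ι (rF * r2 * ζ) with hδ
  have δN := DN m1
  have Xz := h.cz F0 hx
  have δz : Commute δ z := h.cz F0 δN
  have δt : Commute δ t := by
    have := e _ δN
    rw [← mem_cent_singleton.1 (DD_le _ m1).2, mul_inv_cancel_right] at this
    exact (mul_inv_eq_iff_eq_mul.1 this).symm
  have ri : rF⁻¹ = rF := inv_eq_of_mul_eq_one_right F.sF
  have et : ι x * t * (ι x)⁻¹ = δ * z * t := by
    rw [hδ, ← h.ι_z F0 δN, mul_assoc _ ζ, F.zz, mul_one, c1.eq, ← er, ← ri,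
      show x * rF⁻¹ * x⁻¹ * rF⁻¹ = x * (rF⁻¹ * x⁻¹ * rF⁻¹) by group, ri]
    conv_rhs => rw [show rF * x⁻¹ * rF = rF * x⁻¹ * rF⁻¹ by rw [ri]]
    rw [h.mul hx (F.norm _ F.mF _ (inv_mem hx)), ← e _ (inv_mem hx), h.inv hx]
    group
  set y2 := ι x * y * (ι x)⁻¹ with hy2
  have k2 : ∀ d ∈ N, x⁻¹ * d * x ∈ DW N rF → y2 * ι d * y2⁻¹ = ι d := fun d hd hm => by
    have := (hy _ hm).map (MulAut.conj (ι x))
    simp only [MulAut.conj_apply] at this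
    rw [← h.conj hx (DN hm), show x * (x⁻¹ * d * x) * x⁻¹ = d by group] at this
    exact fix_of this
  have k3 : y2 * (δ * z * t) * y2⁻¹ = z := by
    rw [← et, hy2, show ι x * y * (ι x)⁻¹ * (ι x * t * (ι x)⁻¹) * (ι x * y * (ι x)⁻¹)⁻¹ =
      ι x * (y * t * y⁻¹) * (ι x)⁻¹ by group, h1, fix_of Xz]
  have k4 : y2 * z * y2⁻¹ = ι x * (y * z * y⁻¹) * (ι x)⁻¹ := by
    conv_lhs => rw [← fix_of Xz]
    rw [hy2]; group
  have yδ := fix_of (hy _ m1)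
  have yb := fix_of (hy _ m4)
  have y2δ : y2 * δ * y2⁻¹ = δ := k2 _ δN m2
  have y2β : y2 * (ι rE * z) * y2⁻¹ = ι rE * z := by rw [← h.ι_z F0 F.mE]; exact k2 _ (mul_mem F.mE F.zN) m5
  have ea' : ι rA = δ * ι rE * z := by
    rw [hδ, ← h.mul δN F.mE, ← h.ι_z F0 (mul_mem δN F.mE), mul_assoc _ ζ, (F.zc _ (F.le F.mE)).eq, ← mul_assoc,
      mul_assoc _ ζ, F.zz, mul_one, ea]
  have tt : t = z * δ⁻¹ * (δ * z * t) := by
    rw [mul_assoc, mul_assoc δ, inv_mul_cancel_left, ← mul_assoc, zz, one_mul]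
  have yz : y⁻¹ * z * y = t := by rw [← h1]; group
  have A1 : y⁻¹ * ι rA * y = δ * (ι rE * z) * δ⁻¹ * (δ * z * t) := by
    calc _ = y⁻¹ * (y * δ * y⁻¹ * (y * ι rE * y⁻¹) * z) * y := by rw [yδ, yb, ea']
      _ = δ * ι rE * (y⁻¹ * z * y) := by group
      _ = _ := by rw [yz]; (conv_lhs => rw [tt]); group
  have A2 : y2 * (y⁻¹ * ι rA * y) * y2⁻¹ = δ * ι rE * δ⁻¹ := by
    rw [A1, ← conj_mul, ← conj_mul, ← conj_mul, ← conj_inv, y2δ, y2β, k3, mul_assoc _ δ⁻¹, δz.inv_left.eq]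
    simp only [mul_assoc]
    rw [← mul_assoc z z, zz, one_mul]
  have A3 : y * (δ * ι rE * δ⁻¹) * y⁻¹ = δ * ι rE * δ⁻¹ := by rw [← conj_mul, ← conj_mul, ← conj_inv, yδ, yb]
  have B1 : y2 * t * y2⁻¹ = ι x * (y * z * y⁻¹) * (ι x)⁻¹ * δ⁻¹ * z := by
    conv_lhs => rw [tt]
    rw [← conj_mul, ← conj_mul, ← conj_inv, y2δ, k3, k4]
  have fin : ∀ u, u * (δ * ι rE * δ⁻¹) * u⁻¹ = δ * ι rE * δ⁻¹ → u * (y2 * t * y2⁻¹) * u⁻¹ = z → False := fun u u1 u2 => by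
    have q1 : u * y2 * y⁻¹ * z * (u * y2 * y⁻¹)⁻¹ = z :=
      calc _ = u * (y2 * (y⁻¹ * z * y) * y2⁻¹) * u⁻¹ := by group
        _ = z := by rw [yz, u2]
    have q2 : u * y2 * y⁻¹ * ι rA * (u * y2 * y⁻¹)⁻¹ = δ * ι rE * δ⁻¹ :=
      calc _ = u * (y2 * (y⁻¹ * ι rA * y) * y2⁻¹) * u⁻¹ := by group
        _ = _ := by rw [A2, u1]
    have q3 := card_cj (u * y2 * y⁻¹) (DG z (ι rA))
    have q4 := card_cj δ (DG z (ι rE))
    rw [cj_DG, q1, q2, Ty.card F (F.le F.mA) ⟨ι, h, h.ind_ι F.mA⟩, F.cA] at q3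
    rw [cj_DG, fix_of δz, q3, Ty.card F (F.le F.mE) ⟨ι, h, h.ind_ι F.mE⟩] at q4
    exact absurd (q4 ▸ F.cE) (by norm_num)
  have w1 : δ * z * t * δ⁻¹ = z * t := by rw [mul_assoc δ, fix_of (δz.mul_right δt)]
  rcases h2 with h2 | h2
  · refine fin y A3 ?_
    rw [B1, h2, et, w1, mul_assoc z, tz.eq, ← mul_assoc z z, zz, one_mul, h1]
  · refine fin (y * y) (by rw [mul_inv_rev, mul_assoc y y, mul_assoc y, ← mul_assoc _ y⁻¹, A3, ← mul_assoc, A3]) ?_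
    rw [B1, h2, ← conj_mul (b := ι x), et, fix_of Xz, mul_assoc _ z δ⁻¹, ← δz.inv_left.eq, ← mul_assoc _ δ⁻¹ z, w1, mul_assoc _ z z, zz,
      mul_one, show y * y * (z * t) * (y * y)⁻¹ = y * (y * z * y⁻¹ * (y * t * y⁻¹)) * y⁻¹ by group, h2, h1,
      mul_assoc t, zz, mul_one, h1]

theorem noF {t : G} (o : Ok z t) : ¬ Ind N ι t rF := fun e => by
  have F0 := F.toW0
  have DN : DW N rF ≤ N := (DD_le _).trans inf_le_left
  obtain ⟨g1, hg1, e1⟩ : ∃ g, g * t * g⁻¹ = z ∧ Ind N ι (g * z * g⁻¹) rF := by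
    obtain ⟨g, hg⟩ := o.ex
    have k := (card_partner h F F.mF e hg).trans F.cF
    obtain ⟨c, hc, H⟩ := cls1 h F (o.partner hg)
    rw [k] at H
    obtain ⟨c', hc', e'⟩ : ∃ c ∈ N, Ind N ι (g * z * g⁻¹) (c * rF * c⁻¹) := by
      rcases H with H | H | H | H | H | H
      all_goals try (exfalso; have := H.2; omega)
      by_cases hN : c ∈ N
      · exact ⟨c, hN, H.1⟩
      · exact ⟨c * rF, F.idx c hc rF F.mF hN F.nF, by convert H.1 using 1; group⟩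
    refine ⟨(ι c')⁻¹ * g, ?_, ?_⟩
    · rw [show (ι c')⁻¹ * g * t * ((ι c')⁻¹ * g)⁻¹ = (ι c')⁻¹ * (g * t * g⁻¹) * (ι c')⁻¹⁻¹ by group, hg,
        fix_of (h.cz F0 hc').inv_left]
    · have := ((h.ind_ι hc').inv F0 (F.le hc')).conj F0 (inv_mem (F.le hc'))
        (mul_mem (mul_mem (F.le hc') F.mF) (inv_mem (F.le hc'))) e'
      convert this using 1 <;> group
  obtain ⟨g, hg, e2, hc⟩ : ∃ g, g * t * g⁻¹ = z ∧ Ind N ι (g * z * g⁻¹) rF ∧ ∀ d ∈ DW N rF, Commute g (ι d) := by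
    have k := cj_pair hg1
    rw [h.DG_eq F0 F.mF e, h.DG_eq F0 F.mF e1] at k
    have : ∀ d : DW N rF, ∃ d' : DW N rF, ι d' = g1 * ι d * g1⁻¹ := fun d => by
      obtain ⟨a, ha, -, e⟩ := h.mem_im.1 (k ▸ conj_mem_cj g1 ((h.ι_mem_im (DN d.2)).2 d.2))
      exact ⟨⟨a, ha⟩, e⟩
    choose f hf using this
    let f' : DW N rF →* DW N rF := MonoidHom.mk' f fun a b => Subtype.ext (h.ext (DN (f _).2) (DN (f a * f b).2) (by
      rw [hf, coe_mul, coe_mul, h.mul (DN a.2) (DN b.2), h.mul (DN (f a).2) (DN (f b).2), hf, hf, conj_mul]))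
    have : Finite (DW N rF) := Nat.finite_of_card_ne_zero (by rw [F.cF]; norm_num)
    have hi : Function.Injective f' := fun a b e => Subtype.ext (h.ext (DN a.2) (DN b.2) (conj_injective (x := g1) (by
      show g1 * ι a * g1⁻¹ = g1 * ι b * g1⁻¹
      rw [← hf, ← hf]; exact congrArg (fun d : DW N rF => ι d) e)))
    obtain ⟨d, hd⟩ := F.oF (MulEquiv.ofBijective f' (Finite.injective_iff_bijective.1 hi))
    have dN := DN d.2
    refine ⟨(ι d)⁻¹ * g1, ?_, ?_, fun a ha => ?_⟩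
    · rw [show (ι d)⁻¹ * g1 * t * ((ι d)⁻¹ * g1)⁻¹ = (ι d)⁻¹ * (g1 * t * g1⁻¹) * (ι d)⁻¹⁻¹ by group, hg1,
        fix_of (h.cz F0 dN).inv_left]
    · have := ((h.ind_ι dN).inv F0 (F.le dN)).conj F0 (inv_mem (F.le dN)) F.mF e1
      rw [fix_of (Commute.inv_left (mem_cent_singleton.1 (DD_le _ d.2).2))] at this
      convert this using 1; group
    · have q : ι (f ⟨a, ha⟩) = ι (d * a * (d : P)⁻¹) := congrArg (fun d : DW N rF => ι d) (DFunLike.congr_fun hd ⟨a, ha⟩)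
      rw [hf, h.conj dN (DN ha)] at q
      calc (ι d)⁻¹ * g1 * ι a = (ι d)⁻¹ * (g1 * ι a * g1⁻¹) * g1 := by group
        _ = _ := by rw [q]; group
  have tt := o.sq h F
  have ss := (o.partner hg).sq h F
  set s := g * z * g⁻¹ with hs
  have k1 : Ind N ι (t * s) 1 := F.sF ▸ e.mul F0 F.mF e2
  set k := t * s with hk
  have kp : ∀ a : ℕ, Ind N ι (k ^ a) 1 := fun a => by simpa using k1.pow F0 W.one_mem a
  have kz : ∀ a : ℕ, k ^ a * z * (k ^ a)⁻¹ = z := fun a => fix_of (h.comm_z F0 W.one_mem (kp a))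
  have si : s⁻¹ = s := inv_eq_of_mul_eq_one_right ss
  have sk : ∀ a : ℕ, k ^ a * s * (k ^ a)⁻¹ = k ^ (a + a) * s := fun a => by
    have : s * k⁻¹ * s⁻¹ = k := by
      rw [hk, mul_inv_rev, si, inv_eq_of_mul_eq_one_right tt, ← mul_assoc s s, ss, one_mul]
    have e : k ^ a = s * (k ^ a)⁻¹ * s⁻¹ := by rw [← inv_pow, ← conj_pow, this]
    rw [pow_add, mul_assoc _ s, mul_assoc _ _ s, eq_mul_inv_iff_mul_eq.1 e]
  have ks : k * s = t := by rw [hk, mul_assoc, ss, mul_one]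
  have q1 : ∀ a : ℕ, k ^ a * g * t * (k ^ a * g)⁻¹ = z := fun a =>
    calc _ = k ^ a * (g * t * g⁻¹) * (k ^ a)⁻¹ := by group
      _ = z := by rw [hg, kz]
  have q2 : ∀ a : ℕ, k ^ a * g * z * (k ^ a * g)⁻¹ = k ^ (a + a) * s := fun a =>
    calc _ = k ^ a * s * (k ^ a)⁻¹ := by rw [hs]; group
      _ = _ := sk a
  have q3 : ∀ a : ℕ, ∀ d ∈ DW N rF, Commute (k ^ a * g) (ι d) := fun a d hd =>
    (ind_one_iff.1 (kp a) d (DN hd)).mul_left (hc d hd)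
  rcases Nat.even_or_odd' (orderOf k) with ⟨j, hj | hj⟩
  · have hj0 : 0 < j := by have := orderOf_pos k; omega
    have kj : k ^ j = z := (h.kinv _ (kp j) (by rw [← pow_add, ← two_mul, ← hj, pow_orderOf_eq_one])).resolve_left
      fun e => by have := Nat.le_of_dvd hj0 (orderOf_dvd_of_pow_eq_one e); omega
    rcases Nat.even_or_odd' j with ⟨a, ha | ha⟩
    · have u1 : g⁻¹ * k ^ a * g * t * (g⁻¹ * k ^ a * g)⁻¹ = t :=
        calc _ = g⁻¹ * (k ^ a * g * t * (k ^ a * g)⁻¹) * g := by group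
          _ = t := by rw [q1, ← hg]; group
      have u2 : g⁻¹ * k ^ a * g * z * (g⁻¹ * k ^ a * g)⁻¹ = t * z :=
        calc _ = g⁻¹ * (k ^ a * g * z * (k ^ a * g)⁻¹) * g := by group
          _ = _ := by rw [q2, ← two_mul, ← ha, kj, hs, show t = g⁻¹ * z * g by rw [← hg]; group]; group
      refine f0 h F (t := t * z) (y := g⁻¹ * k ^ a * g) (by simpa using e.mul F0 W.one_mem (h.ind_z F0))
        (fun d hd => ?_) ?_ (.inl u2)
      · rw [mul_assoc]; exact (hc d hd).inv_left.mul_left (q3 a d hd)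
      · rw [← conj_mul, u1, u2, ← mul_assoc, tt, one_mul]
    · refine f0 h F e (q3 (a + 1)) (q1 _) (.inr ?_)
      rw [q2, show a + 1 + (a + 1) = j + 1 by omega, pow_succ, mul_assoc, ks, kj, o.cm.eq]
  · refine f0 h F e (q3 (j + 1)) (q1 _) (.inl ?_)
    rw [q2, show j + 1 + (j + 1) = orderOf k + 1 by omega, pow_succ, pow_orderOf_eq_one, one_mul, ks]

theorem noB1 (o : Ok z (ι rB)) : False := by
  obtain ⟨g, hg⟩ := o.ex
  have e := h.ind_ι F.mB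
  have k := (card_partner h F (F.le F.mB) e hg).trans F.cB
  obtain ⟨c, hc, H⟩ := cls1 h F (o.partner hg)
  rw [k] at H
  obtain ⟨ι', h', e'⟩ : Ty W N ζ z rB (g * z * g⁻¹) := by
    rcases H with H | H | H | H | H | H
    all_goals try (exfalso; have := H.2; omega)
    exact ty_of h F hc H.1
  have h1 := conj_mem_cj g (h.DG_eq F.toW0 (F.le F.mB) e ▸ (h.ι_mem_im F.mB).2 F.rB' : ι rB ∈ DG z (ι rB))
  rw [hg, cj_pair hg, h'.DG_eq F.toW0 (F.le F.mB) e'] at h1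
  exact F.zB ((h'.ι_mem_im F.zN).1 (by rw [h'.zz]; exact h1))

theorem noB {t : G} (o : Ok z t) : ¬ Ind N ι t rB := fun e => by
  have F0 := F.toW0
  rcases h.inner F0 F.mB F.sB e (o.sq h F) with rfl | e1
  · exact noB1 h F o
  rw [← h.ι_z F0 F.mB] at e1
  subst e1
  obtain ⟨x1, m1, x2, m2, y, e1, e2, c, u, hu, ou⟩ := F.dB
  have uN := mul_mem F.mB F.zN
  have yN : y ∈ N := e1 ▸ F.norm _ (F.le m1) _ uN
  obtain ⟨g, hg⟩ := o.ex
  have cm : Commute (g * ι y * g⁻¹) z := by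
    have := (h.comm yN uN c).map (MulAut.conj g)
    simp only [MulAut.conj_apply, hg] at this
    exact this
  have j1 : ∃ k, k * (g * ι y * g⁻¹) * k⁻¹ = z := ⟨g * (ι x1)⁻¹ * g⁻¹, by rw [← e1, h.conj m1 uN, ← hg]; group⟩
  have j2 : ∃ k, k * (g * ι y * g⁻¹ * z) * k⁻¹ = z := ⟨g * (ι x2)⁻¹ * g⁻¹, by
    conv_lhs => rw [← hg, conj_mul, ← h.mul yN uN, ← e2, h.conj m2 uN]
    rw [← hg]; group⟩
  have o1 : Ok z (g * ι y * g⁻¹) := ⟨j1, cm, fun e => by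
    obtain ⟨k, hk⟩ := j2
    rw [e, h.z_sq F0, mul_one, mul_inv_cancel] at hk
    exact h.z_ne F0 hk.symm⟩
  have o2 : Ok z (g * ι y * g⁻¹ * z) := ⟨j2, cm.mul_left rfl, fun e => o1.ne_one h F (mul_eq_right.1 e)⟩
  have h5 : 5 ∣ Nat.card (DG z (g * ι y * g⁻¹)) := by
    have hN := ((DD_le _) hu).1.1
    have : ι u ∈ DG (ι (rB * ζ)) (ι y) := by
      refine DD_mono (fun a ha => ?_) (h.im_DD (inf_le_left.trans inf_le_left) ▸ (h.ι_mem_im hN).2 hu)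
      obtain ⟨b, hb, hn, rfl⟩ := h.mem_im.1 ha
      exact ⟨mem_cent_singleton.2 (h.comm hn uN (mem_cent_singleton.1 hb.1.2)),
        mem_cent_singleton.2 (h.comm hn yN (mem_cent_singleton.1 hb.2))⟩
    rw [← hg, ← cj_DG, card_cj, ← ou, ← h.ord hN]
    exact Subgroup.orderOf_dvd_natCard _ this
  obtain ⟨c, hc, H⟩ := cls1 h F o1
  have h' := h.twist F0 hc
  rcases H with H | H | H | H | H | H
  · rw [H.2] at h5; norm_num at h5
  · rcases h'.inner F0 F.mB F.sB (Mo.ind_twist F0 hc H.1) (o1.sq h F) with e3 | e3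
    · exact noB1 h' F (e3 ▸ o1)
    · rw [e3, mul_assoc _ z, h.z_sq F0, mul_one] at o2
      exact noB1 h' F o2
  · exact noC h' F o1 (Mo.ind_twist F0 hc H.1)
  · exact absurd (h5.trans H.2) (by norm_num)
  · exact noF h' F o1 (Mo.ind_twist F0 hc H.1)
  · exact absurd (h5.trans H.2) (by norm_num)

theorem noA {t : G} (o : Ok z t) : ¬ Ind N ι t rA := fun e => by
  have F0 := F.toW0
  have DN : DW N rA ≤ N := (DD_le _).trans inf_le_left
  obtain ⟨g, hg⟩ := o.ex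
  have k := (card_partner h F (F.le F.mA) e hg).trans F.cA
  obtain ⟨c, hc, H⟩ := cls1 h F (o.partner hg)
  rw [k] at H
  obtain ⟨ι', h', e'⟩ : Ty W N ζ z rA (g * z * g⁻¹) := by
    rcases H with H | H | H | H | H | H
    all_goals try (exfalso; have := H.2; omega)
    exact ty_of h F hc H.1
  have p1 : Pr (DG z t) t := by
    rw [h.DG_eq F0 (F.le F.mA) e]
    rcases h.inner F0 F.mA F.sA e (o.sq h F) with e1 | e1 <;> rw [e1]
    · exact (h.pr_im DN F.mA).2 F.pA1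
    · rw [← h.ι_z F0 F.mA]; exact (h.pr_im DN (mul_mem F.mA F.zN)).2 F.pA2
  have p2 : Pr (cj g (DG z t)) (g * t * g⁻¹) := (pr_map (f := (MulAut.conj g).toMonoidHom) (MulAut.conj g).injective).2 p1
  rw [hg, cj_pair hg, h'.DG_eq F0 (F.le F.mA) e'] at p2
  exact F.pA0 ((h'.pr_im DN F.zN).1 (by rw [h'.zz]; exact p2))

theorem cls2 {t : G} (o : Ok z t) : ∃ c ∈ W, Ind N ι t (c * rE * c⁻¹) ∨ Ind N ι t (c * rG * c⁻¹) := by
  obtain ⟨c, hc, H⟩ := cls1 h F o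
  have h' := h.twist F.toW0 hc
  rcases H with H | H | H | H | H | H
  exacts [(noA h' F o (Mo.ind_twist F.toW0 hc H.1)).elim, (noB h' F o (Mo.ind_twist F.toW0 hc H.1)).elim,
    (noC h' F o (Mo.ind_twist F.toW0 hc H.1)).elim, ⟨c, hc, .inl H.1⟩,
    (noF h' F o (Mo.ind_twist F.toW0 hc H.1)).elim, ⟨c, hc, .inr H.1⟩]

omit [Finite G] in
theorem e0 {t : G} (o : Ok z t) (e : Ind N ι t rE) : (∃ g, g * (t * z) * g⁻¹ = z) ∧ Ok z (ι rE) := by
  have F0 := F.toW0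
  obtain ⟨x1, m1, -, -, -, -, e1, -⟩ := F.dE
  have q : ι x1 * ι rE * (ι x1)⁻¹ = ι rE * z := by rw [← h.conj m1 F.mE, e1, h.ι_z F0 F.mE]
  obtain ⟨g, hg⟩ := o.ex
  rcases h.inner F0 F.mE F.sE e (o.sq h F) with rfl | rfl
  · exact ⟨⟨g * (ι x1)⁻¹, by rw [← q, ← hg]; group⟩, o⟩
  · refine ⟨⟨g * ι x1, by rw [mul_assoc _ z, h.z_sq F0, mul_one, ← hg, ← q]; group⟩, ?_⟩
    have := o.conj (h.cz F0 m1).inv_left
    rwa [← q, show (ι x1)⁻¹ * (ι x1 * ι rE * (ι x1)⁻¹) * (ι x1)⁻¹⁻¹ = ι rE by group] at this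

theorem noE {t : G} (o : Ok z t) : ¬ Ind N ι t rE := fun e => by
  have F0 := F.toW0
  have o := (e0 h F o e).2
  obtain ⟨-, -, x2, m2, c, hc, -, hx, e2⟩ := F.dE
  have xN := F.norm c hc _ F.mA
  obtain ⟨g, hg⟩ := o.ex
  obtain ⟨w, hw, ew⟩ := h.ind _ (o.partner hg).cm
  have h1 := conj_mem_cj g (h.DG_eq F0 (F.le F.mE) (h.ind_ι F.mE) ▸ (h.ι_mem_im xN).2 hx : _ ∈ DG z (ι rE))
  rw [cj_pair hg, h.DG_eq F0 hw ew] at h1
  obtain ⟨v, -, hv, ev⟩ := h.mem_im.1 h1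
  have a1 : rA ≠ 1 := fun e => F.pA0 (by simpa [e] using F.pA2)
  have a2 : rA ≠ ζ := fun e => F.pA0 (e ▸ F.pA1)
  have o1 : Ok z (ι v * z) := ⟨⟨g * (ι x2)⁻¹ * g⁻¹, by
      conv_lhs => rw [ev, ← hg, conj_mul, ← h.mul xN F.mE, ← e2, h.conj m2 F.mE]
      rw [← hg]; group⟩, (h.cz F0 hv).mul_left rfl, fun e => by
    rw [mul_eq_right.1 e, eq_comm, conj_eq_one_iff] at ev
    exact a1 (conj_eq_one_iff.1 (h.inj xN ev))⟩
  obtain ⟨c', hc', H | H⟩ := cls2 h F o1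
  · obtain ⟨k, hk⟩ := (e0 (h.twist F0 hc') F o1 (Mo.ind_twist F0 hc' H)).1
    rw [mul_assoc _ z, h.z_sq F0, mul_one, ev] at hk
    refine noA (h.twist F0 hc) F (t := ι (c * rA * c⁻¹)) ⟨⟨k * g, by rw [← hk]; group⟩, h.cz F0 xN, fun e => a2 ?_⟩
      (Mo.ind_twist F0 hc (h.ind_ι xN))
    exact conj_injective (x := c) ((h.ext xN F.zN (e.trans h.zz.symm)).trans (by
      show ζ = c * ζ * c⁻¹
      rw [← (F.zc c hc).eq, mul_inv_cancel_right]))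
  · have := h.mem_of_ind F0 (mul_mem (mul_mem hc' F.mG) (inv_mem hc')) hv H
      (by simpa using (h.ind_ι hv).mul F0 W.one_mem (h.ind_z F0))
    exact F.nG (by simpa [mul_assoc] using F.norm _ (inv_mem hc') _ this)

theorem outer {t : G} (o : Ok z t) : ∃ w ∈ W, w ∉ N ∧ Ind N ι t w := by
  obtain ⟨c, hc, H | H⟩ := cls2 h F o
  · exact (noE (h.twist F.toW0 hc) F o (Mo.ind_twist F.toW0 hc H)).elim
  · exact ⟨_, mul_mem (mul_mem hc F.mG) (inv_mem hc), fun e => F.nG (by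
      simpa [mul_assoc] using F.norm _ (inv_mem hc) _ e), H⟩

theorem noG {t : G} (o : Ok z t) : ¬ Ind N ι t rG := fun e => by
  have F0 := F.toW0
  obtain ⟨x1, m1, x2, m2, x3, m3, a, b, c, e1, e2, e3, c1, c2, c3, n1, n2, n3, ep⟩ := F.dG
  obtain ⟨g, hg⟩ := o.ex
  have key : ∀ x ∈ N, ∀ a, x * rG * x⁻¹ = a → Commute a rG → a ≠ rG →
      a * rG⁻¹ ∈ N ∧ ∃ w ∈ W, w ∉ N ∧ Ind N ι (g * (ι (a * rG⁻¹) * t) * g⁻¹) w := fun x hx a ea ca na => by
    have hN : a * rG⁻¹ ∈ N := by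
      rw [← ea, show x * rG * x⁻¹ * rG⁻¹ = x * (rG * x⁻¹ * rG⁻¹) by group]
      exact mul_mem hx (F.norm _ F.mG _ (inv_mem hx))
    have q : ι (a * rG⁻¹) * t = ι x * t * (ι x)⁻¹ := by
      rw [← ea, show x * rG * x⁻¹ * rG⁻¹ = x * (rG * x⁻¹ * rG⁻¹) by group, h.mul hx (F.norm _ F.mG _ (inv_mem hx)),
        ← e _ (inv_mem hx), h.inv hx]
      group
    refine ⟨hN, outer h F ⟨⟨g * (ι x)⁻¹ * g⁻¹, by rw [q, ← hg]; group⟩, ?_, fun e' => na ?_⟩⟩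
    · have c : Commute t (ι (a * rG⁻¹)) := by
        have := e _ hN
        rw [fix_of (ca.symm.mul_right (Commute.refl rG).inv_right)] at this
        exact mul_inv_eq_iff_eq_mul.1 this
      have := (c.symm.mul_left (Commute.refl t)).map (MulAut.conj g)
      simp only [MulAut.conj_apply, hg] at this
      exact this
    · exact mul_inv_eq_one.1 (h.inj hN (mul_eq_right.1 (conj_injective (x := g) (e'.trans hg.symm))))
  obtain ⟨ha, w1, k1, l1, i1⟩ := key x1 m1 a e1 c1 n1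
  obtain ⟨hb, w2, k2, l2, i2⟩ := key x2 m2 b e2 c2 n2
  obtain ⟨hc, w3, k3, l3, i3⟩ := key x3 m3 c e3 c3 n3
  have i4 := (i1.mul F0 k2 i2).mul F0 k3 i3
  have ri : rG⁻¹ = rG := inv_eq_of_mul_eq_one_right F.sG
  have q : ι (a * rG⁻¹) * t * (ι (b * rG⁻¹) * t) * (ι (c * rG⁻¹) * t) = t := by
    have hb' := F.norm _ F.mG _ hb
    calc _ = ι (a * rG⁻¹) * (t * ι (b * rG⁻¹) * t⁻¹) * (t * t) * ι (c * rG⁻¹) * t := by group
      _ = ι (a * rG⁻¹ * (rG * (b * rG⁻¹) * rG⁻¹) * (c * rG⁻¹)) * t := by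
        rw [e _ hb, o.sq h F, mul_one, h.mul (mul_mem ha hb') hc, h.mul ha hb']
      _ = t := by
        rw [show a * rG⁻¹ * (rG * (b * rG⁻¹) * rG⁻¹) * (c * rG⁻¹) = a * b * (rG * rG)⁻¹ * c * rG⁻¹ by group, F.sG, inv_one,
          mul_one, ep, mul_inv_cancel, h.one, one_mul]
  rw [conj_mul, conj_mul, q, hg] at i4
  have := h.mem_of_ind F0 (mul_mem (mul_mem k1 k2) k3) N.one_mem i4 (h.ind_z F0)
  exact l3 ((mul_mem_cancel_left (F.idx _ k1 _ k2 l1 l2)).1 this)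

/-- The central involution is isolated. -/
theorem isolated {t : G} (o : Ok z t) : False := by
  obtain ⟨c, hc, H | H⟩ := cls2 h F o
  · exact noE (h.twist F.toW0 hc) F o (Mo.ind_twist F.toW0 hc H)
  · exact noG (h.twist F.toW0 hc) F o (Mo.ind_twist F.toW0 hc H)

end

end CL.O8S
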