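/-
Standard double covers of `Ω₈⁺(2)`: identification of the double cover and of its automorphisms, and the reduction.
-/
import Cfsg.Agent.TE.O8S1
import Cfsg.Agent.Fgs.SchurCover2

set_option autoImplicit false

open Cfsg Subgroup CL.Even CL.Grp CL.Schur Function

namespace CL.O8S

section Cover

variable {Γ X Y Q : Type*} [Group Γ] [Group X] [Group Y] [Group Q]

theorem equiv_of_ker {η : Γ →* X} {η' : Γ →* Y} (h : Surjective η) (h' : Surjective η') (hk : η.ker = η'.ker) :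
    ∃ e : X ≃* Y, ∀ g, e (η g) = η' g := by
  have k : ∀ g, η.liftOfSurjective h ⟨η', hk.le⟩ (η g) = η' g := fun g => η.liftOfRightInverse_comp_apply _ _ _ g
  refine ⟨MulEquiv.ofBijective (η.liftOfSurjective h ⟨η', hk.le⟩) ⟨(injective_iff_map_eq_one _).2 fun x hx => ?_,
    fun y => ?_⟩, k⟩
  · obtain ⟨g, rfl⟩ := h x
    exact hk.ge (show η' g = 1 from (k g).symm.trans hx)
  · obtain ⟨g, rfl⟩ := h' y
    exact ⟨η g, k g⟩

/-- the automorphisms that lift -/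
def Lf (ρ : X →* Q) : Subgroup (MulAut Q) where
  carrier := {φ | ∃ θ : MulAut X, ∀ x, φ (ρ x) = ρ (θ x)}
  one_mem' := ⟨1, fun _ => rfl⟩
  mul_mem' := fun ⟨a, ha⟩ ⟨b, hb⟩ => ⟨a * b, fun x => by rw [MulAut.mul_apply, hb, ha, MulAut.mul_apply]⟩
  inv_mem' := fun {φ} ⟨a, ha⟩ => ⟨a⁻¹, fun x => φ.injective (by rw [ha]; simp)⟩

theorem exists_down {ρ : X →* Q} (hρ : IsStemExtension ρ) (hZ : center Q = ⊥) (θ : MulAut X) :
    ∃ φ : MulAut Q, ∀ x, φ (ρ x) = ρ (θ x) := by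
  have k : ∀ (θ : MulAut X) (x : X), ρ x = 1 → ρ (θ x) = 1 := fun θ x hx => mem_bot.1 (hZ ▸ mem_center_iff.2 fun q => by
    obtain ⟨y, rfl⟩ := hρ.1 q
    obtain ⟨y, rfl⟩ := θ.surjective y
    rw [← map_mul, ← map_mul, ← map_mul, ← map_mul, mem_center_iff.1 (hρ.2.1 hx)])
  exact equiv_of_ker (η' := ρ.comp θ.toMonoidHom) hρ.1 (hρ.1.comp θ.surjective)
    (le_antisymm (k θ) fun x hx => by simpa using k θ⁻¹ _ hx)

theorem lift_two {A : Type*} [CommGroup A] [Finite Q] (hA : HasSchurMultiplier Q A) (hQ : Group.IsPerfect Q)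
    {σ : Γ →* Q} (hσ : IsStemExtension σ) (h4 : Nat.card A = 4) (hk : Nat.card σ.ker = 4) {π : Y →* Q}
    (hπ : IsStemExtension π) (h2 : Nat.card π.ker = 2) (φ : MulAut Q) : ∃ (η : Γ →* Y) (m : σ.ker), Surjective η ∧
      (∀ g, π (η g) = φ (σ g)) ∧ m ≠ 1 ∧ ∀ g, g ∈ η.ker ↔ g = 1 ∨ g = m := by
  obtain ⟨η, hη⟩ := exists_lift_of_perfect_cover hA hQ hσ (h4.trans hk.symm).le φ.toMonoidHom π hπ.1 hπ.2.1
  have e : ∀ g, π (η g) = φ (σ g) := DFunLike.congr_fun hη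
  have hs : Surjective η := surjective_of_stem hπ η (hη ▸ φ.surjective.comp hσ.1)
  have c := card_eq_card_ker_mul hs
  rw [card_eq_card_ker_mul hσ.1, card_eq_card_ker_mul hπ.1, hk, h2, ← mul_assoc] at c
  have c := Nat.eq_of_mul_eq_mul_right Nat.card_pos c
  obtain ⟨m, m1, hm⟩ := (Nat.card_eq_two_iff' (1 : η.ker)).1 (by omega)
  refine ⟨η, ⟨m, φ.injective (by rw [← e, show η m = 1 from m.2, map_one, map_one])⟩, hs, e,
    fun h => m1 (Subtype.ext (congrArg (fun x : σ.ker => (x : Γ)) h)), fun g => ⟨fun hg => ?_, ?_⟩⟩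
  · by_cases h : g = 1
    exacts [.inl h, .inr (congrArg Subtype.val (hm ⟨g, hg⟩ fun e => h (congrArg Subtype.val e)))]
  · rintro (rfl | rfl)
    exacts [one_mem _, m.2]

theorem cover_facts {A : Type*} [CommGroup A] [Finite Q] [IsSimpleGroup Q] (hA : HasSchurMultiplier Q A)
    (h4 : Nat.card A = 4) (hQ : Group.IsPerfect Q) (hZ : center Q = ⊥) (h6 : Nat.card (MulAut Q) = 6 * Nat.card Q)
    {ρ : X →* Q} (hρ : IsStemExtension ρ) (h2 : Nat.card ρ.ker = 2) {s : MulAut X} (hs : s * s = 1)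
    (hs' : ∀ x, s ≠ MulAut.conj x) {τ : Q →* Q} {a b : X} (ha : a * a = 1) (hb : b * b ≠ 1) (hτ : τ (ρ a) = ρ b)
    {π : Y →* Q} (hπ : IsStemExtension π) (hπ2 : Nat.card π.ker = 2) :
    (∀ θ : MulAut X, ∃ x, θ = MulAut.conj x ∨ θ = MulAut.conj x * s) ∧ Nonempty (X ≃* Y) := by
  have sq : ∀ k, ρ k = 1 → k * k = 1 := fun k hk => by
    have := congrArg Subtype.val (pow_card_eq_one' (x := (⟨k, hk⟩ : ρ.ker)))
    rwa [h2, pow_two] at this
  have key : ∀ (θ : MulAut X) (φ : MulAut Q), (∀ x, φ (ρ x) = ρ (θ x)) → φ ∈ Inn Q → ∃ x, θ = MulAut.conj x := by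
    rintro θ _ h ⟨q, rfl⟩
    obtain ⟨x, rfl⟩ := hρ.1 q
    exact ⟨x, MulEquiv.toMonoidHom_injective (lift_unique_of_perfect hρ.2.1 (perfect_of_stem hρ hQ) _ _
      (MonoidHom.ext fun y => (h y).symm.trans (by simp)))⟩
  have hI : Inn Q ≤ Lf ρ := by
    rintro _ ⟨q, rfl⟩
    obtain ⟨x, rfl⟩ := hρ.1 q
    exact ⟨MulAut.conj x, fun y => by simp⟩
  have i6 : (Inn Q).index = 6 := by
    have hi : Injective (MulAut.conj : Q →* MulAut Q) := (injective_iff_map_eq_one _).2 fun b hb =>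
      mem_bot.1 (hZ ▸ mem_center_iff.2 fun g => (mul_inv_eq_iff_eq_mul.1 (DFunLike.congr_fun hb g)).symm)
    have e := (Inn Q).index_mul_card
    rw [h6, ← Nat.card_congr (MonoidHom.ofInjective hi).toEquiv] at e
    exact Nat.eq_of_mul_eq_mul_right Nat.card_pos e
  have hτi : Injective τ := (MonoidHom.ker_eq_bot_iff τ).1 ((τ.normal_ker.eq_bot_or_eq_top).resolve_right fun e =>
    hb (sq b (hτ.symm.trans (show ρ a ∈ τ.ker from e ▸ mem_top _))))
  have i1 : (Lf ρ).index ≠ 1 := fun e => by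
    obtain ⟨θ, h⟩ : MulEquiv.ofBijective τ (Finite.injective_iff_bijective.1 hτi) ∈ Lf ρ := index_eq_one.1 e ▸ mem_top _
    have e1 : ρ (b⁻¹ * θ a) = 1 := by rw [map_mul, ← h, map_inv, ← hτ]; exact inv_mul_cancel _
    have e2 : θ a * θ a = 1 := by rw [← map_mul, ha, map_one]
    have c := mem_center_iff.1 (hρ.2.1 e1) b
    generalize hk : b⁻¹ * θ a = k at e1 c
    have : b * k * (b * k) = b * b * (k * k) := by rw [mul_assoc b k, ← mul_assoc k b, ← c]; simp only [mul_assoc]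
    rw [sq _ e1, mul_one, ← hk, mul_inv_cancel_left, e2] at this
    exact hb this.symm
  obtain ⟨φs, hφs⟩ := exists_down hρ hZ s
  have ms : φs ∈ Lf ρ := ⟨s, hφs⟩
  have ns : φs ∉ Inn Q := fun h => let ⟨x, e⟩ := key s φs hφs h; hs' x e
  have ss : φs * φs = 1 := MulEquiv.ext fun q => by
    obtain ⟨x, rfl⟩ := hρ.1 q
    rw [MulAut.mul_apply, hφs, hφs, ← MulAut.mul_apply, hs]; rfl
  have e := relIndex_mul_index hI
  rw [i6] at e
  obtain ⟨j, hj⟩ : Even ((Inn Q).relIndex (Lf ρ)) := Nat.not_odd_iff_even.1 fun ⟨j, hj⟩ => ns (by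
    have := ((Inn Q).subgroupOf (Lf ρ)).pow_index_mem ⟨φs, ms⟩
    rwa [mem_subgroupOf, coe_pow, show ((Inn Q).subgroupOf (Lf ρ)).index = 2 * j + 1 from hj, pow_succ, pow_mul,
      pow_two, ss, one_pow, one_mul] at this)
  have i3 : (Lf ρ).index = 3 ∧ j = 1 := by
    rw [hj] at e
    have : (Lf ρ).index ∣ 3 := ⟨j, by nlinarith⟩
    have := (Nat.prime_three.eq_one_or_self_of_dvd _ this).resolve_left i1
    rw [this] at e
    omega
  refine ⟨fun θ => ?_, ?_⟩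
  · obtain ⟨φ, hφ⟩ := exists_down hρ hZ θ
    by_cases h : φ ∈ Inn Q
    · exact (key θ φ hφ h).imp fun _ => .inl
    have : φ * φs ∈ Inn Q := (mul_mem_iff_of_index_two (H := (Inn Q).subgroupOf (Lf ρ)) (hj.trans (by rw [i3.2]))
      (a := ⟨φ, θ, hφ⟩) (b := ⟨φs, ms⟩)).2 (iff_of_false h ns)
    obtain ⟨x, e⟩ := key (θ * s) _ (fun x => by rw [MulAut.mul_apply, hφs, hφ, MulAut.mul_apply]) this
    exact ⟨x, .inr (by rw [← e, mul_assoc, hs, mul_one])⟩
  obtain ⟨Γ, _, _, σ, hσ, ⟨eA⟩⟩ := hA.1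
  have hk : Nat.card σ.ker = 4 := (Nat.card_congr eA.toEquiv).trans h4
  choose η κ h1 h2 h3 h4' using lift_two hA hQ hσ h4 hk hρ h2
  obtain ⟨η', m, k1, -, k3, k4⟩ := lift_two hA hQ hσ h4 hk hπ hπ2 1
  by_contra hn
  have nm : ∀ φ, κ φ ≠ m := fun φ e => hn (let ⟨f, _⟩ := equiv_of_ker (h1 φ) k1 (ext fun g => by rw [h4', k4, e]); ⟨f⟩)
  classical
  have := Fintype.ofFinite σ.ker
  have : Finite (MulAut Q ⧸ Lf ρ) := Nat.finite_of_card_ne_zero (by rw [← index_eq_card, i3.1]; norm_num)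
  have := Fintype.ofFinite (MulAut Q ⧸ Lf ρ)
  have := Finset.card_le_card_of_injOn (s := Finset.univ) (t := (Finset.univ.erase 1).erase m)
    (fun q : MulAut Q ⧸ Lf ρ => κ q.out⁻¹) (fun q _ => by simp [nm, h3]) fun q _ q' _ e => by
      obtain ⟨θ, hθ⟩ := equiv_of_ker (h1 q'.out⁻¹) (h1 q.out⁻¹) (ext fun g => by
        rw [h4', h4', show κ q.out⁻¹ = κ q'.out⁻¹ from e])
      rw [← q.out_eq, ← q'.out_eq]
      refine QuotientGroup.eq.2 ⟨θ, fun x => ?_⟩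
      obtain ⟨g, rfl⟩ := h1 q'.out⁻¹ x
      rw [hθ, h2, h2]
      simp
  rw [Finset.card_erase_of_mem (by simp [k3]), Finset.card_erase_of_mem (Finset.mem_univ _), Finset.card_univ,
    Finset.card_univ, ← Nat.card_eq_fintype_card, ← Nat.card_eq_fintype_card, ← index_eq_card, i3.1, hk] at this
  omega

end Cover

theorem odd_mul {K : Type*} [Group K] [Finite K] (hR : ∀ R : Sylow 2 K, IsCyclic (R : Subgroup K)) {z : K}
    (hz : orderOf z = 2) {a b : K} (ha : Odd (orderOf a)) (hb : Odd (orderOf b)) : Odd (orderOf (a * b)) := by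
  obtain ⟨R⟩ : Nonempty (Sylow 2 K) := inferInstance
  have hp : (Nat.card K).minFac = 2 := (Nat.minFac_eq_two_iff _).2 (hz ▸ _root_.orderOf_dvd_natCard z)
  have hc := (hR R).normalizer_le_centralizer hp
  have k : ∀ a, Odd (orderOf a) → a ∈ (MonoidHom.transferSylow R hc).ker := fun a ha => by
    obtain ⟨j, hj⟩ := R.isPGroup' (MonoidHom.transferSylow R hc a)
    exact orderOf_eq_one_iff.1 (Nat.Coprime.eq_one_of_dvd ((Nat.coprime_two_right.2
      (ha.of_dvd_nat (orderOf_map_dvd _ a))).pow_right j) (orderOf_dvd_of_pow_eq_one hj))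
  exact Nat.not_even_iff_odd.1 fun h => MonoidHom.not_dvd_card_ker_transferSylow R hc
    (h.two_dvd.trans (Subgroup.orderOf_dvd_natCard _ (mul_mem (k a ha) (k b hb))))

variable {P G : Type*} [Group P] [Group G] [Finite G] {W N : Subgroup P} {ζ rA rB rC rE rF rG : P}

/-- The reduction to the model. -/
theorem normal_of_model (hO : oddCore G = ⊥) {L : Subgroup G} (hL : IsStandardSubgroup L)
    (hR : ∀ R : Sylow 2 𝒞(L), IsCyclic (R : Subgroup 𝒞(L))) (F : WF W N ζ rA rB rC rE rF rG) (e : N ≃* L)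
    (hA : ∀ θ : MulAut N, ∃ w ∈ W, ∀ l : N, (θ l : P) = w * l * w⁻¹) : L.Normal := by
  classical
  set ι : P → G := fun a => if h : a ∈ N then e ⟨a, h⟩ else 1
  have hι : ∀ {a} (h : a ∈ N), ι a = e ⟨a, h⟩ := fun h => dif_pos h
  have hs : ∀ y ∈ L, ∃ a ∈ N, ι a = y := fun y hy => ⟨e.symm ⟨y, hy⟩, (e.symm _).2, by rw [hι (e.symm _).2]; simp⟩
  have mul : ∀ {a b}, a ∈ N → b ∈ N → ι (a * b) = ι a * ι b := fun ha hb => by
    rw [hι ha, hι hb, hι (mul_mem ha hb), ← coe_mul, ← map_mul]; rfl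
  have inj : ∀ {a}, a ∈ N → ι a = 1 → a = 1 := fun ha h =>
    congrArg Subtype.val ((map_eq_one_iff e e.injective).1 (Subtype.ext ((hι ha).symm.trans h)))
  have hK : ∀ {k}, Ind N ι k 1 → k ∈ 𝒞(L) := fun hk => mem_centralizer_iff.2 fun y hy => by
    obtain ⟨a, ha, rfl⟩ := hs y hy
    exact (ind_one_iff.1 hk a ha).symm
  have zL : ι ζ ∈ L := hι F.zN ▸ (e _).2
  have zc : ι ζ ∈ 𝒞(L) := mem_centralizer_iff.2 fun y hy => by
    obtain ⟨a, ha, rfl⟩ := hs y hy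
    rw [← mul ha F.zN, ← mul F.zN ha, (F.zc a (F.le ha)).eq]
  have ho : orderOf (ι ζ) = 2 := orderOf_eq_prime (by
    rw [pow_two, ← mul F.zN F.zN, F.zz, hι N.one_mem]; exact congrArg Subtype.val e.map_one) fun h => F.z1 (inj F.zN h)
  have hN : centralizer {ι ζ} ≤ 𝒩(L) := fun g hg => by
    rw [hL.2.2.2]
    by_contra hn
    refine (hL.2.1.2 g hn).not_two_dvd_nat (ho ▸ orderOf_dvd_natCard _ ⟨zc, ?_⟩)
    exact ⟨_, zc, mul_inv_eq_of_eq_mul (mem_centralizer_singleton_iff.1 hg)⟩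
  have h : Mo W N ζ (ι ζ) ι := by
    refine ⟨mul, inj, rfl, fun x hx => ?_, fun k hk h2 => ?_, fun k k' hk hk' o o' => ?_⟩
    · obtain ⟨w, hw, h⟩ := hA ((e.trans (L.normalizerMonoidHom ⟨x, hN (mem_centralizer_singleton_iff.2 hx)⟩)).trans e.symm)
      refine ⟨w, hw, fun l hl => ?_⟩
      rw [← h ⟨l, hl⟩, hι (Subtype.prop _), hι hl]
      simp only [MulEquiv.trans_apply, Subtype.coe_eta, MulEquiv.apply_symm_apply]
      rfl
    · by_cases h1 : k = 1
      · exact .inl h1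
      have o : orderOf k = 2 := orderOf_eq_prime (by rw [pow_two, h2]) h1
      obtain ⟨S, hS, hk'⟩ := exists_isSylowIn_ge (p := 2) (U := zpowers k)
        (IsPGroup.of_card (n := 1) (by rw [Nat.card_zpowers, o]; rfl)) (zpowers_le.2 (hK hk))
      have : IsCyclic (S.subgroupOf 𝒞(L)) := hR hS.toSylow
      exact .inr (CL.Inv.eq_of_invol_of_mem_isCyclic (isCyclic_of_surjective _ (subgroupOfEquivOfLe hS.le).surjective)
        (hk' (mem_zpowers k)) (hS.le_of_normalized (IsPGroup.of_card (n := 1) (by rw [Nat.card_zpowers, ho]; rfl))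
          (zpowers_le.2 zc) ((cent_mono (zpowers_le.2 zL)).trans (cent_le_norm _)) (mem_zpowers _)) o ho)
    · have := odd_mul hR (z := ⟨_, zc⟩) (by rwa [orderOf_mk]) (a := ⟨k, hK hk⟩) (b := ⟨k', hK hk'⟩)
        (by rwa [orderOf_mk]) (by rwa [orderOf_mk])
      rwa [← orderOf_coe] at this
  have := mem_center_iff.1 (CL.Inv.zstar_mem_center hO (z := ι ζ) ⟨ho, fun g hg => by
    by_contra hne
    exact isolated h F ⟨⟨g⁻¹, by group⟩, hg.symm, hne⟩⟩)
  exact normalizer_eq_top_iff.1 (top_le_iff.1 fun g _ => hN (mem_centralizer_singleton_iff.2 (this g)))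

end CL.O8S
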