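/-
Standard double covers of `Ω₈⁺(2)`: the facts in the Weyl group of type E8, assembled.
-/
import Cfsg.Agent.TE.O8S3
import Cfsg.Agent.TE.O8MA
import Cfsg.Agent.TE.O8MB
import Cfsg.Agent.TE.O8MC
import Cfsg.Agent.TE.O8ME
import Cfsg.Agent.TE.O8MF
import Cfsg.Agent.TE.O8MG
import Cfsg.Agent.S0814

set_option autoImplicit false
set_option maxRecDepth 200000

open Cfsg Subgroup CL.PG Function
open scoped commutatorElement

namespace CL.O8S

theorem val_of {G Γ : Type*} [Group G] [Group Γ] {gs : List G} {ms : List Γ} {l l' : List (List ℕ)} {K : Subgroup G}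
    {f : K →* Γ} (hf : ∀ w (hw : wordG gs (subs l w) ∈ K), f ⟨wordG gs (subs l w), hw⟩ = wordG ms (subs l' w)) (i : ℕ)
    (x : K) (h : (x : G) = wordG gs (l.getD i [])) : f x = wordG ms (l'.getD i []) := by
  have := hf [2 * i] (by rw [wordG_subs_single, ← h]; exact x.2)
  rw [wordG_subs_single ms] at this
  exact (congrArg f (Subtype.ext (h.trans (wordG_subs_single _ _ _).symm))).trans this

noncomputable abbrev NN := subW M.gs1 [[0], [2]]

noncomputable abbrev HH := subW CL.Std.O8p2.gs1 [[0], [2]]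

theorem wf : WF (subW M.gs1 [[0], [2], [4]]) NN (wordG M.gs1 [236]) (wordG M.gs1 [238]) (wordG M.gs1 [240])
    (wordG M.gs1 [242]) (wordG M.gs1 [244]) (wordG M.gs1 [4]) (wordG M.gs1 [246]) :=
  have m := M.ms M.c1
  have s := M.sq M.c1
  { M.w0 M.c1 with
    cls := M.cls M.c1, mA := m.1, mB := m.2.1, mC := m.2.2.1, mE := m.2.2.2.1, mF := m.2.2.2.2.1, mG := m.2.2.2.2.2
    nF := M.nF M.c1, nG := M.nG M.c1
    sA := s.1, sB := s.2.1, sC := s.2.2.1, sE := s.2.2.2.1, sF := s.2.2.2.2.1, sG := s.2.2.2.2.2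
    cA := MA.res.1, cB := MB.res.1, cC := MC.res.1, cE := ME.res.1, cF := MF.res.1, cG := MG.res.1
    pA1 := MA.res.2.1, pA2 := MA.res.2.2.1, pA0 := MA.res.2.2.2, zB := MB.res.2.1, rB' := MB.res.2.2.1
    dB := MB.res.2.2.2, zC := MC.res.2, dE := ME.res.2, dF := MF.res.2.2, dG := MG.res.2
    oF := by
      have := CL.Std.PS62.simple
      refine inner_of MF.res.2.1.some (center_eq_bot_of_simple CL.Std.PS62.card (by norm_num)) ?_
      obtain ⟨e⟩ := CL.Std.PS62.iso (F := ZMod 2) rfl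
      rw [Nat.card_congr (MulAut.congr e).toEquiv, Nat.card_congr e.toEquiv]
      simpa using Cfsg.Agent.S0814.result (F := ZMod 2) 2 1 le_rfl rfl 3 (by norm_num) (by omega) }

theorem exists_rho : ∃ (ρ : NN →* HH) (τ : HH →* HH) (a b : NN), IsStemExtension ρ ∧ Nat.card ρ.ker = 2 ∧ a * a = 1 ∧
    b * b ≠ 1 ∧ τ (ρ a) = ρ b := by
  have c := CL.Std.O8p2.c1
  have k1 : subW Std.O8p2.gs1 [[0], [2], M.wB, M.wC] = HH :=
    le_antisymm (c.le (by decide +kernel)) (c.le (by decide +kernel))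
  have k2 : subW Std.O8p2.gs1 [[0], [2], M.wB] = HH := le_antisymm (c.le (by decide +kernel)) (c.le (by decide +kernel))
  have k3 : subW Std.O8p2.gs1 [M.t0, M.t1, M.wC] ≤ HH := c.le (by decide +kernel)
  obtain ⟨f, f1, f2, f3⟩ := RelLe.ker (l := [[0], [2], [240], [242]]) (lQ := [[236]]) (l' := [[0], [2], M.wB, M.wC])
    (M.rho M.c1 c ((faithful_eF _).mono le_top)) (by decide +kernel) (K := NN)
    (le_antisymm (M.c1.le (by decide +kernel)) (M.c1.le (by decide +kernel))) rfl (M.c1.le (by decide +kernel))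
    (a := 2) (b := 174182400) (M.N_ub M.c1) (M.Z_lb M.c1) (k1.symm ▸ LB.of_card Std.O8p2.card)
  obtain ⟨g, g1, g2⟩ := RelLe.hom (l := [[0], [2], M.wB]) (l' := [M.t0, M.t1, M.wC])
    (M.tau c c ((faithful_eF _).mono le_top))
  rw [k1] at f1
  have hk : (f.codRestrict HH fun x => f1.le ⟨x, rfl⟩).ker = (zpowers (wordG M.gs1 [236])).subgroupOf NN := by
    rw [MonoidHom.ker_codRestrict, f2, sw1]
  refine ⟨f.codRestrict HH fun x => f1.le ⟨x, rfl⟩, (g.comp (inclusion k2.ge)).codRestrict HH fun x =>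
    k3 (g1.le ⟨_, rfl⟩), ⟨_, wf.mB⟩, ⟨_, wf.mC⟩, ⟨fun y => ?_, ?_, ?_⟩, ?_, Subtype.ext wf.sB,
    fun e => wf.z1 (wf.sC.symm.trans (congrArg Subtype.val e)), Subtype.ext ?_⟩
  · obtain ⟨x, e⟩ := f1.ge y.2
    exact ⟨x, Subtype.ext e⟩
  · rw [hk]
    intro x hx
    rcases two_of wf.zz hx with e | e
    · exact (show x = 1 from Subtype.ext e) ▸ one_mem _
    · exact mem_center_iff.2 fun y => Subtype.ext (by
        rw [coe_mul, coe_mul, show x.1 = wordG M.gs1 [236] from e, (wf.zc y (wf.le y.2)).eq])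
  · rw [hk]
    intro x hx
    rcases two_of wf.zz hx with e | e
    · exact (show x = 1 from Subtype.ext e) ▸ one_mem _
    · obtain ⟨a, ha, b, hb, e'⟩ := M.zcom M.c1
      exact (show ⁅(⟨a, ha⟩ : NN), ⟨b, hb⟩⁆ = x from Subtype.ext (e'.trans e.symm)) ▸
        commutator_mem_commutator (mem_top _) (mem_top _)
  · rw [hk, Nat.card_congr (subgroupOfEquivOfLe (zpowers_le.2 wf.zN)).toEquiv, Nat.card_zpowers]
    exact orderOf_eq_prime (by rw [pow_two, wf.zz]) wf.z1
  · exact (val_of g2 2 _ (val_of f3 2 ⟨_, wf.mB⟩ rfl)).trans (val_of f3 3 ⟨_, wf.mC⟩ rfl).symm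

theorem normal {G : Type*} [Group G] [Finite G] (hO : oddCore G = ⊥) {L : Subgroup G} (hL : IsStandardSubgroup L)
    (hR : ∀ R : Sylow 2 (centralizer (L : Set G)), IsCyclic (R : Subgroup (centralizer (L : Set G))))
    (hZ : Nat.card (center L) = 2) (e : (L ⧸ center L) ≃* HH)
    (hA : HasSchurMultiplier HH (Multiplicative (ZMod 2 × ZMod 2))) (h6 : Nat.card (MulAut HH) = 6 * Nat.card HH) :
    L.Normal := by
  obtain ⟨ρ, τ, a, b, h1, h2, ha, hb, hτ⟩ := exists_rho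
  have := hL.1.2
  have : IsSimpleGroup HH := e.symm.isSimpleGroup
  have hm : 0 < 174182400 ∧ ¬ Nat.Prime 174182400 := by norm_num
  have hn : wordG M.gs1 [4] ∈ normalizer (NN : Set (Equiv.Perm (Fin M.P.n))) := M.nN M.c1 wf.mF
  have hk : (e.toMonoidHom.comp (QuotientGroup.mk' (center L))).ker = center L := by
    rw [CL.Schur.ker_comp_equiv, QuotientGroup.ker_mk']
  obtain ⟨k, ⟨f⟩⟩ := cover_facts hA (by simp) (isQuasisimple_of_simple Std.O8p2.card hm).1
    (center_eq_bot_of_simple Std.O8p2.card hm) h6 h1 h2 (s := NN.normalizerMonoidHom ⟨_, hn⟩)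
    (by rw [← map_mul, show (⟨_, hn⟩ * ⟨_, hn⟩ : normalizer (NN : Set (Equiv.Perm (Fin M.P.n)))) = 1 from
      Subtype.ext wf.sF, map_one]) (fun x hx => wf.nF (by
      have := wf.cW (x.1⁻¹ * wordG M.gs1 [4]) (mul_mem (inv_mem (wf.le x.2)) wf.mF) fun l hl => by
        have e : wordG M.gs1 [4] * l * (wordG M.gs1 [4])⁻¹ = x.1 * l * x.1⁻¹ :=
          (congrArg Subtype.val (DFunLike.congr_fun hx (⟨l, hl⟩ : NN)) :)
        calc _ = x.1⁻¹ * (wordG M.gs1 [4] * l * (wordG M.gs1 [4])⁻¹) * wordG M.gs1 [4] := by group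
          _ = _ := by rw [e]; group
      refine (mul_mem_cancel_left (inv_mem x.2)).1 ?_
      rcases this with e | e <;> rw [e]
      exacts [one_mem _, wf.zN])) ha hb hτ
    (CL.Schur.isStem_of_perfect hL.1.1 (e.surjective.comp (QuotientGroup.mk'_surjective _)) hk.le) (by rw [hk, hZ])
  refine normal_of_model hO hL hR wf f fun θ => ?_
  obtain ⟨x, rfl | rfl⟩ := k θ
  · exact ⟨x, wf.le x.2, fun _ => rfl⟩
  · refine ⟨x * wordG M.gs1 [4], mul_mem (wf.le x.2) wf.mF, fun l => ?_⟩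
    show x.1 * (wordG M.gs1 [4] * l.1 * (wordG M.gs1 [4])⁻¹) * x.1⁻¹ = _
    group

end CL.O8S
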