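/-
Sylow 2-subgroups of double covers from polycyclic presentations with tails (on top of the engine `CL.Pc`).
-/
import Cfsg.Agent.Known.PcGen
import Cfsg.Agent.Transfer.Control
import Cfsg.Agent.Even.Amb
import Cfsg.Agent.Grp.SylowIn

set_option autoImplicit false
set_option linter.unusedSectionVars false

open Cfsg Subgroup CL.Pc CL.Even CL.Grp
open CL.Spor (allBelow allBelow_iff allL allL_iff)
open scoped commutatorElement

namespace CL.TE.Px

section lift

variable {G Γ A : Type*} [Group G] [Group Γ] [CommGroup A]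

theorem valS_mul (y z : ℕ → A) (f : ℕ) : ∀ s, valS (fun v => y v * z v) f s = valS y f s * valS z f s := by
  induction f with
  | zero => intro s; exact (mul_one 1).symm
  | succ f ih =>
    intro s
    have e : ∀ x : ℕ → A, valS x (f + 1) s = x (s / 256 % 4096) ^ (s % 256) * valS x f (s / 1048576) := fun _ => rfl
    rw [e, e, e, ih, mul_pow]
    ac_rfl

theorem evW_mul {ι : A →* Γ} (hc : ∀ x g, ι x * g = g * ι x) (x : ℕ → A) (b : ℕ → Γ) (w : ℕ) :
    evW (fun i => ι (x i) * b i) w = ι (evW x w) * evW b w := by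
  induction w using Nat.strong_induction_on with
  | _ w ih =>
    rw [evW_def', evW_def' x, evW_def' b]
    split_ifs with h
    · simp
    · rw [ih _ (by omega), map_mul, mul_assoc, mul_assoc, ← mul_assoc (b _), ← hc, mul_assoc]

variable {D : Data} {S : Fin2} {rels : List RelC} {a g : ℕ → G}

/-- The tails can be replaced by any vector that has the same values on the relations and on the invariants. -/
theorem exists_lift (τ : Γ →* G) (hs : Function.Surjective τ) (ι : A →* Γ) (hι : Function.Injective ι)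
    (hker : τ.ker = ι.range) (hc : τ.ker ≤ center Γ) (hexp : ∀ x : A, x * x = 1) (P : Params D S rels 0)
    (hp : D.p = 2) (hd : S.dd = 1) (h0 : getL S.X 0 = 0) (H : Holds D a g) (wf : wfChk D.n D.rel = true)
    (hr : ∀ r ∈ rels, chkRel D r = true)
    (goals : ∀ j, 1 ≤ j → j ≤ D.n → ∃ lo len, lo ≤ j ∧ j < lo + len ∧ goalsChk D S (rels.map (·.s)) lo len = true) :
    ∃ z : ℕ → A, ∀ y : ℕ → A, y 0 = 1 → (∀ r ∈ rels, valS y D.E r.s = 1) →
      (∀ κ ∈ S.kap, valS y D.E κ.1 = valS z D.E κ.1) → ∃ b : ℕ → Γ, Lift ι b y 2 D.n D.rel ∧ ∀ i, τ (b i) = a i := by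
  have hq : D.q = 2 := by rw [P.hq, hp]; rfl
  obtain ⟨b, gl, z, C, hb⟩ := exists_ctx τ hs ι hι hker hc (fun x => by rw [hq, pow_two, hexp]) P H wf
  refine ⟨z, fun y y0 hy hκ => ?_⟩
  have hL : ∀ t ∈ rels.map (·.s) ++ S.kap.map (·.1), valS (fun v => y v * z v) D.E t ^ S.dd = 1 := by
    intro t ht
    rw [hd, pow_one, valS_mul]
    rcases List.mem_append.1 ht with h | h
    · obtain ⟨r, h1, rfl⟩ := List.mem_map.1 h
      rw [hy r h1, chkRel_sound C (hr r h1), mul_one]
    · obtain ⟨κ, h1, rfl⟩ := List.mem_map.1 h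
      rw [hκ κ h1, hexp]
  let xx : ℕ → A := fun l => valS (fun v => y v * z v) D.E (getL S.X l)
  have hgoal : ∀ i j, 1 ≤ i → i ≤ j → j ≤ D.n →
      (if i = j then xx i ^ D.p else xx j) = y (tri i j) * z (tri i j) * evW xx (D.rel i j) := by
    intro i j k1 k2 k3
    obtain ⟨lo, len, m1, m2, h⟩ := goals j (by omega) k3
    unfold goalsChk at h
    rw [mapForce_eq, mapForce_eq, allBelow_iff] at h
    have h := (allBelow_iff _ _).1 (h (j - lo) (by omega)) (i - 1) (by show i - 1 < lo + (j - lo); omega)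
    have e1 : Nat.succ (i - 1) = i := by omega
    have e2 : Nat.add lo (j - lo) = j := by show lo + (j - lo) = j; omega
    rw [e1, e2] at h
    have := goalChk_sound (fun v => y v * z v) (fun v => by rw [hd, hq, one_mul, pow_two, hexp]) hL
      (by rw [hd, hq]; norm_num) (by rw [List.length_append, List.length_map, List.length_map]; exact P.hw2)
      P.prime.one_le ((wfChk_sound wf k2 (by have := P.hn; omega)).2 k1 k3).1 h
    rwa [hd, pow_one] at this
  have x0 : xx 0 = 1 := by show valS _ _ (getL S.X 0) = 1; rw [h0, valS_zero]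
  have hcen := C.lift.central
  have hιk : ∀ u, τ (ι u) = 1 := fun u => by
    have : ι u ∈ τ.ker := by rw [hker]; exact ⟨u, rfl⟩
    exact this
  refine ⟨fun i => ι (xx i) * b i, ⟨hcen, by simp [x0, C.lift.b0], fun i j h1 h2 h3 => ?_, fun i h1 => ?_⟩,
    fun i => by rw [map_mul, hιk, one_mul, hb]⟩
  · have hr : 1 ≤ i ∧ j ≤ D.n := by
      by_contra hh
      exact h3 ((wfChk_sound wf h1.le h2).1 hh)
    have e := hgoal i j hr.1 h1.le hr.2
    rw [if_neg h1.ne] at e
    have e2 : xx j * xx i * z (tri i j) = y (tri i j) * xx i * evW xx (D.rel i j) := by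
      rw [e]
      calc _ = z (tri i j) * z (tri i j) * (y (tri i j) * xx i * evW xx (D.rel i j)) := by ac_rfl
        _ = _ := by rw [hexp, one_mul]
    rw [evW_mul hcen]
    calc _ = ι (xx j * xx i) * (b j * b i) := by
          rw [map_mul, mul_assoc, mul_assoc, ← mul_assoc (b j), ← hcen, mul_assoc]
      _ = ι (y (tri i j) * xx i * evW xx (D.rel i j)) * (b i * evW b (D.rel i j)) := by
          rw [C.lift.conj i j h1 h2 h3, ← mul_assoc, ← map_mul, e2]
      _ = _ := by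
          rw [map_mul, map_mul, mul_assoc, mul_assoc, mul_assoc, ← mul_assoc (b i), ← hcen, mul_assoc]
  · have e1 := C.lift.pow i h1
    rw [hp] at e1
    by_cases hi : i = 0
    · subst hi
      rw [(wfChk_sound wf le_rfl (by norm_num)).1 (by omega)]
      show (ι (xx 0) * b 0) ^ 2 = ι (y 0) * evW _ 0
      simp [x0, y0, C.lift.b0]
    have e := hgoal i i (by omega) le_rfl h1
    rw [if_pos rfl, hp, pow_two, hexp] at e
    have e2 : z (tri i i) = y (tri i i) * evW xx (D.rel i i) := by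
      calc _ = z (tri i i) * (y (tri i i) * z (tri i i) * evW xx (D.rel i i)) := by rw [← e, mul_one]
        _ = z (tri i i) * z (tri i i) * (y (tri i i) * evW xx (D.rel i i)) := by ac_rfl
        _ = _ := by rw [hexp, one_mul]
    rw [evW_mul hcen, (show Commute (ι (xx i)) (b i) from hcen _ _).mul_pow, ← map_pow, pow_two (xx i), hexp, map_one,
      one_mul, e1, e2, map_mul, mul_assoc]

/-- The number of entries of a sparse vector in the mask `c`, with multiplicity. -/
noncomputable def dot (c f : ℕ) : ℕ → ℕ :=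
  Nat.rec (motive := fun _ => ℕ → ℕ) (fun _ => 0)
    (fun _ ih s => Nat.add (Nat.mul (Nat.mod (Nat.shiftRight c (Nat.mod (Nat.div s 256) 4096)) 2) (Nat.mod s 256))
      (ih (Nat.div s 1048576))) f

/-- The tails given by a mask. -/
def tl (ζ : A) (c v : ℕ) : A := ζ ^ ((c >>> v) % 2)

theorem valS_tl (ζ : A) (c f : ℕ) : ∀ s, valS (tl ζ c) f s = ζ ^ dot c f s := by
  induction f with
  | zero => intro s; exact (pow_zero ζ).symm
  | succ f ih =>
    intro s
    show (ζ ^ _) ^ _ * valS _ f _ = ζ ^ (_ * _ + dot c f _)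
    rw [ih, pow_add, pow_mul]
    rfl

theorem pow_eq_mod {ζ : A} (h : ζ * ζ = 1) (k : ℕ) : ζ ^ k = ζ ^ (k % 2) := by
  conv_lhs => rw [← Nat.div_add_mod k 2, pow_add, pow_mul, pow_two, h, one_pow, one_mul]

end lift

section plain

variable {Γ : Type*} [Group Γ]

/-- A polycyclic presentation of a 2-group holds. -/
abbrev Pl (b : ℕ → Γ) (n : ℕ) (rel : ℕ → ℕ → ℕ) : Prop := Lift (1 : PUnit.{1} →* Γ) b (fun _ => 1) 2 n rel

/-- Collection to a word. -/
noncomputable def cl (n : ℕ) (rel : ℕ → ℕ → ℕ) (F w : ℕ) (k : ℕ → Bool) : Bool :=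
  coll n 64 1 0 rel F 0 w 0 fun c _ => rev 64 c 0 k

variable {b : ℕ → Γ} {n : ℕ} {rel : ℕ → ℕ → ℕ}

theorem cl_sound (L : Pl b n rel) {F w : ℕ} {k : ℕ → Bool} (h : cl n rel F w k = true) :
    ∃ w', k w' = true ∧ evW b w = evW b w' := by
  obtain ⟨c, t, x, h1, -, h2⟩ := coll_sound L (by norm_num) 0 F 0 w 0 _ 1 0 h Rep.zero
  obtain ⟨w', h3, h4⟩ := rev_sound L.b0 64 c 0 k h1
  exact ⟨w', h3, by simpa [h4] using h2⟩

/-- The word with the letters `k + 1, …, k + d` selected by the bits of `x`. -/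
noncomputable def wd (d : ℕ) : ℕ → ℕ → ℕ :=
  Nat.rec (motive := fun _ => ℕ → ℕ → ℕ) (fun _ _ => 0)
    (fun _ ih k x => Bool.rec (Nat.add (Nat.succ k) (Nat.mul 64 (ih (Nat.succ k) (Nat.div x 2))))
      (ih (Nat.succ k) (Nat.div x 2)) (Nat.beq (Nat.mod x 2) 0)) d

/-- Normal forms. -/
noncomputable def nf (b : ℕ → Γ) (d k x : ℕ) : Γ := evW b (wd d k x)

theorem nf_zero (k x : ℕ) : nf b 0 k x = 1 := evW_zero b

theorem nf_succ (h0 : b 0 = 1) {d k : ℕ} (hk : k + 1 < 64) (x : ℕ) :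
    nf b (d + 1) k x = b (k + 1) ^ (x % 2) * nf b d (k + 1) (x / 2) := by
  show evW b (Bool.rec (k + 1 + 64 * wd d (k + 1) (x / 2)) (wd d (k + 1) (x / 2)) (Nat.beq (x % 2) 0)) = _
  rcases Nat.mod_two_eq_zero_or_one x with h | h <;> rw [h]
  · exact (one_mul _).symm.trans (by rw [pow_zero]; rfl)
  · exact (evW_cons h0 hk _).trans (by rw [pow_one]; rfl)

theorem nf_add (h0 : b 0 = 1) (d e : ℕ) : ∀ k x, k + d < 64 →
    nf b (d + e) k x = nf b d k (x % 2 ^ d) * nf b e (k + d) (x / 2 ^ d) := by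
  induction d with
  | zero => intro k x _; simp [nf_zero]
  | succ d ih =>
    intro k x hk
    rw [show d + 1 + e = d + e + 1 by ring, nf_succ h0 (by omega), nf_succ h0 (by omega), ih _ _ (by omega),
      pow_succ', Nat.mod_mul_right_mod, Nat.mod_mul_right_div_self, Nat.div_div_eq_div_mul, mul_assoc,
      show k + 1 + d = k + (d + 1) by ring]

theorem nf_mem {K : Subgroup Γ} (h0 : b 0 = 1) (d : ℕ) : ∀ k x, k + d < 64 → (∀ l, k < l → l ≤ k + d → b l ∈ K) →
    nf b d k x ∈ K := by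
  induction d with
  | zero => intro k x _ _; rw [nf_zero]; exact one_mem _
  | succ d ih =>
    intro k x hk h
    rw [nf_succ h0 (by omega)]
    exact mul_mem (pow_mem (h _ (by omega) (by omega)) _) (ih _ _ (by omega) fun l h1 h2 => h l (by omega) (by omega))

theorem Pl.conj' (L : Pl b n rel) (hn : n < 64) (wf : wfChk n rel = true) {i j : ℕ} (h1 : 1 ≤ i) (h2 : i < j)
    (h3 : j ≤ n) : b j * b i = b i * evW b (rel i j) := by
  simpa using L.conj i j h2 (by omega) (((wfChk_sound wf h2.le (by omega)).2 h1 h3).2 h2)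

theorem Pl.pow' (L : Pl b n rel) {i : ℕ} (h : i ≤ n) : b i ^ 2 = evW b (rel i i) := by simpa using L.pow i h

theorem Pl.nf_surj [Finite Γ] (L : Pl b n rel) (hn : n < 64) (wf : wfChk n rel = true) (d : ℕ) :
    ∀ k, k + d = n → ∀ g ∈ closure (b '' {l | k < l ∧ l ≤ n}), ∃ x < 2 ^ d, nf b d k x = g := by
  induction d with
  | zero =>
    intro k hk g hg
    have : {l | k < l ∧ l ≤ n} = ∅ := by ext l; simp; omega
    rw [this, Set.image_empty, Subgroup.closure_empty, mem_bot] at hg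
    exact ⟨0, by norm_num, by rw [nf_zero, hg]⟩
  | succ d ih =>
    intro k hk g hg
    have e : {l | k < l ∧ l ≤ n} = insert (k + 1) {l | k + 1 < l ∧ l ≤ n} := by ext l; simp; omega
    rw [e, Set.image_insert_eq, Set.insert_eq, Subgroup.closure_union, ← zpowers_eq_closure] at hg
    set M := closure (b '' {l | k + 1 < l ∧ l ≤ n})
    have hm : ∀ j, k + 1 ≤ j → j ≤ n → evW b (rel (k + 1) j) ∈ M := fun j h1 h2 =>
      evW_mem (fun l m1 m2 => subset_closure ⟨l, ⟨m1, m2⟩, rfl⟩)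
        ((wfChk_sound wf h1 (by omega)).2 (by omega) h2).1
    have hN : b (k + 1) ∈ 𝒩(M) := inv_mem_iff.1 (mem_norm_of_cj_le (by
      rw [map_le_iff_le_comap, closure_le]
      rintro _ ⟨l, ⟨l1, l2⟩, rfl⟩
      show (b (k + 1))⁻¹ * b l * (b (k + 1))⁻¹⁻¹ ∈ M
      rw [inv_inv, mul_assoc, L.conj' hn wf (by omega) l1 l2, inv_mul_cancel_left]
      exact hm l l1.le l2))
    have h2 : b (k + 1) ^ 2 ∈ M := L.pow' (i := k + 1) (by omega) ▸ hm _ le_rfl (by omega)
    obtain ⟨_, ⟨i, rfl⟩, m, hm', rfl⟩ := (mem_sup_nr (zpowers_le.2 hN)).1 hg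
    obtain ⟨j, hj | hj⟩ := Int.even_or_odd' i
    · obtain ⟨x, hx, e⟩ := ih (k + 1) (by omega) ((b (k + 1) ^ 2) ^ j * m) (mul_mem (zpow_mem h2 j) hm')
      refine ⟨2 * x, by omega, ?_⟩
      rw [nf_succ L.b0 (by omega), Nat.mul_mod_right, pow_zero, one_mul, Nat.mul_div_cancel_left _ two_pos, e, hj]
      beta_reduce
      rw [zpow_mul, zpow_ofNat]
    · obtain ⟨x, hx, e⟩ := ih (k + 1) (by omega) ((b (k + 1) ^ 2) ^ j * m) (mul_mem (zpow_mem h2 j) hm')
      refine ⟨2 * x + 1, by omega, ?_⟩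
      rw [nf_succ L.b0 (by omega), show (2 * x + 1) % 2 = 1 by omega, pow_one, show (2 * x + 1) / 2 = x by omega, e, hj]
      beta_reduce
      rw [add_comm (2 * j), zpow_add, zpow_one, zpow_mul, zpow_ofNat, mul_assoc]

theorem Pl.nf_mem (L : Pl b n rel) (hn : n < 64) (x : ℕ) : nf b n 0 x ∈ genP b n :=
  Px.nf_mem L.b0 n 0 x (by omega) fun l h1 h2 => subset_closure ⟨l, ⟨h1, by omega⟩, rfl⟩

theorem Pl.exists_nf [Finite Γ] (L : Pl b n rel) (hn : n < 64) (wf : wfChk n rel = true) {g : Γ}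
    (hg : g ∈ genP b n) : ∃ x < 2 ^ n, nf b n 0 x = g := L.nf_surj hn wf n 0 (by omega) g hg

theorem Pl.surj [Finite Γ] (L : Pl b n rel) (hn : n < 64) (wf : wfChk n rel = true) :
    Function.Surjective fun x : Fin (2 ^ n) => (⟨nf b n 0 x, L.nf_mem hn x⟩ : genP b n) := fun g => by
  obtain ⟨x, hx, e⟩ := L.exists_nf hn wf g.2
  exact ⟨⟨x, hx⟩, Subtype.ext e⟩

theorem Pl.card_le [Finite Γ] (L : Pl b n rel) (hn : n < 64) (wf : wfChk n rel = true) :
    Nat.card (genP b n) ≤ 2 ^ n := by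
  simpa using Nat.card_le_card_of_surjective _ (L.surj hn wf)

theorem Pl.nf_inj [Finite Γ] (L : Pl b n rel) (hn : n < 64) (wf : wfChk n rel = true)
    (hc : 2 ^ n ≤ Nat.card (genP b n)) {x y : ℕ} (hx : x < 2 ^ n) (hy : y < 2 ^ n)
    (h : nf b n 0 x = nf b n 0 y) : x = y := by
  have := ((L.surj hn wf).bijective_of_nat_card_le (by simpa using hc)).1
  exact congrArg Fin.val (this (a₁ := ⟨x, hx⟩) (a₂ := ⟨y, hy⟩) (Subtype.ext h))

/-- Counting. -/
noncomputable def cnt (f : ℕ → Bool) (N : ℕ) : ℕ :=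
  Nat.rec (motive := fun _ => ℕ) 0 (fun k ih => Bool.rec ih (Nat.succ ih) (f k)) N

theorem cnt_eq (f : ℕ → Bool) (N : ℕ) : cnt f N = ((Finset.range N).filter fun k => f k = true).card := by
  induction N with
  | zero => rfl
  | succ N ih =>
    show (Bool.rec (cnt f N) (cnt f N + 1) (f N) : ℕ) = _
    rw [Finset.range_add_one, Finset.filter_insert]
    cases f N
    · simpa using ih
    · simp [ih]

theorem Pl.ncard_eq [Finite Γ] (L : Pl b n rel) (hn : n < 64) (wf : wfChk n rel = true)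
    (hc : 2 ^ n ≤ Nat.card (genP b n)) {p : Γ → Prop} {f : ℕ → Bool}
    (h : ∀ x < 2 ^ n, p (nf b n 0 x) ↔ f x = true) : {g | g ∈ genP b n ∧ p g}.ncard = cnt f (2 ^ n) := by
  rw [cnt_eq, ← Set.ncard_coe_finset]
  symm
  refine Set.ncard_congr (fun x _ => nf b n 0 x) (fun x hx => ?_) (fun x y hx hy e => ?_) (fun g hg => ?_)
  · simp only [Finset.coe_filter, Finset.mem_range, Set.mem_ofPred_eq] at hx
    exact ⟨L.nf_mem hn x, (h x hx.1).2 hx.2⟩
  · simp only [Finset.coe_filter, Finset.mem_range, Set.mem_ofPred_eq] at hx hy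
    exact L.nf_inj hn wf hc hx.1 hy.1 e
  · obtain ⟨x, hx, rfl⟩ := L.exists_nf hn wf hg.1
    exact ⟨x, by simpa using ⟨hx, (h x hx).1 hg.2⟩, rfl⟩

/-- The table of the extension by a central element of order two, the letter `n + 1`. -/
noncomputable def extChk (n : ℕ) (rel rel' : ℕ → ℕ → ℕ) (c : ℕ) : Bool :=
  allBelow (fun j => allBelow (fun i => Nat.beq (rel' i j)
    (Bool.rec (Bool.rec 0 (Nat.succ n) (and (Nat.beq j (Nat.succ n)) (and (Nat.ble 1 i) (Nat.ble i n))))
      (app (rel i j) (Nat.mul (Nat.succ n) (Nat.mod (Nat.shiftRight c (tri i j)) 2))) (Nat.ble j n))) (Nat.succ j)) 64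

theorem Pl.of_lift {A : Type*} [CommGroup A] {ι : A →* Γ} {ζ : A} (hζ : ζ * ζ = 1) {c : ℕ}
    (L : Lift ι b (tl ζ c) 2 n rel) (hn : n + 1 < 64) (wf : wfChk n rel = true) {rel' : ℕ → ℕ → ℕ}
    (wf' : wfChk (n + 1) rel' = true) (h : extChk n rel rel' c = true) :
    Pl (Function.update b (n + 1) (ι ζ)) (n + 1) rel' := by
  set b' := Function.update b (n + 1) (ι ζ)
  have hb : ∀ i, i ≤ n → b' i = b i := fun i hi => Function.update_of_ne (by omega) _ _
  have hz : b' (n + 1) = ι ζ := Function.update_self _ _ _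
  have h0 : b' 0 = 1 := (hb 0 (by omega)).trans L.b0
  have ht := fun j hj i hi => Nat.eq_of_beq_eq_true ((allBelow_iff _ _).1 ((allBelow_iff _ _).1 h j hj) i hi)
  have hev : ∀ i j, 1 ≤ i → i ≤ j → j ≤ n → evW b' (rel' i j) = ι (tl ζ c (tri i j)) * evW b (rel i j) := by
    intro i j h1 h2 h3
    have e := ht j (by omega) i (Nat.lt_succ_of_le h2)
    rw [Nat.ble_eq_true_of_le h3] at e
    have e1 : evW b' (rel i j) = evW b (rel i j) :=
      lettersIn_ind (P := fun _ u => evW b' u = evW b u) (fun _ => by simp) (fun f u hu _ h5 h6 => by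
        rw [evW_def' _ u, if_neg hu, evW_def' b u, if_neg hu, h6, hb _ h5]) _ _
        ((wfChk_sound wf h2 (by omega)).2 h1 h3).1
    rw [e, evW_app h0, e1, L.central]
    congr 1
    show evW b' ((n + 1) * ((c >>> tri i j) % 2)) = ι (ζ ^ _)
    rcases Nat.mod_two_eq_zero_or_one (c >>> tri i j) with h4 | h4 <;> rw [h4]
    · simp
    · rw [mul_one, evW_single h0 hn, hz, pow_one]
  refine ⟨fun _ _ => by simp, h0, fun i j h1 h2 h3 => ?_, fun i h1 => ?_⟩
  · have hr : 1 ≤ i ∧ j ≤ n + 1 := by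
      by_contra hh
      exact h3 ((wfChk_sound wf' h1.le h2).1 hh)
    rw [MonoidHom.one_apply, one_mul]
    by_cases hj : j ≤ n
    · rw [hev i j hr.1 h1.le hj, hb i (by omega), hb j hj,
        L.conj i j h1 h2 (((wfChk_sound wf h1.le h2).2 hr.1 hj).2 h1), ← mul_assoc, L.central, mul_assoc]
    · obtain rfl : j = n + 1 := by omega
      have e := ht (n + 1) h2 i (by omega)
      rw [show Nat.ble (n + 1) n = false from Bool.eq_false_iff.2 fun hh => by
        have := Nat.le_of_ble_eq_true hh; omega, Nat.beq_refl, Nat.ble_eq_true_of_le hr.1,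
        Nat.ble_eq_true_of_le (show i ≤ n by omega)] at e
      rw [e]
      show _ = _ * evW b' (n + 1)
      rw [evW_single h0 hn, hz, L.central]
  · rw [MonoidHom.one_apply, one_mul]
    by_cases hi : i = 0
    · subst hi
      rw [(wfChk_sound wf' le_rfl (by norm_num)).1 (by omega), h0]; simp
    by_cases hj : i ≤ n
    · rw [hev i i (by omega) le_rfl hj, hb i hj, L.pow i hj]
    · obtain rfl : i = n + 1 := by omega
      have e := ht (n + 1) hn (n + 1) (by omega)
      rw [show Nat.ble (n + 1) n = false from Bool.eq_false_iff.2 fun hh => by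
        have := Nat.le_of_ble_eq_true hh; omega] at e
      simp only [Bool.and_false] at e
      rw [e, hz, ← map_pow, pow_two, hζ, map_one]
      exact (evW_zero _).symm

end plain

section cover

variable {G Γ : Type*} [Group G] [Group Γ] [Finite Γ] {τ : Γ →* G} {ζ : Γ} {a : ℕ → G} {n : ℕ}

/-- A double cover together with a Sylow 2-subgroup of the quotient. -/
structure DC (τ : Γ →* G) (ζ : Γ) (a : ℕ → G) (n : ℕ) : Prop where
  surj : Function.Surjective τ
  ker : ∀ x, τ x = 1 ↔ x = 1 ∨ x = ζ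
  ne : ζ ≠ 1
  cen : ζ ∈ center Γ
  com : ζ ∈ _root_.commutator Γ
  card : 2 ^ n ≤ Nat.card (genP a n)
  two : IsPGroup 2 (genP a n)
  syl : ¬ 2 ^ (n + 1) ∣ Nat.card G

namespace DC

variable (h : DC τ ζ a n)
include h

theorem tz : τ ζ = 1 := (h.ker ζ).2 (Or.inr rfl)

theorem sq : ζ * ζ = 1 := ((h.ker _).1 (by rw [map_mul, h.tz, mul_one])).resolve_right fun e =>
  h.ne (mul_left_cancel (e.trans (mul_one ζ).symm))

theorem eq_or {x y : Γ} (e : τ x = τ y) : x = y ∨ x = y * ζ :=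
  ((h.ker (y⁻¹ * x)).1 (by rw [map_mul, map_inv, e, inv_mul_cancel])).imp
    (fun e => (inv_mul_eq_one.1 e).symm) fun e => inv_mul_eq_iff_eq_mul.1 e

theorem card_ker : Nat.card τ.ker = 2 :=
  (Nat.card_eq_two_iff' (1 : τ.ker)).2 ⟨⟨ζ, h.tz⟩, fun e => h.ne (congrArg Subtype.val e), fun y hy =>
    Subtype.ext (((h.ker y).1 y.2).resolve_left fun e => hy (Subtype.ext e))⟩

theorem card_comap : 2 ^ (n + 1) ≤ Nat.card ((genP a n).comap τ) := by
  rw [card_comap_of_surjective h.surj, h.card_ker, pow_succ']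
  exact Nat.mul_le_mul_left 2 h.card

theorem syl_comap : IsSylowIn 2 ((genP a n).comap τ) ⊤ := by
  have : Finite G := Finite.of_surjective τ h.surj
  refine ⟨le_top, h.two.comap_of_ker_isPGroup τ (IsPGroup.of_card (n := 1) h.card_ker), fun hd => h.syl ?_⟩
  rw [relIndex_top_right, index_comap_of_surjective _ h.surj] at hd
  obtain ⟨k, hk⟩ := h.two.exists_card_eq
  have h1 := h.card
  rw [hk, Nat.pow_le_pow_iff_right one_lt_two] at h1
  rw [← (genP a n).card_mul_index, hk, pow_succ]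
  exact Nat.mul_dvd_mul (pow_dvd_pow 2 h1) hd

theorem mem_comap {b : ℕ → Γ} (hb : ∀ i, i ≤ n → τ (b i) = a i) {x : Γ} (hx : x ∈ (genP a n).comap τ) :
    ∃ y ∈ genP b n, x = y ∨ x = y * ζ := by
  have : genP a n ≤ (genP b n).map τ := (closure_le _).2 (by
    rintro _ ⟨l, hl, rfl⟩
    exact ⟨b l, subset_closure ⟨l, hl, rfl⟩, hb l hl.2⟩)
  obtain ⟨y, hy, e⟩ := this hx
  exact ⟨y, hy, h.eq_or e.symm⟩

theorem not_split {b : ℕ → Γ} {rel : ℕ → ℕ → ℕ} (L : Pl b n rel) (hn : n < 64) (wf : wfChk n rel = true)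
    (hb : ∀ i, i ≤ n → τ (b i) = a i) : False := by
  have hS := h.syl_comap
  have h1 : ζ ∈ genP b n := by
    have h2 := CL.Transfer.inf_commutator_inf_center_le_of_hall ((genP a n).comap τ) (by
      obtain ⟨k, hk⟩ := hS.isPGroup.exists_card_eq
      rw [hk]
      exact Nat.Coprime.pow_left _ ((Nat.Prime.coprime_iff_not_dvd Nat.prime_two).2
        (relIndex_top_right ((genP a n).comap τ) ▸ hS.not_dvd)))
      ⟨⟨show τ ζ ∈ genP a n from h.tz ▸ one_mem _, h.com⟩, h.cen⟩
    refine commutator_le.2 (fun x hx y hy => ?_) h2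
    obtain ⟨x', hx', ex⟩ := h.mem_comap hb hx
    obtain ⟨y', hy', ey⟩ := h.mem_comap hb hy
    have hz : ∀ u : Γ, ζ * u = u * ζ := fun u => (mem_center_iff.1 h.cen u).symm
    have e1 : ∀ u v : Γ, ⁅u * ζ, v⁆ = ⁅u, v⁆ := fun u v => by
      rw [commutatorElement_def, commutatorElement_def, mul_inv_rev, mul_assoc u ζ, hz, ← mul_assoc u,
        mul_assoc _ ζ, mul_inv_cancel_left]
    have e2 : ∀ u v : Γ, ⁅v, u * ζ⁆ = ⁅v, u⁆ := fun u v => by
      rw [← commutatorElement_inv, e1, commutatorElement_inv]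
    have : ⁅x, y⁆ = ⁅x', y'⁆ := by rcases ex with rfl | rfl <;> rcases ey with rfl | rfl <;> simp only [e1, e2]
    rw [this]
    exact mul_mem (mul_mem (mul_mem hx' hy') (inv_mem hx')) (inv_mem hy')
  have h2 : (genP a n).comap τ ≤ genP b n := fun x hx => by
    obtain ⟨y, hy, e | e⟩ := h.mem_comap hb hx <;> rw [e]
    exacts [hy, mul_mem hy h1]
  have h3 := (h.card_comap.trans (card_le_of_le h2)).trans (L.card_le hn wf)
  rw [Nat.pow_le_pow_iff_right one_lt_two] at h3
  omega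

theorem genP_eq {b : ℕ → Γ} (hb : ∀ i, i ≤ n → τ (b i) = a i) (hz : b (n + 1) = ζ) :
    genP b (n + 1) = (genP a n).comap τ := by
  refine le_antisymm ((closure_le _).2 ?_) fun x hx => ?_
  · rintro _ ⟨l, hl, rfl⟩
    show τ (b l) ∈ genP a n
    by_cases e : l = n + 1
    · rw [e, hz, h.tz]; exact one_mem _
    · rw [hb l (by have := hl.2; omega)]
      exact subset_closure ⟨l, ⟨hl.1, by have := hl.2; omega⟩, rfl⟩
  · obtain ⟨y, hy, e | e⟩ := h.mem_comap hb hx <;> rw [e]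
    · exact genP_mono b n.le_succ hy
    · exact mul_mem (genP_mono b n.le_succ hy) (hz ▸ subset_closure ⟨n + 1, ⟨n.succ_pos, le_rfl⟩, rfl⟩)

end DC

/-- The tails of the cover are given by a mask `c`, which depends on the values `e` of the invariants. -/
theorem DC.exists_pl {D : Data} {S : Fin2} {rels : List RelC} {g : ℕ → G} (h : DC τ ζ a D.n) (P : Params D S rels 0)
    (hp : D.p = 2) (hd : S.dd = 1) (h0 : getL S.X 0 = 0) (H : Holds D a g) (wf : wfChk D.n D.rel = true)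
    (hr : ∀ r ∈ rels, chkRel D r = true)
    (goals : ∀ j, 1 ≤ j → j ≤ D.n → ∃ lo len, lo ≤ j ∧ j < lo + len ∧ goalsChk D S (rels.map (·.s)) lo len = true)
    (hn : D.n + 1 < 64) {cs : List (ℕ × (ℕ → ℕ → ℕ))}
    (hcs : ∀ c ∈ cs, c.1 % 2 = 0 ∧ (∀ r ∈ rels, dot c.1 D.E r.s % 2 = 0) ∧ wfChk (D.n + 1) c.2 = true ∧
      extChk D.n D.rel c.2 c.1 = true)
    (hall : ∀ e : ℕ → Bool, (∀ κ ∈ S.kap, e κ.1 = false) ∨
      ∃ c ∈ cs, ∀ κ ∈ S.kap, dot c.1 D.E κ.1 % 2 = (e κ.1).toNat) :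
    ∃ c ∈ cs, ∃ b : ℕ → Γ, Pl b (D.n + 1) c.2 ∧ b (D.n + 1) = ζ ∧ ∀ i, i ≤ D.n → τ (b i) = a i := by
  classical
  have hc : τ.ker ≤ center Γ := fun x hx => by
    rcases (h.ker x).1 hx with rfl | rfl
    exacts [one_mem _, h.cen]
  let _ : CommGroup τ.ker := { mul_comm := fun x y => Subtype.ext (mem_center_iff.1 (hc y.2) x) }
  let ζ' : τ.ker := ⟨ζ, h.tz⟩
  have hζ : ζ' * ζ' = 1 := Subtype.ext h.sq
  have hx : ∀ x : τ.ker, x = 1 ∨ x = ζ' := fun x => ((h.ker x).1 x.2).imp Subtype.ext Subtype.ext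
  obtain ⟨z, hz⟩ := exists_lift τ h.surj τ.ker.subtype τ.ker.subtype_injective (range_subtype _).symm hc
    (fun x => by rcases hx x with rfl | rfl; exacts [mul_one 1, hζ]) P hp hd h0 H wf hr goals
  rcases hall fun s => decide (valS z D.E s ≠ 1) with h1 | ⟨c, hc1, h1⟩
  · have hv : ∀ s, valS (tl ζ' 0) D.E s = 1 := fun s => by
      have : tl ζ' 0 = fun _ => 1 := funext fun v => by simp [tl]
      have e := map_valS (z := fun _ => (1 : τ.ker)) (1 : τ.ker →* τ.ker) D.E s
      rw [this]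
      exact e.symm
    obtain ⟨b, L, hb⟩ := hz (tl ζ' 0) (by simp [tl]) (fun r _ => hv _) fun κ hκ => by
      rw [hv]
      exact (not_not.1 (of_decide_eq_false (h1 κ hκ))).symm
    refine (h.not_split (b := b) ⟨fun _ _ => by simp, L.b0, fun i j k1 k2 k3 => ?_, fun i k1 => ?_⟩ P.hn wf
      fun i _ => hb i).elim
    · simpa [tl] using L.conj i j k1 k2 k3
    · simpa [tl] using L.pow i k1
  · obtain ⟨c0, c1, c2, c3⟩ := hcs c hc1
    obtain ⟨b, L, hb⟩ := hz (tl ζ' c.1) (by simp [tl, c0]) (fun r hr => by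
      rw [valS_tl, pow_eq_mod hζ, c1 r hr, pow_zero]) fun κ hκ => by
        rw [valS_tl, pow_eq_mod hζ, h1 κ hκ]
        rcases hx (valS z D.E κ.1) with e | e
        · simp [e]
        · have : ζ' ≠ 1 := fun e => h.ne (congrArg Subtype.val e)
          simp [e, this]
    exact ⟨c, hc1, _, Pl.of_lift hζ L hn wf c2 c3, Function.update_self _ _ _,
      fun i hi => by rw [Function.update_of_ne (by omega), hb]⟩

end cover

end CL.TE.Px
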