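/-
Standard double covers all of whose involutions are 2-central: reduction to a certificate.
-/
import Cfsg.Agent.TE.Cyc
import Cfsg.Agent.TE.PcExt
import Cfsg.Agent.Even.CharP

set_option autoImplicit false
set_option linter.unusedSectionVars false

open Cfsg Subgroup CL.Pc CL.Even CL.Grp
open CL.Spor (allBelow allBelow_iff allL allL_iff)
open scoped commutatorElement

namespace CL.TE

section red

variable {G : Type*} [Group G] [Finite G]

theorem Cfg.two_mem' {A : Subgroup G} {z : G} (h : Cfg A z)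
    (hE : ∀ t ∈ A, t * t = 1 → t ≠ 1 → t ≠ z → ∃ E ≤ A ⊓ centralizer {t}, IsPGroup 2 E ∧
      ∀ x ∈ A, x ∈ 𝒞(E) → x * x ≠ t ∧ x * x ≠ t * z)
    {g : G} (hg : g * z * g⁻¹ * z = z * (g * z * g⁻¹)) (hne : g * z * g⁻¹ ≠ z) {w : G} {j : ℕ}
    (hw : w ^ 2 ^ j = 1) (hwz : w * z = z * w) : w ∈ A := by
  obtain ⟨m, hW, hQ⟩ := h.exists_exp
  rcases m with _ | m
  · obtain ⟨x, hx, y, hy, rfl⟩ := h.dec w hwz
    rw [Cfg.pow_mul_cent hx hy] at hw
    have := hW y hy _ (h.two_elt hy (eq_inv_of_mul_eq_one_right hw ▸ inv_mem (pow_mem hx _)))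
    rw [pow_zero, pow_one] at this
    rcases this with e | e <;> rw [e]
    exacts [mul_mem hx (one_mem _), mul_mem hx h.mem]
  exfalso
  have ht := h.conj_mem hg
  have hs : g⁻¹ * z * g⁻¹⁻¹ ∈ A := h.conj_mem (by
    rw [← (MulAut.conj g).injective.eq_iff]
    simp only [map_mul, map_inv, MulAut.conj_apply]
    calc _ = z * (g * z * g⁻¹) := by group
      _ = g * z * g⁻¹ * z := hg.symm
      _ = _ := by group)
  have htt : g * z * g⁻¹ * (g * z * g⁻¹) = 1 := by rw [conj_mul, h.sq, mul_one, mul_inv_cancel]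
  obtain ⟨E, hEA, hE2, hE⟩ := hE _ ht htt (fun e => absurd h.ord (by
    rw [conj_eq_one_iff.1 e, orderOf_one]; norm_num)) hne
  obtain ⟨r, hr, hrE, e⟩ := hQ (cj g⁻¹ E) (isPGroup_cj hE2 _) fun f hf => by
    have := mem_centralizer_singleton_iff.1 (hEA (mem_cj.1 hf)).2
    refine mem_centralizer_singleton_iff.2 ((MulAut.conj g).injective ?_)
    simp only [map_mul, MulAut.conj_apply]
    simpa using this
  have hc := comm_of_mem hr hs
  obtain ⟨x, hx, y, hy, e'⟩ := h.dec (g * r * g⁻¹) (by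
    calc _ = g * (r * (g⁻¹ * z * g⁻¹⁻¹)) * g⁻¹ := by group
      _ = _ := by rw [← hc]; group)
  have hx2 := hE (x ^ 2 ^ m) (pow_mem hx _) (pow_mem (mem_centralizer_iff.2 fun f hf => by
    have h1 := comm_of_mem hrE (conj_mem_cj g⁻¹ hf)
    have h2 : f * (g * r * g⁻¹) = g * r * g⁻¹ * f := by
      calc _ = g * (g⁻¹ * f * g⁻¹⁻¹ * r) * g⁻¹ := by group
        _ = _ := by rw [h1]; group
    rw [e', mul_assoc x, ← comm_of_mem hy (hEA hf).1, ← mul_assoc, ← mul_assoc] at h2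
    exact mul_right_cancel h2) _)
  have e1 : g * z * g⁻¹ = x ^ 2 ^ m * x ^ 2 ^ m * y ^ 2 ^ (m + 1) := by
    rw [← e, ← conj_pow, e', Cfg.pow_mul_cent hx hy, ← pow_two, ← pow_mul, ← pow_succ]
  have e2 : y ^ 2 ^ (m + 1) ∈ A := by
    rw [← inv_mul_eq_iff_eq_mul.2 e1]
    exact mul_mem (inv_mem (mul_mem (pow_mem hx _) (pow_mem hx _))) ht
  rcases h.inf _ e2 (pow_mem hy _) with e3 | e3 <;> rw [e3] at e1
  · exact hx2.1 (by rw [e1, mul_one])
  · exact hx2.2 (by rw [e1, mul_assoc, h.sq, mul_one])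

omit [Finite G] in
theorem Amb.ncard_sqrt_eq {X : Type*} [Group X] [Finite X] {ι : X →* G} {z t : X} {g : G} (h : Amb ι z)
    (hz : z ∈ center X) (hg : g * ι z * g⁻¹ = ι t) {T : Subgroup X} (hT : IsSylowIn 2 T ⊤)
    (hTt : T ≤ centralizer {t}) : {x | x ∈ T ∧ x * x = t}.ncard = {x | x ∈ T ∧ x * x = z}.ncard := by
  obtain ⟨k, hk, hkT⟩ := h.exists_aut hz hg hT hTt
  choose! f hfT hf using hkT
  have hinj : ∀ x ∈ T, ∀ y ∈ T, f x = f y → x = y := fun x hx y hy e =>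
    h.inj (conj_injective (x := k) ((hf x hx).trans (e ▸ (hf y hy).symm)))
  have hs : Function.Surjective fun x : T => (⟨f x, hfT x x.2⟩ : T) :=
    Finite.surjective_of_injective fun x y e => Subtype.ext (hinj x x.2 y y.2 (congrArg Subtype.val e))
  refine Set.ncard_congr (fun x _ => f x) (fun x hx => ⟨hfT x hx.1, h.inj ?_⟩) (fun x y hx hy => hinj x hx.1 y hy.1)
    fun y hy => ?_
  · rw [map_mul, ← hf x hx.1, conj_mul, ← map_mul, hx.2, hk]
  · obtain ⟨x, e⟩ := hs ⟨y, hy.1⟩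
    have e' : f x = y := congrArg Subtype.val e
    refine ⟨x, ⟨x.2, h.inj (conj_injective (x := k) ?_)⟩, e'⟩
    show k * ι (x * x) * k⁻¹ = k * ι t * k⁻¹
    rw [map_mul, ← conj_mul, hf x x.2, e', ← map_mul, hy.2, hk]

/-- `t` is conjugate to `a` or `a ζ`. -/
def Good {X : Type*} [Group X] (a ζ t : X) : Prop := ∃ c, c * t * c⁻¹ = a ∨ c * t * c⁻¹ = a * ζ

/-- The facts about a Sylow 2-subgroup `T` of the cover. -/
structure Cen {X : Type*} [Group X] (T : Subgroup X) (a ζ : X) : Prop where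
  syl : IsSylowIn 2 T ⊤
  cen : T ≤ centralizer {a}
  cls : ∀ t ∈ T, t * t = 1 → t = 1 ∨ t = ζ ∨ Good a ζ t
  nsq : ∀ x ∈ T, x ∈ 𝒞(T) → x * x ≠ a ∧ x * x ≠ a * ζ
  ne₁ : {x | x ∈ T ∧ x * x = a}.ncard ≠ {x | x ∈ T ∧ x * x = ζ}.ncard
  ne₂ : {x | x ∈ T ∧ x * x = a * ζ}.ncard ≠ {x | x ∈ T ∧ x * x = ζ}.ncard

theorem normal_of_cen (hG : oddCore G = ⊥) {A : Subgroup G} (hA : IsStandardSubgroup A)
    (hR : ∀ R : Sylow 2 𝒞(A), IsCyclic (R : Subgroup 𝒞(A))) (hZ : Nat.card (center A) = 2)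
    (hO : Nat.card (Out (A ⧸ center A)) = 1) {T : Subgroup A} {a ζ : A} (hζ : ζ ∈ center A) (hζ1 : ζ ≠ 1)
    (hC : Cen T a ζ) : A.Normal := by
  obtain ⟨w, h, hN⟩ := cfg_of_standard hA hR hZ hO
  have hcm : ∀ u : A, u * ζ = ζ * u := mem_center_iff.1 hζ
  obtain rfl : (ζ : G) = w := (h.inf _ ζ.2 fun y hy => congrArg Subtype.val (hcm ⟨y, hy⟩)).resolve_left
    fun e => hζ1 (Subtype.ext e)
  have hζζ : ζ * ζ = 1 := Subtype.ext h.sq
  have hcls : ∀ t : A, t * t = 1 → t ≠ 1 → t ≠ ζ → ∃ c s, c * t * c⁻¹ = s ∧ T ≤ centralizer {s} ∧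
      (∀ x ∈ T, x ∈ 𝒞(T) → x * x ≠ s ∧ x * x ≠ s * ζ) ∧
      {x | x ∈ T ∧ x * x = s}.ncard ≠ {x | x ∈ T ∧ x * x = ζ}.ncard := by
    intro t ht h1 h2
    obtain ⟨d, -, hd⟩ := syl_conj_le hC.syl (isPGroup_zpowers (x := t) (k := 1) (by rw [pow_one, pow_two, ht])) le_top
    rcases hC.cls _ (hd (conj_mem_cj d (mem_zpowers t))) (by rw [conj_mul, ht, mul_one, mul_inv_cancel]) with
      e | e | ⟨c, e | e⟩
    · exact absurd (conj_eq_one_iff.1 e) h1
    · exact absurd (mul_left_cancel ((mul_inv_eq_iff_eq_mul.1 e).trans (hcm d).symm)) h2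
    · exact ⟨c * d, a, by rw [← e]; group, hC.cen, hC.nsq, hC.ne₁⟩
    · refine ⟨c * d, a * ζ, by rw [← e]; group, fun x hx => mem_centralizer_singleton_iff.2 ?_, fun x hx hx' => ?_,
        hC.ne₂⟩
      · rw [← mul_assoc, mem_centralizer_singleton_iff.1 (hC.cen hx), mul_assoc, hcm, mul_assoc]
      · rw [mul_assoc, hζζ, mul_one]
        exact (hC.nsq x hx hx').symm
  by_cases hi : IsIsolatedInvolution (ζ : G)
  · have := mem_center_iff.1 (CL.Inv.zstar_mem_center hG hi)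
    exact normalizer_eq_top_iff.1 (top_le_iff.1 fun g _ => hN (mem_centralizer_singleton_iff.2 (this g)))
  exfalso
  obtain ⟨g, hg, hne⟩ : ∃ g : G, Commute (ζ : G) (g * ζ * g⁻¹) ∧ g * ζ * g⁻¹ ≠ ζ := by
    by_contra hcon
    push Not at hcon
    exact hi ⟨h.ord, hcon⟩
  have hamb : Amb A.subtype ζ := ⟨A.subtype_injective, fun v j hv hvz => by
    rw [range_subtype]
    refine h.two_mem' (fun t ht h2 h3 h4 => ?_) hg.symm hne hv hvz
    obtain ⟨c, s, e, hs, hn, -⟩ := hcls ⟨t, ht⟩ (Subtype.ext h2) (fun e => h3 (congrArg Subtype.val e))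
      fun e => h4 (congrArg Subtype.val e)
    refine ⟨(cj c⁻¹ T).map A.subtype, ?_, (isPGroup_cj hC.syl.isPGroup _).map _, fun x hx hc => ?_⟩
    · rintro _ ⟨y, hy, rfl⟩
      refine ⟨y.2, mem_centralizer_singleton_iff.2 (congrArg Subtype.val
        (show y * ⟨t, ht⟩ = ⟨t, ht⟩ * y from conj_injective (x := c) ?_))⟩
      have := mem_centralizer_singleton_iff.1 (hs (mem_cj.1 hy))
      rw [← e, inv_inv, conj_mul, conj_mul] at this
      exact this
    · have h5 : c * ⟨x, hx⟩ * c⁻¹ ∈ 𝒞(T) := fun y hy => by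
        have : c⁻¹ * y * c⁻¹⁻¹ * ⟨x, hx⟩ = ⟨x, hx⟩ * (c⁻¹ * y * c⁻¹⁻¹) :=
          Subtype.ext (hc _ (mem_map_of_mem _ (conj_mem_cj c⁻¹ hy)))
        calc _ = c * (c⁻¹ * y * c⁻¹⁻¹ * ⟨x, hx⟩) * c⁻¹ := by group
          _ = _ := by rw [this]; group
      have key : ∀ u : A, u ∈ 𝒞(T) → u ^ 2 ^ 2 = 1 → u ∈ T := fun u hu h4 => by
        have := hC.syl.eq_of_le (isPGroup_sup' hC.syl.isPGroup (isPGroup_zpowers h4)
          (zpowers_le.2 (cent_le_norm T hu))) le_sup_left le_top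
        exact this ▸ mem_sup_right (mem_zpowers u)
      have hss : s * s = 1 := by
        rw [← e, conj_mul, show (⟨t, ht⟩ : A) * ⟨t, ht⟩ = 1 from Subtype.ext h2, mul_one, mul_inv_cancel]
      constructor <;> intro e1
      · have e2 : c * ⟨x, hx⟩ * c⁻¹ * (c * ⟨x, hx⟩ * c⁻¹) = s := by
          rw [← e, conj_mul]; exact congrArg (c * · * c⁻¹) (Subtype.ext e1)
        exact (hn _ (key _ h5 (by rw [pow_two 2, pow_mul, pow_two, pow_two, e2, hss])) h5).1 e2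
      · have e2 : c * ⟨x, hx⟩ * c⁻¹ * (c * ⟨x, hx⟩ * c⁻¹) = s * ζ := by
          rw [conj_mul, show (⟨x, hx⟩ : A) * ⟨x, hx⟩ = ⟨t, ht⟩ * ζ from Subtype.ext e1, ← e, mul_assoc _ c⁻¹ ζ, hcm c⁻¹]
          group
        exact (hn _ (key _ h5 (by
          rw [pow_two 2, pow_mul, pow_two, pow_two, e2, mul_assoc, ← mul_assoc ζ, ← hcm, mul_assoc, hζζ, mul_one,
            hss])) h5).2 e2⟩
  obtain ⟨c, s, e, hs, -, hn⟩ := hcls ⟨_, h.conj_mem hg.symm⟩
    (Subtype.ext (by show _ * _ = (1 : G); rw [conj_mul, h.sq, mul_one, mul_inv_cancel]))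
    (fun e => hζ1 (Subtype.ext (conj_eq_one_iff.1 (congrArg Subtype.val e)))) fun e => hne (congrArg Subtype.val e)
  exact hn (hamb.ncard_sqrt_eq hζ (g := c * g) (by rw [← e]; simp [mul_assoc]) hC.syl hs)

end red

namespace Px

variable {Γ : Type*} [Group Γ] [Finite Γ] {b : ℕ → Γ} {n : ℕ} {rel : ℕ → ℕ → ℕ}

/-- Equality of words. -/
noncomputable def eqChk (n : ℕ) (rel : ℕ → ℕ → ℕ) (F u v : ℕ) : Bool :=
  cl n rel F u fun u' => cl n rel F v fun v' => Nat.beq u' v'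

theorem eqChk_sound (L : Pl b n rel) {F u v : ℕ} (h : eqChk n rel F u v = true) : evW b u = evW b v := by
  obtain ⟨u', h, e⟩ := cl_sound L h
  obtain ⟨v', h, e'⟩ := cl_sound L h
  rw [e, e', Nat.eq_of_beq_eq_true h]

/-- Inequality of words. -/
noncomputable def neChk (n : ℕ) (rel : ℕ → ℕ → ℕ) (F u v : ℕ) : Bool :=
  cl n rel F u fun u' => cl n rel F v fun v' =>
    force (wsum (fun l => Nat.shiftLeft 1 (Nat.pred l)) 64 u') fun x =>
      force (wsum (fun l => Nat.shiftLeft 1 (Nat.pred l)) 64 v') fun y =>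
        !Nat.beq x y && Nat.beq u' (wd n 0 x) && Nat.beq v' (wd n 0 y) && Nat.blt x (2 ^ n) && Nat.blt y (2 ^ n)

theorem neChk_sound (L : Pl b n rel) (hn : n < 64) (wf : wfChk n rel = true) (hc : 2 ^ n ≤ Nat.card (genP b n))
    {F u v : ℕ} (h : neChk n rel F u v = true) : evW b u ≠ evW b v := by
  obtain ⟨u', h, e⟩ := cl_sound L h
  obtain ⟨v', h, e'⟩ := cl_sound L h
  simp only [force_eq, Bool.and_eq_true, Bool.not_eq_true', Nat.blt_eq] at h
  obtain ⟨⟨⟨⟨h1, h2⟩, h3⟩, h4⟩, h5⟩ := h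
  rw [e, e', Nat.eq_of_beq_eq_true h2, Nat.eq_of_beq_eq_true h3]
  exact fun hh => Nat.ne_of_beq_eq_false h1 (L.nf_inj hn wf hc h4 h5 hh)

/-- The letter `l` is a central involution. -/
noncomputable def cenChk (n : ℕ) (rel : ℕ → ℕ → ℕ) (l : ℕ) : Bool :=
  Nat.beq (rel l l) 0 && allBelow (fun i => Nat.beq i 0 || Nat.beq i l ||
    (Bool.rec (Nat.beq (rel l i) i) (Nat.beq (rel i l) l) (Nat.blt i l) : Bool)) (n + 1)

theorem cenChk_sound (L : Pl b n rel) (hn : n < 64) (wf : wfChk n rel = true) {l : ℕ} (h1 : 0 < l) (h2 : l ≤ n)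
    (h : cenChk n rel l = true) : b l ∈ omegaOneCenter 2 (genP b n) := by
  simp only [cenChk, Bool.and_eq_true, allBelow_iff, Bool.or_eq_true] at h
  refine mem_ozc.2 ⟨subset_closure ⟨l, ⟨h1, h2⟩, rfl⟩, ?_, by rw [L.pow' h2, Nat.eq_of_beq_eq_true h.1, evW_zero]⟩
  refine le_centralizer_iff.1 ((closure_le _).2 ?_) (mem_zpowers _)
  rintro _ ⟨i, ⟨i1, i2⟩, rfl⟩ _ ⟨k, rfl⟩
  refine (Commute.zpow_left ?_ k).eq
  rcases h.2 i (by omega) with (e | e) | e
  · have := Nat.eq_of_beq_eq_true e; omega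
  · rw [Nat.eq_of_beq_eq_true e]
  · rcases lt_trichotomy i l with k | k | k
    · rw [show Nat.blt i l = true by rw [Nat.blt_eq]; exact k] at e
      have := L.conj' hn wf i1 k h2
      rwa [Nat.eq_of_beq_eq_true e, evW_single L.b0 (by omega)] at this
    · rw [k]
    · rw [show Nat.blt i l = false from Bool.eq_false_iff.2 fun hh => by rw [Nat.blt_eq] at hh; omega] at e
      have := L.conj' hn wf h1 k i2
      rw [Nat.eq_of_beq_eq_true e, evW_single L.b0 (by omega)] at this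
      exact this.symm

/-- The square of the normal form `x` on the first `m` letters is the normal form `tbl x` (by induction on `x`);
if this is `c₁` or `c₂`, then it is not central. -/
noncomputable def sqChk (n : ℕ) (rel : ℕ → ℕ → ℕ) (F m c₁ c₂ : ℕ) (tbl : ℕ → ℕ) (x : ℕ) : Bool :=
  force (wd m 0 x) fun w => force (tbl x) fun s => force (Nat.succ (Nat.log2 x)) fun k =>
    force (Nat.sub x (Nat.shiftLeft 1 (Nat.pred k))) fun y => force (wd m 0 y) fun v =>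
      (Nat.beq w 0 && Nat.beq s 0 || Nat.blt y x && Nat.beq w (app v k) &&
        cl n rel F (app k v) fun w1 => force (Nat.div w1 (Nat.sub (app v 1) v)) fun c => Nat.beq w1 (app v c) &&
          cl n rel F (app (wd n 0 (tbl y)) (app c k)) fun w2 => Nat.beq w2 (wd n 0 s)) &&
      Nat.blt s (2 ^ n) && (!(Nat.beq s c₁ || Nat.beq s c₂) ||
        !allBelow (fun j => !neChk n rel F (app w (m - j)) (m - j + 64 * w)) m)

theorem sqChk_sound (L : Pl b n rel) {F m c₁ c₂ N : ℕ} {tbl : ℕ → ℕ} (h0 : nf b n 0 0 = 1)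
    (h : ∀ x, 0 ≤ x → x < N → sqChk n rel F m c₁ c₂ tbl x = true) (x : ℕ) :
    x < N → nf b m 0 x * nf b m 0 x = nf b n 0 (tbl x) := by
  induction x using Nat.strong_induction_on with
  | _ x ih =>
    intro hx
    have k := h x (Nat.zero_le _) hx
    simp only [sqChk, force_eq, Bool.and_eq_true, Nat.blt_eq, Bool.or_eq_true, Nat.beq_eq] at k
    rcases k.1.1 with ⟨e1, e2⟩ | ⟨⟨e1, e2⟩, e3⟩
    · rw [e2, h0, nf, e1, evW_zero, mul_one]
    · obtain ⟨w1, e3, e4⟩ := cl_sound L e3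
      rw [Bool.and_eq_true, Nat.beq_eq] at e3
      obtain ⟨w2, e5, e6⟩ := cl_sound L e3.2
      rw [Nat.beq_eq] at e5
      have e7 := ih _ e1 (e1.trans hx)
      rw [e3.1, evW_app L.b0, evW_app L.b0] at e4
      rw [e5, evW_app L.b0, evW_app L.b0] at e6
      unfold nf at e7 ⊢
      rw [e2, evW_app L.b0, ← e6, ← e7, mul_assoc, ← mul_assoc (evW b (Nat.succ _)), e4]
      simp only [mul_assoc]

/-- A conjugation between normal forms: by the word `u` (`k = 0`) or by a fusion element. -/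
noncomputable def cjChk (D : Data) (rel : ℕ → ℕ → ℕ) (F : ℕ) (e : ℕ × ℕ × ℕ × ℕ) : Bool :=
  Bool.rec
    (Nat.ble e.1 D.NF && lettersIn 0 (D.m - 1) 64 e.2.1 &&
      eqChk (D.n + 1) rel F (subst (D.dW (e.1 - 1)) 64 e.2.1) (wd (D.n + 1) 0 e.2.2.1) &&
      eqChk (D.n + 1) rel F (subst (D.eW (e.1 - 1)) 64 e.2.1) (wd (D.n + 1) 0 e.2.2.2))
    (eqChk (D.n + 1) rel F (app e.2.1 (wd (D.n + 1) 0 e.2.2.1)) (app (wd (D.n + 1) 0 e.2.2.2) e.2.1))
    (Nat.beq e.1 0)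

/-- Closing a mask under a list of pairs. -/
noncomputable def grw (N : ℕ) (l : List (ℕ × ℕ × ℕ × ℕ)) : ℕ → (ℕ → Bool) → Bool :=
  List.rec (motive := fun _ => ℕ → (ℕ → Bool) → Bool) (fun M k => k M)
    (fun e _ ih M k => (M.testBit (e.2.2.1 % N) || M.testBit (e.2.2.2 % N)) &&
      force (M ||| 1 <<< (e.2.2.1 % N) ||| 1 <<< (e.2.2.2 % N)) fun M' => ih M' k) l

theorem grw_sound {P : ℕ → Prop} {N : ℕ} (l : List (ℕ × ℕ × ℕ × ℕ)) :
    (∀ e ∈ l, P (e.2.2.1 % N) ↔ P (e.2.2.2 % N)) → ∀ M k, (∀ i, M.testBit i = true → P i) → grw N l M k = true →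
      ∃ M', (∀ i, M'.testBit i = true → P i) ∧ k M' = true := by
  induction l with
  | nil => exact fun _ M k hM h => ⟨M, hM, h⟩
  | cons e l ih =>
    intro hl M k hM h
    have h' : ((M.testBit (e.2.2.1 % N) || M.testBit (e.2.2.2 % N)) &&
      force (M ||| 1 <<< (e.2.2.1 % N) ||| 1 <<< (e.2.2.2 % N)) fun M' => grw N l M' k) = true := h
    rw [Bool.and_eq_true, force_eq, Bool.or_eq_true] at h'
    have h1 := hl e List.mem_cons_self
    have h2 : P (e.2.2.1 % N) := h'.1.elim (hM _) fun h => h1.2 (hM _ h)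
    refine ih (fun e he => hl e (List.mem_cons_of_mem _ he)) _ k (fun i hi => ?_) h'.2
    simp only [Nat.testBit_or, Bool.or_eq_true, Nat.one_shiftLeft, Nat.testBit_two_pow, decide_eq_true_eq] at hi
    rcases hi with (hi | rfl) | rfl
    exacts [hM i hi, h2, h1.1 h2]

theorem good_conj {a ζ s t c : Γ} (e : c * s = t * c) : Good a ζ s ↔ Good a ζ t := by
  obtain rfl : t = c * s * c⁻¹ := eq_mul_inv_of_mul_eq e.symm
  exact ⟨fun ⟨d, h⟩ => ⟨d * c⁻¹, by simpa [mul_assoc] using h⟩, fun ⟨d, h⟩ => ⟨d * c, by simpa [mul_assoc] using h⟩⟩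

variable {G : Type*} [Group G] {τ : Γ →* G} {ζ : Γ} {a g : ℕ → G} {D : Data}

theorem DC.good_mul (h : DC τ ζ a n) {u s : Γ} : Good u ζ (s * ζ) ↔ Good u ζ s := by
  have hc : ∀ d : Γ, d * (s * ζ) * d⁻¹ = d * s * d⁻¹ * ζ := fun d => by
    rw [mul_assoc _ d⁻¹ ζ, mem_center_iff.1 h.cen d⁻¹]; group
  refine exists_congr fun d => ?_
  rw [hc, mul_left_inj, or_comm]
  refine or_congr_right ⟨fun e => ?_, fun e => ?_⟩
  · rw [← e, mul_assoc _ ζ ζ, h.sq, mul_one]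
  · rw [e, mul_assoc _ ζ ζ, h.sq, mul_one]

theorem DC.cen_of (h : DC τ ζ a D.n) (H : Holds D a g) (L : Pl b (D.n + 1) rel) (hz : b (D.n + 1) = ζ)
    (hb : ∀ i, i ≤ D.n → τ (b i) = a i) {m F : ℕ} (hm : D.n = m + 1) (hn : D.n + 1 < 64)
    (wf : wfChk (D.n + 1) rel = true) {tbl : ℕ → ℕ} {l : List (ℕ × ℕ × ℕ × ℕ)}
    (hsq : ∀ x, 0 ≤ x → x < 2 ^ m → sqChk (D.n + 1) rel F m (2 ^ m) (3 * 2 ^ m) tbl x = true)
    (hcj : ∀ e ∈ l, cjChk D rel F e = true)
    (hc : (cenChk (D.n + 1) rel D.n && cenChk (D.n + 1) rel (D.n + 1) && decide (1 ≤ D.m) &&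
      allBelow (fun k => allBelow (fun i => lettersIn 0 D.n 64 (D.dW k i) && lettersIn 0 D.n 64 (D.eW k i)) D.m)
        D.NF &&
      grw (2 ^ D.n) l (1 <<< 2 ^ m) fun M =>
        allBelow (fun x => !Nat.beq (tbl (x % 2 ^ m)) 0 || Nat.beq x 0 || M.testBit x) (2 ^ D.n)) = true)
    (h1 : cnt (fun x => Nat.beq (tbl (x % 2 ^ m)) (2 ^ m)) (2 ^ (D.n + 1)) ≠
      cnt (fun x => Nat.beq (tbl (x % 2 ^ m)) (2 * 2 ^ m)) (2 ^ (D.n + 1)))
    (h2 : cnt (fun x => Nat.beq (tbl (x % 2 ^ m)) (3 * 2 ^ m)) (2 ^ (D.n + 1)) ≠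
      cnt (fun x => Nat.beq (tbl (x % 2 ^ m)) (2 * 2 ^ m)) (2 ^ (D.n + 1))) :
    Cen (genP b (D.n + 1)) (b D.n) ζ := by
  simp only [Bool.and_eq_true, allBelow_iff, decide_eq_true_eq] at hc
  obtain ⟨⟨⟨⟨c1, c2⟩, c3⟩, c4⟩, c5⟩ := hc
  have hT := h.genP_eq hb hz
  have hcard : 2 ^ (D.n + 1) ≤ Nat.card (genP b (D.n + 1)) := hT ▸ h.card_comap
  have ha := cenChk_sound L hn wf (by omega) (by omega) c1
  have hζ := cenChk_sound L hn wf (by omega) le_rfl c2
  have hpos : 0 < 2 ^ m := by positivity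
  have hN : 2 ^ (D.n + 1) = 4 * 2 ^ m := by rw [hm]; ring
  have hdec : ∀ x, nf b (D.n + 1) 0 x = nf b m 0 (x % 2 ^ m) * nf b 2 m (x / 2 ^ m) := fun x => by
    have := nf_add L.b0 m 2 0 x (by omega)
    rwa [zero_add, show m + 2 = D.n + 1 by omega] at this
  have hk : ∀ x, nf b 2 m x ∈ omegaOneCenter 2 (genP b (D.n + 1)) := fun x =>
    nf_mem L.b0 2 m x (by omega) fun l l1 l2 => by
      rcases (show l = D.n ∨ l = D.n + 1 by omega) with rfl | rfl
      exacts [ha, hζ]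
  have hmT : ∀ x, nf b m 0 x ∈ genP b (D.n + 1) := fun x =>
    nf_mem L.b0 m 0 x (by omega) fun l l1 l2 => subset_closure ⟨l, ⟨l1, by omega⟩, rfl⟩
  have hv : ∀ j, j < 4 → nf b (D.n + 1) 0 (j * 2 ^ m) = b D.n ^ (j % 2) * ζ ^ (j / 2 % 2) := fun j hj => by
    have e0 : ∀ d k, k + d < 64 → nf b d k 0 = 1 := fun d => by
      induction d with
      | zero => exact fun _ _ => nf_zero _ _
      | succ d ih => exact fun k hk => by rw [nf_succ L.b0 (by omega), ih _ (by omega)]; simp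
    rw [hdec, Nat.mul_mod_left, e0 _ _ (by omega), one_mul, Nat.mul_div_cancel _ hpos, nf_succ L.b0 (by omega),
      nf_succ L.b0 (by omega), nf_zero, mul_one, ← hm, hz]
  have hv0 := hv 0 (by omega)
  have hv1 := hv 1 (by omega)
  have hv2 := hv 2 (by omega)
  have hv3 := hv 3 (by omega)
  norm_num at hv0 hv1 hv2 hv3
  have hs := fun x => hsq (x % 2 ^ m) (Nat.zero_le _) (Nat.mod_lt _ hpos)
  simp only [sqChk, force_eq, Bool.and_eq_true, Nat.blt_eq, Bool.or_eq_true, Bool.not_eq_true',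
    Bool.or_eq_false_iff] at hs
  have hsq' : ∀ x, nf b (D.n + 1) 0 x * nf b (D.n + 1) 0 x = nf b (D.n + 1) 0 (tbl (x % 2 ^ m)) := fun x => by
    have k := mem_ozc.1 (hk (x / 2 ^ m))
    rw [hdec x, mul_assoc, ← mul_assoc (nf b 2 m _), ← comm_of_mem k.2.1 (hmT _), mul_assoc, ← pow_two (nf b 2 m _),
      k.2.2, mul_one]
    exact sqChk_sound L hv0 hsq _ (Nat.mod_lt _ hpos)
  have hiff : ∀ c, c < 2 ^ (D.n + 1) → ∀ x, nf b (D.n + 1) 0 x * nf b (D.n + 1) 0 x = nf b (D.n + 1) 0 c ↔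
      Nat.beq (tbl (x % 2 ^ m)) c = true := fun c hc x => by
    rw [hsq', Nat.beq_eq]
    exact ⟨L.nf_inj hn wf hcard (hs x).1.2 hc, fun e => by rw [e]⟩
  have hcnt : ∀ c, c < 2 ^ (D.n + 1) → {x | x ∈ genP b (D.n + 1) ∧ x * x = nf b (D.n + 1) 0 c}.ncard =
      cnt (fun x => Nat.beq (tbl (x % 2 ^ m)) c) (2 ^ (D.n + 1)) := fun c hc =>
    L.ncard_eq hn wf hcard (p := fun x => x * x = nf b (D.n + 1) 0 c) fun x _ => hiff c hc x
  have htop : ∀ x, nf b (D.n + 1) 0 x = nf b (D.n + 1) 0 (x % 2 ^ D.n) ∨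
      nf b (D.n + 1) 0 x = nf b (D.n + 1) 0 (x % 2 ^ D.n) * ζ := fun x => by
    rw [nf_add L.b0 D.n 1 0 x (by omega), nf_add L.b0 D.n 1 0 (x % _) (by omega), Nat.mod_mod,
      Nat.div_eq_of_lt (Nat.mod_lt x (by positivity)), nf_succ L.b0 (by omega), nf_succ L.b0 (by omega), nf_zero,
      nf_zero, zero_add, hz]
    rcases Nat.mod_two_eq_zero_or_one (x / 2 ^ D.n) with e | e <;> simp [e]
  have hgood : ∀ x, Good (b D.n) ζ (nf b (D.n + 1) 0 (x % 2 ^ D.n)) ↔ Good (b D.n) ζ (nf b (D.n + 1) 0 x) := fun x => by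
    rcases htop x with e | e <;> rw [e]
    exact h.good_mul.symm
  obtain ⟨M, hM, c6⟩ := grw_sound (P := fun x => Good (b D.n) ζ (nf b (D.n + 1) 0 x)) l (fun e he => by
      rw [hgood, hgood]
      have k := hcj e he
      unfold cjChk at k
      cases k0 : Nat.beq e.1 0 <;> rw [k0] at k
      · simp only [Bool.and_eq_true] at k
        obtain ⟨⟨⟨k1, k2⟩, k3⟩, k4⟩ := k
        have k5 : e.1 - 1 < D.NF := by
          have := Nat.le_of_ble_eq_true k1
          have := Nat.ne_of_beq_eq_false k0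
          omega
        have hev : ∀ w, lettersIn 0 D.n 64 w = true → τ (evW b w) = evW a w := fun w hw =>
          lettersIn_ind (P := fun _ u => τ (evW b u) = evW a u) (fun _ => by simp) (fun f u hu _ h5 h6 => by
            rw [evW_def' _ u, if_neg hu, evW_def' a u, if_neg hu, map_mul, h6, hb _ h5]) _ _ hw
        obtain ⟨c, hc⟩ := h.surj (g (e.1 - 1))
        have k6 : τ (c * evW (fun l => evW b (D.dW (e.1 - 1) l)) e.2.1) =
            τ (evW (fun l => evW b (D.eW (e.1 - 1) l)) e.2.1 * c) :=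
          lettersIn_ind (P := fun _ u => τ (c * evW (fun l => evW b (D.dW (e.1 - 1) l)) u) =
            τ (evW (fun l => evW b (D.eW (e.1 - 1) l)) u * c)) (fun _ => by simp) (fun f u hu _ h5 h6 => by
              have hl : u % 64 < D.m := by omega
              rw [map_mul, map_mul] at h6
              rw [evW_def' _ u, if_neg hu, evW_def' _ u, if_neg hu, map_mul, map_mul, map_mul, map_mul,
                hev _ (c4 _ k5 _ hl).1, hev _ (c4 _ k5 _ hl).2, ← mul_assoc, hc, H.fus _ _ k5 hl, mul_assoc, ← hc,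
                h6, mul_assoc]) _ _ k2
        rw [← evW_subst L.b0 _ k2, ← evW_subst L.b0 _ k2, eqChk_sound L k3, eqChk_sound L k4] at k6
        rcases h.eq_or k6 with k7 | k7
        · exact good_conj k7
        · rw [mul_assoc, mem_center_iff.1 h.cen c, ← mul_assoc] at k7
          exact (good_conj k7).trans h.good_mul
      · have := eqChk_sound L k
        rw [evW_app L.b0, evW_app L.b0] at this
        exact good_conj this) _ _ (fun i hi => by
      rw [Nat.one_shiftLeft, Nat.testBit_two_pow, decide_eq_true_eq] at hi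
      exact ⟨1, Or.inl (by rw [← hi, hv1]; simp)⟩) c5
  rw [allBelow_iff] at c6
  refine ⟨hT ▸ h.syl_comap, fun x hx => mem_centralizer_singleton_iff.2 (comm_of_mem (mem_ozc.1 ha).2.1 hx),
    fun t ht htt => ?_, fun t ht hc => ?_, ?_, ?_⟩
  · obtain ⟨x, -, rfl⟩ := L.exists_nf hn wf ht
    have k1 := (hiff 0 (by positivity) x).1 (htt.trans hv0.symm)
    have k2 := c6 (x % 2 ^ D.n) (Nat.mod_lt _ (by positivity))
    rw [Nat.mod_mod_of_dvd _ (pow_dvd_pow 2 (by omega)), k1] at k2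
    simp only [Bool.not_true, Bool.false_or, Bool.or_eq_true, Nat.beq_eq] at k2
    rcases k2 with k2 | k2
    · rcases htop x with e | e <;> rw [e, k2, hv0]
      exacts [Or.inl rfl, Or.inr (Or.inl (one_mul _))]
    · exact Or.inr (Or.inr ((hgood x).1 (hM _ k2)))
  · obtain ⟨x, -, rfl⟩ := L.exists_nf hn wf ht
    rw [← hv3, ← hv1, Ne, Ne, hiff _ (by omega), hiff _ (by omega), Bool.not_eq_true, Bool.not_eq_true]
    refine (hs x).2.resolve_right fun k => ?_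
    rw [Bool.eq_false_iff, Ne, allBelow_iff] at k
    refine k fun j hj => ?_
    rw [Bool.not_eq_true', Bool.eq_false_iff]
    refine fun k1 => neChk_sound L hn wf hcard k1 ?_
    rw [evW_app L.b0, evW_cons L.b0 (i := m - j) (by omega), evW_single L.b0 (i := m - j) (by omega)]
    have k2 : b (m - j) ∈ genP b (D.n + 1) := subset_closure ⟨m - j, ⟨by omega, by omega⟩, rfl⟩
    have k3 := comm_of_mem hc k2
    rw [hdec, mul_assoc, ← comm_of_mem (mem_ozc.1 (hk _)).2.1 k2, ← mul_assoc, ← mul_assoc] at k3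
    exact (mul_right_cancel k3).symm
  · rw [← hv1, ← hv2, hcnt _ (by omega), hcnt _ (by omega)]
    exact h1
  · rw [← hv3, ← hv2, hcnt _ (by omega), hcnt _ (by omega)]
    exact h2

end Px

end CL.TE
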