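/-
Standard double covers of `Ω₈⁺(2)`: lemmas for reading the finite facts off permutation group certificates.
-/
import Cfsg.Agent.TE.O8S0
import Cfsg.Agent.Spor.PGCov
import Cfsg.Agent.Spor.PGStruct

set_option autoImplicit false

open Cfsg Subgroup CL.PG
open scoped commutatorElement

namespace CL.O8S

variable {P : Type*} [Group P] {gs : List P} {l : List (List ℕ)}

theorem sw1 (gs : List P) (u : List ℕ) : subW gs [u] = zpowers (wordG gs u) := by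
  rw [zpowers_eq_closure]; unfold subW; congr 1; ext y; simp [eq_comm]

theorem c1_of {N C : Subgroup P} {u : List ℕ} (h : N ⊓ centralizer (subW gs [u] : Set P) = C) :
    N ⊓ C1 (wordG gs u) = C := by
  rwa [sw1, zpowers_eq_closure, centralizer_closure] at h

theorem two_of {u x : P} (hu : u * u = 1) (hx : x ∈ zpowers u) : x = 1 ∨ x = u := by
  obtain ⟨k, rfl⟩ := hx
  have h2 : u ^ (2 : ℤ) = 1 := by rw [zpow_two, hu]
  rcases Int.even_or_odd' k with ⟨j, rfl | rfl⟩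
  · exact .inl (by simp only [zpow_mul, h2, one_zpow])
  · exact .inr (by simp only [zpow_add, zpow_mul, h2, one_zpow, one_mul, zpow_one])

theorem mem_Yo {H : Subgroup P} {x : P} (hx : x ∈ H) (h : x ^ 3 = 1) : x ∈ Yo H :=
  subset_closure ⟨hx, (by decide : Odd 3).of_dvd_nat (orderOf_dvd_of_pow_eq_one h)⟩

theorem mem_Dt {H : Subgroup P} {x : P} (hx : x ∈ H) (h : x * x = 1) : x ∈ Dt H :=
  subset_closure ⟨hx, 1, by rw [pow_one, pow_two, h]⟩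

theorem pow_of_rels {m : ℕ} (hR : Rels gs (zp [] (powWs m l) [])) {w : List ℕ} (hw : w ∈ l) : wordG gs w ^ m = 1 := by
  have := ((subW_le_of_rels hR).trans (subW_nil gs).le) (mem_subW (mem_mapL (f := fun x => powW x m) hw))
  rwa [mem_bot, wordG_powW] at this

theorem le_Yo {C : Subgroup P} (h : subW gs l ≤ C) (hR : Rels gs (zp [] (powWs 3 l) [])) : subW gs l ≤ Yo C :=
  subW_le.2 fun _ hw => mem_Yo (h (mem_subW hw)) (pow_of_rels hR hw)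

theorem le_Dt {C : Subgroup P} (h : subW gs l ≤ C) (hR : Rels gs (zp [] (powWs 8 l) [])) : subW gs l ≤ Dt C :=
  subW_le.2 fun _ hw => subset_closure ⟨h (mem_subW hw), 3, pow_of_rels hR hw⟩

theorem Yo_le_c [Finite P] {C Y : Subgroup P} (h1 : Y ≤ C) (h2 : C ≤ normalizer (Y : Set P)) {c y : ℕ}
    (hc : Nat.card C = c) (hy : Nat.card Y = y) (a : ℕ) (e : c = 2 ^ a * y) : Yo C ≤ Y :=
  Yo_le_of h1 h2 (a := a) (by rw [hc, hy, e])

theorem DW_dvd [Finite P] {N C Y : Subgroup P} {r : P} (hC : N ⊓ C1 r = C) (h : Yo C ≤ Y) {y : ℕ} (hy : Nat.card Y = y) :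
    Nat.card (DW N r) ∣ y := by
  rw [DW, hC, ← hy]
  exact card_dvd_of_le ((Dt_le _).trans h)

theorem DW_eq1 {N C Y D : Subgroup P} {r : P} (hC : N ⊓ C1 r = C) (h1 : Yo C ≤ Y) (h2 : Y ≤ Yo C) (h3 : Y ≤ D)
    (h4 : D ≤ Dt Y) : DW N r = Y := by
  rw [DW, hC, DD, le_antisymm h1 h2]
  exact le_antisymm (Dt_le _) (h3.trans h4)

theorem DW_eq2 [Finite P] {N C Y D : Subgroup P} {r : P} (hC : N ⊓ C1 r = C) (h1 : Yo C ≤ Y) (h2 : Y ≤ Yo C)
    (h3 : Y ≤ normalizer (D : Set P)) (h4 : D ≤ Dt Y) {y d : ℕ} (hy : Nat.card Y = y) (hd : Nat.card D = d) (m : ℕ)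
    (hm : Odd m) (e : y = m * d) : DW N r = D := by
  rw [DW, hC, DD, le_antisymm h1 h2]
  exact le_antisymm (Dt_le_of (h4.trans (Dt_le _)) h3 hm (by rw [hy, hd, e])) h4

theorem mem_DW {N C Y : Subgroup P} {r x : P} (hC : N ⊓ C1 r = C) (h2 : Y ≤ Yo C) (hx : x ∈ Y) (h : x * x = 1) :
    x ∈ DW N r := by
  rw [DW, hC]
  exact mem_Dt (h2 hx) h

theorem pr_of {D Q : Subgroup P} {u x y : P} (hu : u * u = 1) (hQ : Q ≤ D) (h : ⁅Q, D⁆ ≤ zpowers u) (hx : x ∈ Q)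
    (hy : y ∈ D) (hn : x * y ≠ y * x) : Pr D u :=
  ⟨x, hQ hx, ⟨y, hy, fun e => hn (commutatorElement_eq_one_iff_mul_comm.1 e)⟩,
    fun _ hy => two_of hu (h (commutator_mem_commutator hx hy))⟩

theorem not_pr {D Q Q' : Subgroup P} {u u' z : P} (hu : u * u = 1) (hu' : u' * u' = 1) (hQ : Q ≤ D) (hQ' : Q' ≤ D)
    (hD : D ≤ Q ⊔ Q') (h : ⁅Q, D⁆ ≤ zpowers u) (h' : ⁅Q', D⁆ ≤ zpowers u') (n : u ≠ z) (n' : u' ≠ z) : ¬ Pr D z := by
  rintro ⟨x, hx, ⟨y, hy, h1⟩, h2⟩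
  have k : ∀ (Q : Subgroup P) (u : P), u * u = 1 → Q ≤ D → ⁅Q, D⁆ ≤ zpowers u → u ≠ z → Q ≤ C1 x :=
    fun Q u hu hQ h n y hy => by
      rw [commutator_comm] at h
      refine mem_centralizer_singleton_iff.2 (commutatorElement_eq_one_iff_mul_comm.1 ?_).symm
      rcases two_of hu (h (commutator_mem_commutator hx hy)) with e | e
      · exact e
      · exact (h2 y (hQ hy)).resolve_right fun e' => n (e.symm.trans e')
  exact h1 (commutatorElement_eq_one_iff_mul_comm.2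
    (mem_centralizer_singleton_iff.1 (sup_le (k Q u hu hQ h n) (k Q' u' hu' hQ' h' n') (hD hy))).symm)

theorem not_mem_of_card [Finite P] {A : Subgroup P} {u : List ℕ} {a b : ℕ} (hA : Nat.card A = a)
    (hB : LB (subW gs (u :: l)) b) (hl : subW gs l ≤ A) (hab : a < b) : wordG gs u ∉ A := fun h => by
  have : subW gs (u :: l) ≤ A := subW_le.2 (List.forall_mem_cons.2 ⟨h, subW_le.1 hl⟩)
  have := (hB.mono this) inferInstance
  omega

theorem idx_of [Finite P] {W N : Subgroup P} (h : N ≤ W) {n : ℕ} (hN : Nat.card N = n) (hW : Nat.card W = 2 * n) :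
    ∀ w ∈ W, ∀ w' ∈ W, w ∉ N → w' ∉ N → w * w' ∈ N := fun w hw w' hw' h1 h2 => by
  have e := (N.subgroupOf W).index_mul_card
  rw [Nat.card_congr (subgroupOfEquivOfLe h).toEquiv, hW, ← hN] at e
  exact (mul_mem_iff_of_index_two (Nat.eq_of_mul_eq_mul_right Nat.card_pos e) (a := ⟨w, hw⟩) (b := ⟨w', hw'⟩)).2
    (iff_of_false h1 h2)

theorem cW_of {W N : Subgroup P} {u : List ℕ} (hu : wordG gs u * wordG gs u = 1)
    (h : W ⊓ centralizer (N : Set P) = subW gs [u]) : ∀ w ∈ W, (∀ l ∈ N, Commute w l) → w = 1 ∨ w = wordG gs u :=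
  fun w hw hc => two_of hu (by
    rw [← sw1, ← h]; exact ⟨hw, fun l hl => (hc l hl).symm⟩)

def Kd (ζ : P) (L : List P) (x : P) : Prop :=
  x = 1 ∨ x = ζ ∨ (∃ y ∈ L, x = y ∨ x = y * ζ) ∨ (x * x ≠ 1 ∧ x * x ≠ ζ)

theorem cls_of [Finite P] {W S : Subgroup P} {R : List (List ℕ)} (hc : Cls 4 S W gs R) (hS : Nat.card S = 2 ^ 14)
    (hW : Nat.card W = 696729600) (hSW : S ≤ W) {ζ : P} (zz : ζ * ζ = 1) (zc : ∀ w ∈ W, Commute ζ w) {L : List P}
    (hR : ∀ r ∈ R, Kd ζ L (wordG gs r)) : ∀ w ∈ W, w * w = 1 ∨ w * w = ζ → w = 1 ∨ w = ζ ∨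
      ∃ r ∈ L, ∃ c ∈ W, c * r * c⁻¹ = w ∨ c * r * c⁻¹ = w * ζ := fun w hw h => by
  have h4 : w ^ 4 = 1 := by
    rw [show w ^ 4 = w * w * (w * w) by simp only [pow_succ, pow_zero, one_mul, mul_assoc]]
    rcases h with h | h <;> rw [h]
    exacts [one_mul 1, zz]
  have hp : IsPGroup 2 (zpowers w) := fun ⟨a, k, e⟩ => ⟨2, Subtype.ext (by
    show a ^ 4 = 1
    rw [← e, ← zpow_natCast, ← zpow_mul, mul_comm, zpow_mul, zpow_natCast, h4, one_zpow])⟩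
  have hf : (696729600 : ℕ).factorization 2 = 14 := by
    rw [show 696729600 = 2 ^ 14 * 42525 by norm_num, Nat.factorization_mul (by norm_num) (by norm_num),
      Nat.prime_two.factorization_pow]
    simp [Nat.factorization_eq_zero_of_not_dvd (show ¬ 2 ∣ 42525 by norm_num)]
  obtain ⟨g, hg, hm⟩ := exists_conj_le Nat.prime_two hW hf hS hSW hp (zpowers_le.2 hw)
  obtain ⟨r, hr, y, hy, e⟩ := hc _ (hm w (mem_zpowers w)) (by rw [conj_pow, h4, mul_one, mul_inv_cancel])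
  have hc : g⁻¹ * y ∈ W := mul_mem (inv_mem hg) hy
  have e' : g⁻¹ * y * wordG gs r * (g⁻¹ * y)⁻¹ = w :=
    calc _ = g⁻¹ * (y * wordG gs r * y⁻¹) * g := by group
      _ = w := by rw [e]; group
  have ez : g⁻¹ * y * ζ * (g⁻¹ * y)⁻¹ = ζ := by rw [← (zc _ hc).eq, mul_inv_cancel_right]
  rcases hR r hr with e1 | e1 | ⟨x, hx, e1⟩ | ⟨e1, e2⟩
  · exact .inl (by rw [← e', e1, mul_one, mul_inv_cancel])
  · exact .inr (.inl (by rw [← e', e1, ez]))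
  · refine .inr (.inr ⟨x, hx, _, hc, e1.imp (fun e1 => ?_) fun e1 => ?_⟩)
    · rw [← e1, e']
    · rw [← e', e1, ← conj_mul, ez, mul_assoc _ ζ, zz, mul_one]
  · rw [← e', conj_mul] at h
    rcases h with h | h
    · exact (e1 (conj_eq_one_iff.1 h)).elim
    · exact (e2 (conj_injective (x := g⁻¹ * y) (h.trans ez.symm))).elim

theorem ne_of_w {v w : List ℕ} (h : wordG gs (v ++ invW w) ≠ 1) : wordG gs v ≠ wordG gs w := fun e =>
  h (by rw [wordG_append, wordG_invW, e, mul_inv_cancel])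

theorem ord5 {w : List ℕ} (h : wordG gs (powW w 5) = wordG gs []) (h1 : wordG gs w ≠ 1) : orderOf (wordG gs w) = 5 :=
  haveI : Fact (Nat.Prime 5) := ⟨by norm_num⟩
  orderOf_eq_prime (by rw [← wordG_powW, h]; rfl) h1

theorem mem_w {X : Type*} [MulAction P X] {Q : Par} {e : ℕ → X} {ns : List Net} {D : List (ℕ × List ℕ)}
    {chk : List (List ℕ × List ℕ) → Bool} (c : Ctx Q e gs ns D chk) {v : List ℕ} (t : List ℕ)
    (h1 : chk [(v, t)] = true) (h2 : leB D [t] l = true) : wordG gs v ∈ subW gs l := c.eq h1 ▸ c.mem h2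

/-- A centreless group whose automorphism group is no larger than itself is complete. -/
theorem inner_of {A B : Type*} [Group A] [Group B] [Finite B] (e : A ≃* B) (hZ : center B = ⊥)
    (h : Nat.card (MulAut B) = Nat.card B) (φ : MulAut A) : ∃ d, φ = MulAut.conj d := by
  have hi : Function.Injective (MulAut.conj : B →* MulAut B) := (injective_iff_map_eq_one _).2 fun b hb =>
    mem_bot.1 (hZ ▸ mem_center_iff.2 fun g => (mul_inv_eq_iff_eq_mul.1 (DFunLike.congr_fun hb g)).symm)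
  have : Finite (MulAut B) := Nat.finite_of_card_ne_zero (h ▸ Nat.card_pos.ne')
  obtain ⟨b, hb⟩ := (hi.bijective_of_nat_card_le h.le).2 ((e.symm.trans φ).trans e)
  refine ⟨e.symm b, MulEquiv.ext fun a => e.injective ?_⟩
  have := DFunLike.congr_fun hb (e a)
  simpa using this.symm

def FA (N : Subgroup P) (ζ rA : P) : Prop :=
  Nat.card (DW N rA) = 1024 ∧ Pr (DW N rA) rA ∧ Pr (DW N rA) (rA * ζ) ∧ ¬ Pr (DW N rA) ζ

def FB (N : Subgroup P) (ζ rB : P) : Prop :=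
  Nat.card (DW N rB) = 11520 ∧ ζ ∉ DW N rB ∧ rB ∈ DW N rB ∧
    ∃ x1 ∈ N, ∃ x2 ∈ N, ∃ y, x1 * (rB * ζ) * x1⁻¹ = y ∧ x2 * (rB * ζ) * x2⁻¹ = y * (rB * ζ) ∧ Commute y (rB * ζ) ∧
      ∃ e ∈ DD (N ⊓ C1 (rB * ζ) ⊓ C1 y), orderOf e = 5

def FC (N : Subgroup P) (ζ rC : P) : Prop := Nat.card (DW N rC) = 23040 ∧ ζ ∈ DW N rC

def FE (W N : Subgroup P) (ζ rA rE : P) : Prop :=
  Nat.card (DW N rE) ∣ 768 ∧ ∃ x1 ∈ N, ∃ x2 ∈ N, ∃ c ∈ W, x1 * rE * x1⁻¹ = rE * ζ ∧ c * rA * c⁻¹ ∈ DW N rE ∧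
    x2 * rE * x2⁻¹ = c * rA * c⁻¹ * rE

def FF (N : Subgroup P) (ζ rA rE rF : P) (B : Type) [Group B] : Prop :=
  Nat.card (DW N rF) = 1451520 ∧ Nonempty (DW N rF ≃* B) ∧
    ∃ x ∈ N, ∃ r2, x * rF * x⁻¹ = r2 ∧ Commute rF r2 ∧ rF * r2 * ζ ∈ DW N rF ∧
      x⁻¹ * (rF * r2 * ζ) * x ∈ DW N rF ∧ rA * ζ ∈ DW N rF ∧ rE ∈ DW N rF ∧ x⁻¹ * (rE * ζ) * x ∈ DW N rF ∧
      rA = rF * r2 * rE ∧ Commute r2 rE

def FG (N : Subgroup P) (rG : P) : Prop :=
  Nat.card (DW N rG) ∣ 1152 ∧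
    ∃ x1 ∈ N, ∃ x2 ∈ N, ∃ x3 ∈ N, ∃ a b c, x1 * rG * x1⁻¹ = a ∧ x2 * rG * x2⁻¹ = b ∧ x3 * rG * x3⁻¹ = c ∧
      Commute a rG ∧ Commute b rG ∧ Commute c rG ∧ a ≠ rG ∧ b ≠ rG ∧ c ≠ rG ∧ a * b * c = rG

end CL.O8S
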