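/-
An involution `z = w ^ 2` with `⟨w⟩` normal in a Sylow 2-subgroup `T` of `C(z)` and `z` weakly closed in `C_T(w)`:
the other conjugates of `z` in `T` form a coset `t Y` of a cyclic group inverted by `t`.
-/
import Cfsg.Agent.Even.Amb
import Cfsg.Agent.Grp.SylowIn
import Cfsg.Agent.Inv.BF3

set_option autoImplicit false

open Subgroup CL.Even CL.Grp

namespace CL.TE.X148

variable {G : Type*} [Group G]

/-- A 2-element. -/
def T2 (x : G) : Prop := ∃ k : ℕ, x ^ 2 ^ k = 1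

namespace T2

variable {x y y' : G}

theorem of_mem {T : Subgroup G} (hT : IsPGroup 2 T) (hx : x ∈ T) : T2 x := isPGroup_iff_forall.1 hT x hx

theorem isP (h : T2 x) : IsPGroup 2 (zpowers x) := h.elim fun _ hk => isPGroup_zpowers hk

theorem of_zp (h : T2 x) (hy : y ∈ zpowers x) : T2 y := of_mem h.isP hy

theorem conj (h : T2 x) (g : G) : T2 (g * x * g⁻¹) := h.imp fun k hk => by rw [conj_pow, hk]; group

theorem of_sq (h : T2 (x * x)) : T2 x := h.elim fun k hk => ⟨k + 1, by rw [pow_succ', pow_mul, sq, hk]⟩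

theorem of_inv (h : x * x = 1) : T2 x := ⟨1, by rw [pow_one, sq, h]⟩

theorem mem_odd (h : T2 x) (k : ℤ) : x ∈ zpowers (x ^ (2 * k + 1)) := by
  obtain ⟨j, hj⟩ := h
  obtain ⟨a, b, e⟩ : IsCoprime (2 * k + 1) (2 ^ j : ℤ) := IsCoprime.pow_right ⟨1, -k, by ring⟩
  refine ⟨a, ?_⟩
  have h2 : x ^ (2 ^ j : ℤ) = 1 := by exact_mod_cast hj
  show (x ^ (2 * k + 1)) ^ a = x
  rw [← zpow_mul, show (2 * k + 1) * a = 1 - 2 ^ j * b by linear_combination e, zpow_sub, zpow_mul, h2]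
  simp

theorem eq_one_of_odd (h : T2 x) {k : ℤ} (hk : x ^ (2 * k + 1) = 1) : x = 1 := by
  simpa [hk] using h.mem_odd k

theorem sq_or (h : T2 x) (hy : y ∈ zpowers x) : (∃ u ∈ zpowers x, y = u * u) ∨ x ∈ zpowers y := by
  obtain ⟨k, rfl⟩ := mem_zpowers_iff.1 hy
  rcases Int.even_or_odd' k with ⟨j, rfl | rfl⟩
  · exact .inl ⟨x ^ j, zpow_mem (mem_zpowers x) j, by rw [two_mul, zpow_add]⟩
  · exact .inr (h.mem_odd j)

theorem induction (h : T2 x) (P : G → Prop) (h1 : P 1) (hs : ∀ y ∈ zpowers x, P (y * y) → P y) : P x := by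
  obtain ⟨k, hk⟩ := h
  suffices H : ∀ j i : ℕ, i + j = k → P (x ^ 2 ^ i) by simpa using H k 0 (zero_add k)
  intro j
  induction j with
  | zero => intro i hi; rw [add_zero] at hi; rw [hi, hk]; exact h1
  | succ j ih =>
    intro i hi
    refine hs _ (pow_mem (mem_zpowers x) _) ?_
    rw [← sq, ← pow_mul, ← pow_succ]
    exact ih _ (by omega)

theorem exists_min (h : T2 x) (P : G → Prop) (h1 : P 1) (hx : ¬ P x) : ∃ y ∈ zpowers x, ¬ P y ∧ P (y * y) := by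
  by_contra hc
  push Not at hc
  exact hx (h.induction P h1 fun y hy h2 => by_contra fun h3 => hc y hy h3 h2)

theorem exists_inv (h : T2 x) (hx : x ≠ 1) : ∃ u ∈ zpowers x, u ≠ 1 ∧ u * u = 1 :=
  h.exists_min (· = 1) rfl hx

theorem eq_one_of_mem_sq (h : T2 x) (hx : x ∈ zpowers (x * x)) : x = 1 := by
  obtain ⟨k, hk⟩ := mem_zpowers_iff.1 hx
  refine h.eq_one_of_odd (k := -k) ?_
  rw [zpow_add_one, mul_neg, zpow_neg, zpow_mul, zpow_two, hk, inv_mul_cancel]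

theorem chain (h : T2 x) (hy : y ∈ zpowers x) (hy' : y' ∈ zpowers x) : y ∈ zpowers y' ∨ y' ∈ zpowers y := by
  refine h.induction (fun u => y ∈ zpowers u → y' ∈ zpowers u → y ∈ zpowers y' ∨ y' ∈ zpowers y)
    (fun h1 _ => .inl ?_) (fun u hu ih h1 h2 => ?_) hy hy'
  · rw [zpowers_one_eq_bot, mem_bot] at h1
    exact h1 ▸ one_mem _
  · have sq : ∀ v ∈ zpowers u, v * v ∈ zpowers (u * u) := fun v hv => by
      obtain ⟨k, rfl⟩ := mem_zpowers_iff.1 hv
      exact ⟨k, (Commute.refl u).mul_zpow k⟩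
    rcases (h.of_zp hu).sq_or h1 with ⟨a, ha, rfl⟩ | h3
    · rcases (h.of_zp hu).sq_or h2 with ⟨b, hb, rfl⟩ | h4
      · exact ih (sq a ha) (sq b hb)
      · exact .inl (zpowers_le.2 h4 h1)
    · exact .inr (zpowers_le.2 h3 h2)

/-- Two generators differ by a square. -/
theorem gen_sq (h : T2 x) (hx : x ≠ 1) (hy : y ∈ zpowers x) (hg : x ∈ zpowers y) :
    ∃ u ∈ zpowers x, y = x * (u * u) := by
  obtain ⟨k, rfl⟩ := mem_zpowers_iff.1 hy
  rcases Int.even_or_odd' k with ⟨j, rfl | rfl⟩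
  · refine absurd (h.eq_one_of_mem_sq (zpowers_le.2 ?_ hg)) hx
    exact ⟨j, by simp only; rw [zpow_mul, zpow_two]⟩
  · exact ⟨x ^ j, zpow_mem (mem_zpowers x) j, by group⟩

end T2

theorem zp_comm {x a b : G} (ha : a ∈ zpowers x) (hb : b ∈ zpowers x) : a * b = b * a := by
  obtain ⟨i, rfl⟩ := mem_zpowers_iff.1 ha
  obtain ⟨j, rfl⟩ := mem_zpowers_iff.1 hb
  exact zpow_mul_comm x i j

theorem zp_inv [Finite G] {x z y : G} (z1 : z ≠ 1) (zz : z * z = 1) (hz : z ∈ zpowers x) (hy : y ∈ zpowers x)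
    (h : y * y = 1) : y = 1 ∨ y = z := by
  by_cases h1 : y = 1
  · exact .inl h1
  · exact .inr (CL.Inv.eq_of_invol_of_mem_isCyclic inferInstance hy hz
      (orderOf_eq_prime (by rw [sq, h]) h1) (orderOf_eq_prime (by rw [sq, zz]) z1))

theorem zp_conj {x g y : G} (h : g * x * g⁻¹ ∈ zpowers x) (hy : y ∈ zpowers x) : g * y * g⁻¹ ∈ zpowers y := by
  obtain ⟨i, rfl⟩ := mem_zpowers_iff.1 hy
  obtain ⟨j, hj⟩ := mem_zpowers_iff.1 h
  exact ⟨j, by simp only; rw [← conj_zpow, ← hj, ← zpow_mul, ← zpow_mul, mul_comm]⟩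

theorem mem_norm_zp [Finite G] {x g : G} (h : g * x * g⁻¹ ∈ zpowers x) : g ∈ 𝒩(zpowers x) :=
  mem_norm_of_cj_le fun y hy => by
    have := zp_conj h (mem_cj.1 hy)
    rw [show g * (g⁻¹ * y * g) * g⁻¹ = y by group] at this
    exact zpowers_le.2 (mem_cj.1 hy) this

/-- Conjugacy in the centralizer of `z`. -/
def HC (z a b : G) : Prop := ∃ x, x * z = z * x ∧ x * a * x⁻¹ = b

namespace HC

variable {z a b c : G}

theorem refl (z a : G) : HC z a a := ⟨1, by simp, by simp⟩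

theorem symm (h : HC z a b) : HC z b a := by
  obtain ⟨x, hx, rfl⟩ := h
  exact ⟨x⁻¹, (show Commute x z from hx).inv_left, by group⟩

theorem trans (h : HC z a b) (h' : HC z b c) : HC z a c := by
  obtain ⟨x, hx, rfl⟩ := h
  obtain ⟨y, hy, rfl⟩ := h'
  exact ⟨y * x, (show Commute y z from hy).mul_left hx, by group⟩

theorem isConj (h : HC z a b) : IsConj a b := h.elim fun x hx => isConj_iff.2 ⟨x, hx.2⟩

theorem mul_self (h : HC z a b) : HC z (a * a) (b * b) := h.imp fun x hx => ⟨hx.1, by rw [← hx.2]; group⟩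

theorem eq_z (h : HC z z a) : a = z := by
  obtain ⟨x, hx, rfl⟩ := h
  rw [hx, mul_inv_cancel_right]

theorem eq_one (h : HC z 1 a) : a = 1 := isConj_one_right.1 h.isConj

theorem ne_z (h : HC z a b) (ha : a ≠ z) : b ≠ z := fun e => ha (e ▸ h).symm.eq_z

theorem sq_z (h : HC z a b) (ha : a * a = z) : b * b = z := (ha ▸ h.mul_self).eq_z

end HC

/-- The configuration. -/
structure Cf (z w : G) (T : Subgroup G) : Prop where
  z1 : z ≠ 1
  zz : z * z = 1
  syl : IsSylowIn 2 T (centralizer {z})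
  wT : w ∈ T
  ww : w * w = z
  wn : ∀ g ∈ T, g * w * g⁻¹ = w ∨ g * w * g⁻¹ = w⁻¹
  inv : ∀ s ∈ T, IsConj z s → s ≠ z → s * w * s⁻¹ ≠ w

/-- The conjugates of `z` in `T` other than `z`. -/
def DT (z : G) (T : Subgroup G) (s : G) : Prop := s ∈ T ∧ IsConj z s ∧ s ≠ z

namespace Cf

variable {z w : G} {T : Subgroup G} (h : Cf z w T) {s t u v : G}
include h

theorem cz (hs : s ∈ T) : s * z = z * s := mem_centralizer_singleton_iff.1 (h.syl.le hs)

theorem zT : z ∈ T := h.ww ▸ mul_mem h.wT h.wT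

theorem t2 (hs : s ∈ T) : T2 s := T2.of_mem h.syl.isPGroup hs

theorem hc (hg : u ∈ T) (a : G) : HC z a (u * a * u⁻¹) := ⟨u, h.cz hg, rfl⟩

theorem zinv : z⁻¹ = z := inv_eq_of_mul_eq_one_right h.zz

theorem sq_of_conj (hs : IsConj z s) : s * s = 1 := by
  obtain ⟨g, rfl⟩ := isConj_iff.1 hs
  rw [show g * z * g⁻¹ * (g * z * g⁻¹) = g * (z * z) * g⁻¹ by group, h.zz, mul_one, mul_inv_cancel]

theorem dinv (hs : DT z T s) : s⁻¹ = s := inv_eq_of_mul_eq_one_right (h.sq_of_conj hs.2.1)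

theorem w_ne : w⁻¹ ≠ w := fun e => h.z1 (by rw [← h.ww]; nth_rw 1 [← e]; exact inv_mul_cancel w)

theorem dw (hs : DT z T s) : s * w * s⁻¹ = w⁻¹ := (h.wn s hs.1).resolve_left (h.inv s hs.1 hs.2.1 hs.2.2)

theorem dconj (hs : DT z T s) (h1 : HC z s t) (ht : t ∈ T) : DT z T t :=
  ⟨ht, hs.2.1.trans h1.isConj, h1.ne_z hs.2.2⟩

theorem dmul (hs : DT z T s) (ht : DT z T t) : s * t * w * (s * t)⁻¹ = w := by
  rw [show s * t * w * (s * t)⁻¹ = s * (t * w * t⁻¹) * s⁻¹ by group, h.dw ht,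
    show s * w⁻¹ * s⁻¹ = (s * w * s⁻¹)⁻¹ by group, h.dw hs, inv_inv]

theorem dz (hs : DT z T s) : DT z T (s * z) := by
  refine h.dconj hs ⟨w, h.cz h.wT, ?_⟩ (mul_mem hs.1 h.zT)
  have := h.dw hs
  rw [h.dinv hs] at this
  calc w * s * w⁻¹ = w * (s * (s * w * s)) := by rw [this, mul_assoc]
    _ = w * ((s * s) * w * s) := by group
    _ = s * z := by rw [h.sq_of_conj hs.2.1, one_mul, ← mul_assoc, h.ww, h.cz hs.1]

variable [Finite G]

theorem to_T {U : Subgroup G} (hU : IsPGroup 2 U) (hz : ∀ u ∈ U, u * z = z * u) :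
    ∃ x, x * z = z * x ∧ ∀ u ∈ U, x * u * x⁻¹ ∈ T := by
  obtain ⟨x, hx, h1⟩ := h.syl.exists_conj_le hU fun u hu => mem_centralizer_singleton_iff.2 (hz u hu)
  exact ⟨x, mem_centralizer_singleton_iff.1 hx, (conj_smul_le_iff _ _ _).1 h1⟩

theorem to_T1 (hv : T2 v) (hz : v * z = z * v) : ∃ v' ∈ T, HC z v v' := by
  obtain ⟨x, hx, h1⟩ := h.to_T hv.isP fun u hu => by
    obtain ⟨k, rfl⟩ := mem_zpowers_iff.1 hu
    exact (show Commute v z from hz).zpow_left k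
  exact ⟨_, h1 v (mem_zpowers v), x, hx, rfl⟩

/-- A conjugate `s ≠ z` is not a square in `C(z)`. -/
theorem not_sq (hs : IsConj z s) (h1 : s ≠ z) (hv : v * z = z * v) : v * v ≠ s := by
  rintro rfl
  obtain ⟨v', hv', hc⟩ := h.to_T1 (T2.of_inv (h.sq_of_conj hs)).of_sq hv
  refine h.inv _ (mul_mem hv' hv') (hs.trans hc.mul_self.isConj) (hc.mul_self.ne_z h1) ?_
  rw [show v' * v' * w * (v' * v')⁻¹ = v' * (v' * w * v'⁻¹) * v'⁻¹ by group]
  rcases h.wn v' hv' with e | e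
  · rw [e, e]
  · rw [e, show v' * w⁻¹ * v'⁻¹ = (v' * w * v'⁻¹)⁻¹ by group, e, inv_inv]

/-- `z` is not a square in the centralizer of another conjugate. -/
theorem not_sq' (ht : IsConj z t) (h1 : t ≠ z) (hv : v * t = t * v) : v * v ≠ z := by
  obtain ⟨g, rfl⟩ := isConj_iff.1 ht
  intro e
  refine h.not_sq (s := g⁻¹ * z * g) (v := g⁻¹ * v * g) (isConj_iff.2 ⟨g⁻¹, by group⟩) (fun e => h1 ?_) ?_ ?_
  · nth_rw 1 [← e]; group
  · calc g⁻¹ * v * g * z = g⁻¹ * (v * (g * z * g⁻¹)) * g := by group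
      _ = _ := by rw [hv]; group
  · rw [← e]; group

theorem conj_mul_z (hs : IsConj z s) (h1 : s ≠ z) (hz : s * z = z * s) : IsConj z (s * z) := by
  obtain ⟨s', hs', x, hx, e⟩ := h.to_T1 (T2.of_inv (h.sq_of_conj hs)) hz
  have := h.dz ⟨hs', hs.trans (HC.isConj ⟨x, hx, e⟩), HC.ne_z ⟨x, hx, e⟩ h1⟩
  refine this.2.1.trans (isConj_iff.2 ⟨x, ?_⟩).symm
  rw [← e, mul_assoc (x * s), (show Commute x z from hx).inv_left.eq]
  group

theorem conj_mul (hs : IsConj z s) (ht : IsConj z t) (h1 : s ≠ t) (hc : s * t = t * s) : IsConj z (s * t) := by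
  obtain ⟨g, rfl⟩ := isConj_iff.1 ht
  have := h.conj_mul_z (s := g⁻¹ * s * g) (hs.trans (isConj_iff.2 ⟨g⁻¹, by group⟩))
    (fun e => h1 (by rw [← e]; group)) (by
      calc g⁻¹ * s * g * z = g⁻¹ * (s * (g * z * g⁻¹)) * g := by group
        _ = _ := by rw [hc]; group)
  exact this.trans (isConj_iff.2 ⟨g, by group⟩)

theorem mul_eq_z (hs : DT z T s) (ht : DT z T t) (h1 : s ≠ t) (hc : s * t = t * s) : s * t = z :=
  by_contra fun e => h.inv _ (mul_mem hs.1 ht.1) (h.conj_mul hs.2.1 ht.2.1 h1 hc) e (h.dmul hs ht)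

omit [Finite G] in
theorem dinv_mul (hs : DT z T s) (ht : DT z T t) (k : ℤ) : t * (t * s) ^ k * t⁻¹ = ((t * s) ^ k)⁻¹ := by
  rw [← conj_zpow, ← inv_zpow, mul_inv_rev, h.dinv hs, h.dinv ht, ← mul_assoc, h.sq_of_conj ht.2.1, one_mul]

omit [Finite G] in
theorem dsq (ht : DT z T t) (hu : u ∈ T) (hi : t * u * t⁻¹ = u⁻¹) : DT z T (t * (u * u)) := by
  refine h.dconj ht ⟨u⁻¹, h.cz (inv_mem hu), ?_⟩ (mul_mem ht.1 (mul_mem hu hu))
  rw [inv_inv]
  nth_rw 1 [← hi]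
  group

omit [Finite G] in
theorem dih (hs : DT z T s) (ht : DT z T t) (hu : u ∈ zpowers (t * s)) : DT z T (t * u) := by
  obtain ⟨k, rfl⟩ := mem_zpowers_iff.1 hu
  have hm : ∀ j : ℤ, (t * s) ^ j ∈ T := fun j => zpow_mem (mul_mem ht.1 hs.1) j
  rcases Int.even_or_odd' k with ⟨j, rfl | rfl⟩
  · rw [two_mul, zpow_add]
    exact h.dsq ht (hm j) (h.dinv_mul hs ht j)
  · have e : t * (t * s) ^ (2 * j + 1) = s * ((t * s) ^ j * (t * s) ^ j) := by
      rw [add_comm, zpow_one_add, two_mul, zpow_add, ← mul_assoc, ← mul_assoc t, h.sq_of_conj ht.2.1, one_mul]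
    rw [e]
    refine h.dsq hs (hm j) ?_
    have := h.dinv_mul ht hs (-j)
    rwa [show s * t = (t * s)⁻¹ by rw [mul_inv_rev, h.dinv hs, h.dinv ht], inv_zpow', neg_neg] at this

theorem z_mem (hs : DT z T s) (ht : DT z T t) (h1 : t * s ≠ 1) : z ∈ zpowers (t * s) := by
  obtain ⟨u, hu, u1, uu⟩ := (h.t2 (mul_mem ht.1 hs.1)).exists_inv h1
  obtain ⟨k, hk⟩ := mem_zpowers_iff.1 hu
  have e := h.dinv_mul hs ht k
  rw [hk, inv_eq_of_mul_eq_one_right uu, mul_inv_eq_iff_eq_mul] at e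
  have := h.mul_eq_z ht (h.dih hs ht hu) (fun e => u1 (by simpa using e)) (by rw [mul_assoc, ← e])
  rw [← mul_assoc, h.sq_of_conj ht.2.1, one_mul] at this
  exact this ▸ hu

theorem eq_z_of_comm (ht : IsConj z t) (h1 : t ≠ z) (hv : T2 v) (hz : z ∈ zpowers v) (hc : v * t = t * v) :
    v = z := by
  rcases hv.sq_or hz with ⟨u, hu, e⟩ | e
  · obtain ⟨k, rfl⟩ := mem_zpowers_iff.1 hu
    exact absurd e.symm (h.not_sq' ht h1 ((show Commute v t from hc).zpow_left k))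
  · refine (zp_inv h.z1 h.zz (mem_zpowers z) e ?_).resolve_left fun e1 => h.z1 ?_
    · obtain ⟨k, rfl⟩ := mem_zpowers_iff.1 e
      rw [← (Commute.refl z).mul_zpow, h.zz, one_zpow]
    · simpa [e1] using hz

/-- The weak closure of `z` in `T` is dihedral. -/
theorem exists_Y (ht : DT z T t) : ∃ η, ∀ s, DT z T s ↔ t * s ∈ zpowers η := by
  obtain ⟨s, hs, hm⟩ := Set.exists_max_image {s | DT z T s} (fun s => orderOf (t * s)) (Set.toFinite _) ⟨t, ht⟩
  have tt := h.sq_of_conj ht.2.1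
  have hz : z ∈ zpowers (t * s) := h.z_mem hs ht fun e => by
    have := hm _ (h.dz ht)
    rw [e, orderOf_one, ← mul_assoc, tt, one_mul, orderOf_eq_prime (by rw [sq, h.zz]) h.z1] at this
    omega
  refine ⟨t * s, fun u => ⟨fun hu => ?_, fun hu => ?_⟩⟩
  · refine (h.t2 (mul_mem ht.1 hu.1)).induction (· ∈ zpowers (t * s)) (one_mem _) fun y hy h2 => ?_
    have dy := h.dih hu ht hy
    have y2 := h.t2 (mul_mem ht.1 dy.1)
    rw [← mul_assoc, tt, one_mul] at y2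
    rcases (h.t2 (mul_mem ht.1 hs.1)).sq_or h2 with ⟨v, hv, e⟩ | e
    · have dv := h.dih hs ht hv
      have iy : t * y * t⁻¹ = y⁻¹ := by
        obtain ⟨k, rfl⟩ := mem_zpowers_iff.1 hy
        exact h.dinv_mul hu ht k
      have iv : t * v * t⁻¹ = v⁻¹ := by
        obtain ⟨k, rfl⟩ := mem_zpowers_iff.1 hv
        exact h.dinv_mul hs ht k
      have e1 : t * y * (t * v) = y⁻¹ * v := by rw [← iy, h.dinv ht, mul_assoc (t * y)]
      have e2 : y⁻¹ * v * t = t * (y⁻¹ * v) := by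
        calc y⁻¹ * v * t = y * ((y * y)⁻¹ * v) * t := by group
          _ = y * v⁻¹ * t := by rw [e]; group
          _ = t * ((t * y * t⁻¹) * (t * v * t⁻¹)⁻¹) := by rw [h.dinv ht]; simp only [mul_inv_rev, h.dinv ht, ← mul_assoc, tt, one_mul, mul_assoc _ t t, mul_one]
          _ = _ := by rw [iy, iv, inv_inv]
      have e3 : y⁻¹ * v ∈ zpowers (t * s) := by
        by_cases h1 : t * y * (t * v) = 1
        · rw [← e1, h1]; exact one_mem _
        · rw [h.eq_z_of_comm ht.2.1 ht.2.2 (e1 ▸ h.t2 (mul_mem dy.1 dv.1)) (e1 ▸ h.z_mem dv dy h1) e2]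
          exact hz
      exact inv_mem_iff.1 ((mul_mem_cancel_right hv).1 e3)
    · have h3 := hm _ dy
      rw [← mul_assoc, tt, one_mul] at h3
      have h4 : zpowers (y * y) = zpowers y := eq_of_le_of_card_ge
        (zpowers_le.2 (mul_mem (mem_zpowers y) (mem_zpowers y)))
        (by rw [Nat.card_zpowers, Nat.card_zpowers]
            exact h3.trans (Nat.le_of_dvd (orderOf_pos _) (orderOf_dvd_of_mem_zpowers e)))
      rw [y2.eq_one_of_mem_sq (h4.ge (mem_zpowers y))]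
      exact one_mem _
  · have := h.dih hs ht hu
    rwa [← mul_assoc, tt, one_mul] at this

end Cf

end CL.TE.X148
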