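/-
The cyclic group `Y` with `D ∩ T = {z} ∪ t Y`: fusion of its elements in `C(z)`.
-/
import Cfsg.Agent.TE.X148A

set_option autoImplicit false

open Subgroup CL.Even CL.Grp

namespace CL.TE.X148

variable {G : Type*} [Group G]

theorem exists_ext {Y : Subgroup G} {c : G} (hn : c ∈ 𝒩(Y)) (h2 : c * c ∈ Y) :
    ∃ Q : Subgroup G, ∀ g, g ∈ Q ↔ g ∈ Y ∨ c⁻¹ * g ∈ Y := by
  refine ⟨{ carrier := {g | g ∈ Y ∨ c⁻¹ * g ∈ Y}, one_mem' := .inl (one_mem _), mul_mem' := ?_, inv_mem' := ?_ },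
    fun _ => Iff.rfl⟩
  · rintro a b (ha | ha) (hb | hb)
    · exact .inl (mul_mem ha hb)
    · exact .inr (by simpa only [mul_assoc, mul_inv_cancel_left] using mul_mem (conj_mem' hn ha) hb)
    · exact .inr (by simpa only [mul_assoc] using mul_mem ha hb)
    · refine .inl ?_
      simpa only [mul_assoc, mul_inv_cancel_left] using mul_mem (mul_mem h2 (conj_mem' hn ha)) hb
  · rintro a (ha | ha)
    · exact .inl (inv_mem ha)
    · refine .inr ?_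
      rw [show c⁻¹ * a⁻¹ = (c⁻¹ * (c⁻¹ * a)⁻¹ * c) * (c * c)⁻¹ by group]
      exact mul_mem (conj_mem' hn (inv_mem ha)) (inv_mem h2)

/-- The configuration with the dihedral weak closure `⟨t, η⟩`. -/
structure Cy (z w t η : G) (T : Subgroup G) : Prop extends Cf z w T where
  tD : DT z T t
  Y : ∀ s, DT z T s ↔ t * s ∈ zpowers η

namespace Cy

variable {z w t η : G} {T : Subgroup G} (h : Cy z w t η T) {s y c g v : G}
include h

theorem tt : t * t = 1 := h.sq_of_conj h.tD.2.1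

theorem ti : t⁻¹ = t := h.dinv h.tD

theorem ttm (a : G) : t * (t * a) = a := by rw [← mul_assoc, h.tt, one_mul]

theorem dY (hy : y ∈ zpowers η) : DT z T (t * y) := (h.Y _).2 (by rwa [h.ttm])

theorem YT (hy : y ∈ zpowers η) : y ∈ T := h.ttm y ▸ mul_mem h.tD.1 (h.dY hy).1

theorem zY : z ∈ zpowers η := h.ttm z ▸ (h.Y _).1 (h.dz h.tD)

theorem η2 : T2 η := h.t2 (h.YT (mem_zpowers η))

theorem η1 : η ≠ 1 := fun e => h.z1 (by simpa [e] using h.zY)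

theorem tY (hy : y ∈ zpowers η) : t * y * t⁻¹ = y⁻¹ := by
  rw [h.ti, eq_inv_iff_mul_eq_one, mul_assoc]
  exact h.sq_of_conj (h.dY hy).2.1

theorem dsY (hs : DT z T s) (hy : y ∈ zpowers η) : DT z T (s * y) :=
  (h.Y _).2 (by rw [← mul_assoc]; exact mul_mem ((h.Y s).1 hs) hy)

theorem cm (hg : g ∈ T) : t * (g⁻¹ * t * g) ∈ zpowers η :=
  (h.Y _).1 (h.dconj h.tD ⟨g⁻¹, h.cz (inv_mem hg), by rw [inv_inv]⟩
    (mul_mem (mul_mem (inv_mem hg) h.tD.1) hg))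

theorem nY (hg : g ∈ T) (hy : y ∈ zpowers η) : g * y * g⁻¹ ∈ zpowers η := by
  have d := fun s (hs : DT z T s) => (h.Y _).1 (h.dconj hs (h.hc hg s) (mul_mem (mul_mem hg hs.1) (inv_mem hg)))
  have := mul_mem (inv_mem (d _ h.tD)) (d _ (h.dY hy))
  rwa [show (t * (g * t * g⁻¹))⁻¹ * (t * (g * (t * y) * g⁻¹)) = g * y * g⁻¹ by group] at this

theorem nY' (hg : g ∈ T) (hy : y ∈ zpowers η) : g * y * g⁻¹ ∈ zpowers y := zp_conj (h.nY hg (mem_zpowers η)) hy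

theorem comp (hc : c ∈ T) (h2 : c * c ∈ zpowers η) :
    t * (c⁻¹ * t * c) * (c⁻¹ * (t * (c⁻¹ * t * c)) * c) = c * c * (c * c) := by
  calc _ = t * (c⁻¹ * (t * t) * c) * 1 * (c * c)⁻¹ * t * (c * c) := by group
    _ = t * (c * c)⁻¹ * t⁻¹ * (c * c) := by rw [h.tt, h.ti]; group
    _ = _ := by rw [h.tY (inv_mem h2), inv_inv]

theorem conj_t (c : G) : t * c * t⁻¹ = c * (t * (c⁻¹ * t * c))⁻¹ := by
  simp only [mul_inv_rev, inv_inv, h.ti, mul_assoc, mul_inv_cancel_left]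

variable [Finite G]

theorem inv_Y (hy : y ∈ zpowers η) (h2 : y * y = 1) : y = 1 ∨ y = z := zp_inv h.z1 h.zz h.zY hy h2

theorem ext (hy : y ∈ zpowers η) (hv : T2 v) (hz : v * z = z * v) (hn : v * y * v⁻¹ ∈ zpowers y) :
    ∃ n, n * z = z * n ∧ n * y * n⁻¹ ∈ zpowers y ∧ n * v * n⁻¹ ∈ T := by
  obtain ⟨n, hn, h1⟩ := (h.syl.of_le (K := centralizer {z} ⊓ 𝒩(zpowers y))
    (le_inf h.syl.le fun g hg => mem_norm_zp (h.nY' hg hy)) inf_le_left).exists_conj_le hv.isP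
    (zpowers_le.2 (mem_inf.2 ⟨mem_centralizer_singleton_iff.2 hz, mem_norm_zp hn⟩))
  exact ⟨n, mem_centralizer_singleton_iff.1 hn.1, conj_mem hn.2 (mem_zpowers y),
    (conj_smul_le_iff _ _ _).1 h1 v (mem_zpowers v)⟩

theorem mem_of_norm (hy : y ∈ zpowers η) (hyc : HC z y c) (hc : c ∈ T) (hs : DT z T s)
    (hn : s * c * s⁻¹ ∈ zpowers c) : c ∈ zpowers η := by
  obtain ⟨x, hx, rfl⟩ := hyc
  have h1 : HC z s (x⁻¹ * s * x) := ⟨x⁻¹, (show Commute x z from hx).inv_left, by rw [inv_inv]⟩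
  obtain ⟨n, hn, h2, h3⟩ := h.ext (v := x⁻¹ * s * x) hy (by simpa using (h.t2 hs.1).conj x⁻¹)
    (((show Commute x z from hx).inv_left.mul_left (h.cz hs.1)).mul_left hx) (by
      obtain ⟨k, hk⟩ := mem_zpowers_iff.1 hn
      refine ⟨k, ?_⟩
      rw [conj_zpow] at hk
      calc y ^ k = x⁻¹ * (x * y ^ k * x⁻¹) * x := by group
        _ = _ := by rw [hk]; group)
  have d1 := h.dsY (h.dconj hs (h1.trans ⟨n, hn, rfl⟩) h3) (zpowers_le.2 hy h2)
  have d2 := h.dconj d1 (t := s * (x * y * x⁻¹)) ⟨x * n⁻¹,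
    (show Commute x z from hx).mul_left (show Commute n z from hn).inv_left, by group⟩ (mul_mem hs.1 hc)
  have := (h.Y _).1 d2
  rwa [← mul_assoc, mul_mem_cancel_left ((h.Y s).1 hs)] at this

omit [Finite G] in
theorem big (hc : c ∈ T) (h2 : c * c ∈ zpowers η) (h4 : c * c * (c * c) ≠ 1) : t * c * t⁻¹ ∈ zpowers c := by
  have h0 := h.cm hc
  have e := h.comp hc h2
  rw [h.conj_t]
  generalize t * (c⁻¹ * t * c) = y at h0 e ⊢
  have cc : zpowers (c * c) ≤ zpowers c := zpowers_le.2 (mul_mem (mem_zpowers c) (mem_zpowers c))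
  refine mul_mem (mem_zpowers c) (inv_mem (cc (by_contra fun h1 => h4 ?_)))
  obtain ⟨u, hu, e1⟩ := ((h.t2 (h.YT h0)).sq_or ((h.η2.chain h0 h2).resolve_left h1)).resolve_right h1
  obtain ⟨j, rfl⟩ := mem_zpowers_iff.1 hu
  have e2 : c⁻¹ * y * c⁻¹⁻¹ = y ^ (4 * j - 1) := by
    rw [inv_inv, eq_inv_mul_iff_mul_eq.2 e, e1]
    group
  have e3 : c⁻¹ * (c * c) * c⁻¹⁻¹ = c * c := by group
  rw [e1, ← zpow_add, ← conj_zpow, e2] at e3
  refine (h.t2 (mul_mem (mul_mem hc hc) (mul_mem hc hc))).eq_one_of_odd (k := j - 1) ?_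
  rw [e1, ← mul_inv_eq_one.2 e3]
  group

theorem mem_of_big (hy : y ∈ zpowers η) (hyc : HC z y c) (hc : c ∈ T) (h2 : c * c ∈ zpowers η)
    (h4 : c * c * (c * c) ≠ 1) : c ∈ zpowers η := h.mem_of_norm hy hyc hc h.tD (h.big hc h2 h4)

theorem swap (hy : y ∈ zpowers η) (hyc : HC z y c) (hc : c ∈ T) (h2 : c * c = z) (hY : c ∉ zpowers η) :
    (∀ u ∈ zpowers η, c⁻¹ * u * c = u⁻¹) ∧ η ∈ zpowers (t * (c⁻¹ * t * c)) := by
  have e := h.comp hc (h2 ▸ h.zY)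
  rw [h2, h.zz, mul_eq_one_iff_inv_eq] at e
  rcases h.η2.sq_or (h.cm hc) with ⟨u, hu, e1⟩ | e1
  · refine absurd (h.mem_of_norm hy hyc hc (h.dY hu) ?_) hY
    have hu' : c⁻¹ * u * c ∈ zpowers η := by simpa using h.nY (inv_mem hc) hu
    have e2 : c⁻¹ * u * c * u * (c⁻¹ * u * c * u) = 1 := by
      rw [mul_assoc, ← mul_assoc u, ← zp_comm hu' hu,
        show c⁻¹ * u * c * (c⁻¹ * u * c * u * u) = c⁻¹ * (u * u) * c * (u * u) by group, ← e1, ← e, inv_mul_cancel]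
    have e3 : t * u * c * (t * u)⁻¹ = c * (c⁻¹ * u * c * u)⁻¹ := by
      calc _ = t * c * t⁻¹ * (t * (c⁻¹ * u * c) * t⁻¹) * (t * u⁻¹ * t⁻¹) := by group
        _ = _ := by
          rw [h.conj_t, e1, h.tY hu', h.tY (inv_mem hu), mul_inv_rev (c⁻¹ * u * c) u, mul_assoc, mul_assoc,
            zp_comm (inv_mem hu') (inv_mem (inv_mem hu))]
          group
    rw [e3]
    refine mul_mem (mem_zpowers c) (inv_mem ?_)
    rcases h.inv_Y (mul_mem hu' hu) e2 with e4 | e4 <;> rw [e4]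
    exacts [one_mem _, h2 ▸ mul_mem (mem_zpowers c) (mem_zpowers c)]
  · refine ⟨fun u hu => ?_, e1⟩
    obtain ⟨k, rfl⟩ := mem_zpowers_iff.1 (zpowers_le.2 e1 hu)
    rw [← inv_zpow, e]
    simpa only [inv_inv] using (conj_zpow (a := c⁻¹) (i := k)).symm

end Cy

/-- The configuration with the generalized quaternion group `Q = ⟨η, c⟩`. -/
structure Cq (z w t η i c : G) (T Q : Subgroup G) : Prop extends Cy z w t η T where
  iY : i ∈ zpowers η
  ii : i * i = z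
  cT : c ∈ T
  ic : HC z i c
  cY : c ∉ zpowers η
  tc : t * (c⁻¹ * t * c) = η
  memQ : ∀ g, g ∈ Q ↔ g ∈ zpowers η ∨ c⁻¹ * g ∈ zpowers η

theorem Cy.exists_cq [Finite G] {z w t η i c : G} {T : Subgroup G} (h : Cy z w t η T) (iY : i ∈ zpowers η)
    (ii : i * i = z) (cT : c ∈ T) (ic : HC z i c) (cY : c ∉ zpowers η) : ∃ η' Q, Cq z w t η' i c T Q := by
  have e : zpowers (t * (c⁻¹ * t * c)) = zpowers η :=
    le_antisymm (zpowers_le.2 (h.cm cT)) (zpowers_le.2 (h.swap iY ic cT (ic.sq_z ii) cY).2)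
  obtain ⟨Q, hQ⟩ := exists_ext (mem_norm_zp (h.nY cT (mem_zpowers η))) ((ic.sq_z ii).symm ▸ h.zY)
  exact ⟨_, Q, ⟨h.toCf, h.tD, e.symm ▸ h.Y⟩, e.symm ▸ iY, ii, cT, ic, e.symm ▸ cY, rfl, e.symm ▸ hQ⟩

namespace Cq

variable [Finite G] {z w t η i c : G} {T Q : Subgroup G} (h : Cq z w t η i c T Q) {y g u : G}
include h

omit [Finite G] in
theorem cc : c * c = z := h.ic.sq_z h.ii

theorem cinv (hy : y ∈ zpowers η) : c⁻¹ * y * c = y⁻¹ := (h.swap h.iY h.ic h.cT h.cc h.cY).1 y hy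

omit [Finite G] in
theorem i_ne : i⁻¹ ≠ i := fun e => h.z1 (by rw [← h.ii]; nth_rw 1 [← e]; exact inv_mul_cancel i)

omit [Finite G] in
theorem YQ (hy : y ∈ zpowers η) : y ∈ Q := (h.memQ y).2 (.inl hy)

omit [Finite G] in
theorem cYQ (hy : y ∈ zpowers η) : c * y ∈ Q := (h.memQ _).2 (.inr (by rwa [inv_mul_cancel_left]))

omit [Finite G] in
theorem cQ : c ∈ Q := mul_one c ▸ h.cYQ (one_mem _)

omit [Finite G] in
theorem QT : Q ≤ T := fun g hg => by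
  rcases (h.memQ g).1 hg with h1 | h1
  · exact h.YT h1
  · exact (mul_mem_cancel_left (inv_mem h.cT)).1 (h.YT h1)

theorem hc_cY (hy : y ∈ zpowers η) : HC z i (c * y) := by
  have key : ∀ a ∈ zpowers η, ∀ u ∈ zpowers η, HC z (c * a) (c * (a * (u * u))) := fun a ha u hu =>
    ⟨u⁻¹, h.cz (inv_mem (h.YT hu)), by
      calc _ = c * ((c⁻¹ * u * c)⁻¹ * a) * u := by group
        _ = _ := by rw [h.cinv hu, inv_inv, zp_comm hu ha]; group⟩
  rcases h.η2.sq_or hy with ⟨u, hu, rfl⟩ | e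
  · simpa using h.ic.trans (by simpa using key 1 (one_mem _) u hu)
  · obtain ⟨u, hu, rfl⟩ := h.η2.gen_sq h.η1 hy e
    have h1 : HC z c (c * η⁻¹) := ⟨t, h.cz h.tD.1, by rw [h.conj_t, h.tc]⟩
    have := h.ic.trans (h1.trans (key _ (inv_mem (mem_zpowers η)) _ (mul_mem (mem_zpowers η) hu)))
    rwa [mul_assoc η u, ← mul_assoc u, ← zp_comm (mem_zpowers η) hu, inv_mul_cancel_left, mul_assoc] at this

theorem mem_Y_of_comm (hg : HC z i g) (hT : g ∈ T) (hc : g * i = i * g) : g ∈ zpowers η := by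
  by_contra h1
  refine h.i_ne ?_
  rw [← (h.swap h.iY hg hT (hg.sq_z h.ii) h1).1 i h.iY, mul_assoc, ← hc, inv_mul_cancel_left]

/-- An involution `u` centralizing a conjugate `g` of `i` with `u g` conjugate to `i` is `z`. -/
theorem eq_z (hg : HC z i g) (hu : HC z i (u * g)) (uz : u * z = z * u) (h2 : u * u = 1) (hc : u * g = g * u) :
    u = 1 ∨ u = z := by
  obtain ⟨x, hx, rfl⟩ := hg
  have cx : Commute x z := hx
  have h1 : HC z i (x⁻¹ * u * x * i) := hu.trans ⟨x⁻¹, cx.inv_left, by group⟩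
  have h3 : x⁻¹ * u * x * i = i * (x⁻¹ * u * x) := by
    calc _ = x⁻¹ * (u * (x * i * x⁻¹)) * x := by group
      _ = _ := by rw [hc]; group
  obtain ⟨n, hn, h4, h5⟩ := h.ext (v := x⁻¹ * u * x * i) h.iY
    (T2.of_inv (by rw [h1.sq_z h.ii, h.zz])).of_sq
    (((cx.inv_left.mul_left uz).mul_left cx).mul_left (h.cz (h.YT h.iY)))
    (by nth_rw 1 [h3]; rw [mul_assoc i, mul_inv_cancel_right]; exact mem_zpowers i)
  have h6 : i ∈ zpowers (n * i * n⁻¹) := (eq_of_le_of_card_ge (zpowers_le.2 h4) (by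
    rw [Nat.card_zpowers, Nat.card_zpowers]; exact ((MulAut.conj n).orderOf_eq i).ge)).ge (mem_zpowers i)
  have h7 := h.mem_Y_of_comm (h1.trans ⟨n, hn, rfl⟩) h5 (by
    obtain ⟨k, hk⟩ := mem_zpowers_iff.1 h6
    have : Commute (n * (x⁻¹ * u * x * i) * n⁻¹) (n * i * n⁻¹) := by
      show _ = _
      calc _ = n * (x⁻¹ * u * x * i * i) * n⁻¹ := by group
        _ = _ := by rw [h3]; nth_rw 2 [← h3]; group
    have := this.zpow_right k
    rwa [hk] at this)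
  have h8 : HC z (n * (x⁻¹ * u * x) * n⁻¹) u :=
    ⟨x * n⁻¹, cx.mul_left (show Commute n z from hn).inv_left, by group⟩
  have h9 := mul_mem h7 (inv_mem (zpowers_le.2 h.iY h4))
  rw [show n * (x⁻¹ * u * x * i) * n⁻¹ * (n * i * n⁻¹)⁻¹ = n * (x⁻¹ * u * x) * n⁻¹ by group] at h9
  rcases h.inv_Y h9 (h2 ▸ h8.symm.mul_self).eq_one with e | e <;> rw [e] at h8
  exacts [.inl h8.eq_one, .inr h8.eq_z]

/-- The conjugates of `i` in `T` lie in `Q`. -/
theorem mem_Q_of_i (hg : HC z i g) (hT : g ∈ T) : g ∈ Q := by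
  by_cases hY : g ∈ zpowers η
  · exact h.YQ hY
  obtain ⟨y, hy, e⟩ := h.η2.gen_sq h.η1 (h.cm hT) (h.swap h.iY hg hT (hg.sq_z h.ii) hY).2
  have h1 := h.hc_cY hy
  have hd : c * y ∈ T := mul_mem h.cT (h.YT hy)
  have hdQ := h.cYQ hy
  have e1 : g * (c * y)⁻¹ * t = t * (g * (c * y)⁻¹) := by
    have : g⁻¹ * t * g = (c * y)⁻¹ * t * (c * y) := by
      calc g⁻¹ * t * g = t * (η * (y * y)) := by rw [← e, h.ttm]
        _ = (t * y * t⁻¹) * (t * η) * y := by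
          rw [mul_assoc (t * y), inv_mul_cancel_left, mul_assoc t y, ← zp_comm (mem_zpowers η) hy]
          group
        _ = _ := by rw [h.tY hy, ← h.tc, h.ttm]; group
    calc _ = g * ((c * y)⁻¹ * t * (c * y)) * (c * y)⁻¹ := by group
      _ = _ := by rw [← this]; group
  clear e
  generalize c * y = d at h1 hd hdQ e1
  obtain ⟨e, rfl⟩ : ∃ e, g = e * d := ⟨g * d⁻¹, by group⟩
  rw [mul_inv_cancel_right] at e1
  have eT : e ∈ T := (mul_mem_cancel_right hd).1 hT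
  have e2 : d * e * d⁻¹ = e⁻¹ := by
    refine eq_inv_of_mul_eq_one_right ?_
    rw [← mul_left_inj (d * d), one_mul]
    calc _ = e * d * (e * d) := by group
      _ = _ := by rw [hg.sq_z h.ii, h1.sq_z h.ii]
  refine mul_mem ?_ hdQ
  by_cases e3 : e = 1
  · exact e3 ▸ one_mem _
  obtain ⟨u, hu, u1, uu⟩ := (h.t2 eT).exists_inv e3
  obtain ⟨k, rfl⟩ := mem_zpowers_iff.1 hu
  have e4 : ∀ j : ℤ, d * (e ^ j)⁻¹ = e ^ j * d := fun j => by
    rw [← mul_inv_eq_iff_eq_mul, ← inv_zpow, ← conj_zpow,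
      show d * e⁻¹ * d⁻¹ = (d * e * d⁻¹)⁻¹ by group, e2, inv_inv]
  have e5 : HC z i (e ^ k * d) := by
    rcases Int.even_or_odd' k with ⟨j, rfl | rfl⟩
    · exact h1.trans ⟨e ^ j, h.cz (zpow_mem eT j), by rw [mul_assoc, e4]; group⟩
    · exact hg.trans ⟨e ^ j, h.cz (zpow_mem eT j), by rw [mul_assoc, mul_assoc, e4]; group⟩
  have e6 := (h.eq_z h1 e5 (h.cz (zpow_mem eT k)) uu
    (by rw [← e4, inv_eq_of_mul_eq_one_right uu])).resolve_left u1
  rw [h.eq_z_of_comm h.tD.2.1 h.tD.2.2 (h.t2 eT) (e6 ▸ hu) e1]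
  exact h.YQ h.zY

theorem sq_i (hg : g ∈ T) : g * g * i * (g * g)⁻¹ = i := by
  have key : ∀ a ∈ zpowers i, a * a = z → a = i ∨ a = i⁻¹ := fun a ha h2 => by
    have ha' := zpowers_le.2 h.iY ha
    rcases h.inv_Y (mul_mem ha' h.iY) (by
      rw [mul_assoc, ← mul_assoc i, ← zp_comm ha' h.iY, mul_assoc, ← mul_assoc, h2, h.ii, h.zz]) with e | e
    · exact .inr (eq_inv_of_mul_eq_one_left e)
    · exact .inl (mul_right_cancel (e.trans h.ii.symm))
  rw [show g * g * i * (g * g)⁻¹ = g * (g * i * g⁻¹) * g⁻¹ by group]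
  rcases key _ (h.nY' hg h.iY) ((h.hc hg i).sq_z h.ii) with e | e
  · rw [e, e]
  · rw [e, show g * i⁻¹ * g⁻¹ = (g * i * g⁻¹)⁻¹ by group, e, inv_inv]

theorem not_comm_i (hg : c⁻¹ * g ∈ zpowers η) : g * i ≠ i * g := fun e => h.i_ne (by
  have e1 := zp_comm hg h.iY
  rw [mul_assoc, e, ← mul_assoc, ← mul_assoc, mul_left_inj, ← mul_left_inj c, h.cinv h.iY] at e1
  rw [e1, inv_mul_cancel_right])

/-- `Q` is strongly closed in `T` with respect to `C(z)`. -/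
theorem Q_closed (hu : u ∈ Q) (hg : HC z u g) (hT : g ∈ T) : g ∈ Q := by
  rcases (h.memQ u).1 hu with hu | hu
  · refine (h.t2 (h.YT hu)).induction (fun y => ∀ g, HC z y g → g ∈ T → g ∈ Q)
      (fun g hg _ => hg.eq_one ▸ one_mem _) (fun y hy ih g hg hT => ?_) g hg hT
    have hy := zpowers_le.2 hu hy
    by_cases h4 : y * y * (y * y) = 1
    · rcases h.inv_Y (mul_mem hy hy) h4 with e | e
      · rcases h.inv_Y hy e with e | e <;> rw [e] at hg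
        exacts [hg.eq_one ▸ one_mem _, hg.eq_z ▸ h.YQ h.zY]
      · refine h.mem_Q_of_i (HC.trans ?_ hg) hT
        rcases h.inv_Y (mul_mem hy h.iY) (by
          rw [mul_assoc, ← mul_assoc i, ← zp_comm hy h.iY, mul_assoc, ← mul_assoc, e, h.ii, h.zz]) with e1 | e1
        · exact ⟨t, h.cz h.tD.1, by rw [h.tY h.iY, eq_inv_of_mul_eq_one_left e1]⟩
        · exact mul_right_cancel (e1.trans h.ii.symm) ▸ HC.refl z y
    · refine h.YQ (h.mem_of_big hy hg hT (((h.memQ _).1 (ih _ hg.mul_self (mul_mem hT hT))).resolve_right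
        fun h1 => h.not_comm_i h1 (mul_inv_eq_iff_eq_mul.1 (h.sq_i hT))) fun e => h4 ?_)
      exact (e ▸ hg.mul_self.mul_self.symm).eq_one
  · exact h.mem_Q_of_i ((mul_inv_cancel_left c u ▸ h.hc_cY hu).trans hg) hT

theorem nQ (hg : g ∈ T) (hu : u ∈ Q) : g * u * g⁻¹ ∈ Q :=
  h.Q_closed hu (h.hc hg u) (mul_mem (mul_mem hg (h.QT hu)) (inv_mem hg))

theorem mem_cent (hy : ∀ y ∈ zpowers η, g * y * g⁻¹ = y) (hc : g * c * g⁻¹ = c) : g ∈ 𝒞(Q) :=
  mem_centralizer_iff.2 fun u hu => by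
    rw [eq_comm, ← mul_inv_eq_iff_eq_mul]
    rcases (h.memQ u).1 hu with h1 | h1
    · exact hy u h1
    · calc g * u * g⁻¹ = g * c * g⁻¹ * (g * (c⁻¹ * u) * g⁻¹) := by group
        _ = u := by rw [hc, hy _ h1, mul_inv_cancel_left]

theorem conj_c (hg : g ∈ T) : c⁻¹ * (g * c * g⁻¹) ∈ zpowers η :=
  ((h.memQ _).1 (h.nQ hg h.cQ)).resolve_left fun h1 => h.cY (by
    simpa [mul_assoc] using h.nY (inv_mem hg) h1)

theorem exists_v (hg : g ∈ T) (h2 : g * g ∈ 𝒞(Q)) (h1 : g ∉ 𝒞(Q)) : ∃ v ∈ Q, g * v * g⁻¹ = v * z := by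
  by_cases hY : g * η * g⁻¹ = η
  · have hY' : ∀ y ∈ zpowers η, g * y * g⁻¹ = y := fun y hy => by
      obtain ⟨k, rfl⟩ := mem_zpowers_iff.1 hy
      rw [← conj_zpow, hY]
    have h3 := h.conj_c hg
    refine ⟨c, h.cQ, inv_mul_eq_iff_eq_mul.1 ((h.inv_Y h3 ?_).resolve_left fun e =>
      h1 (h.mem_cent hY' (inv_mul_eq_one.1 e).symm))⟩
    nth_rw 2 [← hY' _ h3]
    calc _ = c⁻¹ * (g * g * c * (g * g)⁻¹) := by group
      _ = 1 := by rw [conj_eq_of_mem h2 h.cQ, inv_mul_cancel]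
  · obtain ⟨y, hy, h3, h4⟩ := h.η2.exists_min (fun y => g * y * g⁻¹ = y) (by group) hY
    have h5 := h.nY hg hy
    refine ⟨y, h.YQ hy, inv_mul_eq_iff_eq_mul.1 ((h.inv_Y (mul_mem (inv_mem hy) h5) ?_).resolve_left fun e =>
      h3 (inv_mul_eq_one.1 e).symm)⟩
    rw [mul_assoc, ← mul_assoc _ y⁻¹, zp_comm h5 (inv_mem hy)]
    calc _ = (y * y)⁻¹ * (g * (y * y) * g⁻¹) := by group
      _ = 1 := by rw [h4, inv_mul_cancel]

/-- `C_T(Q)` is strongly closed in `T` with respect to `C(z)`. -/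
theorem cent_closed (hu : u ∈ T) (hQ : u ∈ 𝒞(Q)) (hg : HC z u g) (hT : g ∈ T) : g ∈ 𝒞(Q) := by
  refine (h.t2 hu).induction (fun y => ∀ g, HC z y g → g ∈ T → g ∈ 𝒞(Q))
    (fun g hg _ => hg.eq_one ▸ one_mem _) (fun y hy ih g hg hT => by_contra fun h1 => ?_) g hg hT
  have hy := zpowers_le.2 hQ hy
  obtain ⟨v, hv, e⟩ := h.exists_v hT (ih _ hg.mul_self (mul_mem hT hT)) h1
  obtain ⟨x, hx, rfl⟩ := hg
  generalize hg : x * y * x⁻¹ = g at hT h1 e
  have zc : ∀ {a b : G}, a * z = z * a → b ∈ zpowers z → a * b * a⁻¹ = b := fun {a b} ha hb => by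
    obtain ⟨k, rfl⟩ := mem_zpowers_iff.1 hb
    rw [← conj_zpow, ha, mul_inv_cancel_right]
  let M : Subgroup G :=
    { carrier := {a | a * z = z * a ∧ g⁻¹ * (a * g * a⁻¹) ∈ zpowers z}
      one_mem' := ⟨by simp, by simp⟩
      mul_mem' := fun {a b} ha hb => ⟨(show Commute a z from ha.1).mul_left hb.1, by
        have := mul_mem ha.2 hb.2
        rw [← zc ha.1 hb.2] at this
        convert this using 1
        group⟩
      inv_mem' := fun {a} ha => ⟨(show Commute a z from ha.1).inv_left, by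
        have := inv_mem ha.2
        rw [← zc (show Commute a z from ha.1).inv_left ha.2] at this
        convert this using 1
        group⟩ }
  have vz := h.cz (h.QT hv)
  have e' : g⁻¹ * (v * g * v⁻¹) = z⁻¹ := by
    calc _ = g⁻¹ * (v * z) * g * (g⁻¹ * z⁻¹ * g⁻¹⁻¹) * v⁻¹ := by group
      _ = v * z⁻¹ * v⁻¹ := by rw [← e, zc (h.cz (inv_mem hT)) (inv_mem (mem_zpowers z))]; group
      _ = _ := zc vz (inv_mem (mem_zpowers z))
  obtain ⟨P, hP, hvP⟩ := exists_isSylowIn_ge (H := M) (h.t2 (h.QT hv)).isP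
    (zpowers_le.2 ⟨vz, e' ▸ inv_mem (mem_zpowers z)⟩)
  obtain ⟨n, hn, hnP⟩ := hP.exists_conj_le (U := cj x Q) (isPGroup_cj (h.syl.isPGroup.to_le h.QT) x)
    fun q hq => by
      obtain ⟨q, hq, rfl⟩ := hq
      refine ⟨((show Commute x z from hx).mul_left (h.cz (h.QT hq))).mul_left
        (show Commute x z from hx).inv_left, ?_⟩
      show g⁻¹ * (x * q * x⁻¹ * g * (x * q * x⁻¹)⁻¹) ∈ _
      rw [← hg, show (x * y * x⁻¹)⁻¹ * (x * q * x⁻¹ * (x * y * x⁻¹) * (x * q * x⁻¹)⁻¹) =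
        x * (y⁻¹ * (q * y) * q⁻¹) * x⁻¹ by group, comm_of_mem hy hq]
      simp
  obtain ⟨k, hk, hkP⟩ := h.to_T hP.isPGroup fun a ha => (hP.le ha).1
  have hz3 : k * n * x * z = z * (k * n * x) :=
    ((show Commute k z from hk).mul_left hn.1).mul_left hx
  have hN : k * n * x ∈ 𝒩(Q) := mem_norm_of_cj_le ((conj_smul_le_iff _ _ _).2 fun q hq =>
    h.Q_closed hq ⟨_, hz3, rfl⟩ (by
      have := hkP _ (hnP (conj_mem_cj n (conj_mem_cj x hq)))
      convert this using 1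
      group))
  have h5 := comm_of_mem hy (conj_mem' hN (h.Q_closed hv ⟨k, hk, rfl⟩ (hkP v (hvP (mem_zpowers v)))))
  have h6 : v * (n * g * n⁻¹) * v⁻¹ = n * g * n⁻¹ := by
    rw [← hg]
    calc _ = n * x * ((k * n * x)⁻¹ * (k * v * k⁻¹) * (k * n * x) * y) * (n * x)⁻¹ * v⁻¹ := by group
      _ = _ := by rw [h5]; group
  have h7 := zc vz hn.2
  refine h.z1 (inv_eq_one.1 ?_)
  calc z⁻¹ = g⁻¹ * (v * (n * g * n⁻¹) * v⁻¹ * (v * (g⁻¹ * (n * g * n⁻¹)) * v⁻¹)⁻¹) := by rw [← e']; group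
    _ = 1 := by rw [h6, h7]; group

end Cq

end CL.TE.X148
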