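/-
The semidihedral group `W = ⟨t c, t⟩`; a perfect normal subgroup containing `z` has `W` as a Sylow 2-subgroup.
-/
import Cfsg.Agent.TE.X148B
import Cfsg.Agent.Transfer.Basic
import Cfsg.Agent.Inv.Small1

set_option autoImplicit false

open Subgroup CL.Even CL.Grp Cfsg

namespace CL.TE.X148

variable {G : Type*} [Group G] [Finite G]

theorem zp_sqrt {x z i a : G} (z1 : z ≠ 1) (zz : z * z = 1) (hi : i ∈ zpowers x) (ii : i * i = z)
    (ha : a ∈ zpowers x) (aa : a * a = z) : a = i ∨ a = i⁻¹ := by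
  rcases zp_inv z1 zz (ii ▸ mul_mem hi hi) (mul_mem ha hi) (by
    rw [mul_assoc, ← mul_assoc i, ← zp_comm ha hi, mul_assoc, ← mul_assoc, aa, ii, zz]) with e | e
  · exact .inr (eq_inv_of_mul_eq_one_left e)
  · exact .inl (mul_right_cancel (e.trans ii.symm))

theorem card_ext {Y Q : Subgroup G} {c : G} (hQ : ∀ g, g ∈ Q ↔ g ∈ Y ∨ c⁻¹ * g ∈ Y) (hc : c ∉ Y) :
    Nat.card Q = Nat.card Y * 2 := by
  have hYQ : Y ≤ Q := fun g hg => (hQ g).2 (.inl hg)
  have hcQ : c ∈ Q := (hQ c).2 (.inr (by simp))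
  rw [← card_mul_index (Y.subgroupOf Q), Nat.card_congr (subgroupOfEquivOfLe hYQ).toEquiv,
    index_eq_two_iff'.2 ⟨⟨c⁻¹, inv_mem hcQ⟩, fun b => ?_⟩]
  simp only [mem_subgroupOf, coe_mul]
  rcases (hQ b).1 b.2 with h | h
  · exact .inr ⟨h, fun h1 => hc (inv_mem_iff.1 ((mul_mem_cancel_right h).1 h1))⟩
  · exact .inl ⟨h, fun h1 => hc (inv_mem_iff.1 ((mul_mem_cancel_right h1).1 h))⟩

theorem Cf.syl_top {z w : G} {T : Subgroup G} (h : Cf z w T) : IsSylowIn 2 T ⊤ := by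
  refine isSylowIn_of_maximal le_top h.syl.isPGroup fun U hU hTU _ => by_contra fun hne => ?_
  have hlt := lt_inf_normalizer_of_isPGroup hU (lt_of_le_of_ne hTU (Ne.symm hne))
  refine hlt.ne' (h.syl.eq_of_le hU.to_inf_left hlt.le fun g hg => mem_centralizer_singleton_iff.2 ?_)
  rw [← mul_inv_eq_iff_eq_mul]
  by_contra e
  refine h.inv _ (conj_mem hg.2 h.zT) (isConj_iff.2 ⟨g, rfl⟩) e ?_
  calc _ = g * (z * (g⁻¹ * w * g)) * z⁻¹ * g⁻¹ := by group
    _ = w := by rw [← h.cz (conj_mem' hg.2 h.wT)]; group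

/-- The configuration with `W = ⟨x, t⟩`, `x = t c`, and `C_T(W) = ⟨z⟩`. -/
structure Cw (z w t η i c : G) (T Q W : Subgroup G) : Prop extends Cq z w t η i c T Q where
  cen : ∀ g ∈ T, g ∈ 𝒞(Q) → g * t = t * g → g = 1 ∨ g = z
  memW : ∀ g, g ∈ W ↔ g ∈ zpowers (t * c) ∨ t⁻¹ * g ∈ zpowers (t * c)

namespace Cq

variable {z w t η i c : G} {T Q : Subgroup G} (h : Cq z w t η i c T Q) {y g u : G}
include h

theorem xx : t * c * (t * c) = z * η := by
  have := h.conj_t c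
  rw [h.tc, h.ti] at this
  have h2 := h.cinv (inv_mem (mem_zpowers η))
  rw [inv_inv] at h2
  calc _ = c * c * (c⁻¹ * η⁻¹ * c) := by rw [← mul_assoc, this]; group
    _ = _ := by rw [h2, h.cc]

theorem Yx (hy : y ∈ zpowers η) : y ∈ zpowers (t * c) := by
  have h1 : z * η ∈ zpowers (t * c) := h.xx ▸ mul_mem (mem_zpowers _) (mem_zpowers _)
  have h2 : z ∈ zpowers (t * c) := by
    obtain ⟨k, hk⟩ := mem_zpowers_iff.1 h.iY
    have := zpow_mem (mul_mem h1 h1) k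
    rwa [mul_assoc, ← mul_assoc η, h.cz (h.YT (mem_zpowers η)), mul_assoc, ← mul_assoc, h.zz, one_mul,
      (Commute.refl η).mul_zpow, hk, h.ii] at this
  exact zpowers_le.2 ((mul_mem_cancel_left h2).1 h1) hy

theorem x_cases (hg : g ∈ zpowers (t * c)) : g ∈ zpowers η ∨ (t * c)⁻¹ * g ∈ zpowers η := by
  obtain ⟨k, rfl⟩ := mem_zpowers_iff.1 hg
  have h1 : ∀ j : ℤ, (t * c) ^ (2 * j) ∈ zpowers η := fun j => by
    rw [zpow_mul, zpow_two, h.xx]
    exact zpow_mem (mul_mem h.zY (mem_zpowers η)) j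
  rcases Int.even_or_odd' k with ⟨j, rfl | rfl⟩
  · exact .inl (h1 j)
  · exact .inr (by rw [add_comm, zpow_one_add, inv_mul_cancel_left]; exact h1 j)

omit [Finite G] in
theorem txt : t * (t * c) * t⁻¹ = (t * c)⁻¹ * z := by
  rw [h.ttm, mul_inv_rev, mul_assoc, h.cz (inv_mem h.tD.1), ← h.cc]
  group

theorem nx (hg : g ∈ T) (ht : g * t = t * g) : g * (t * c) * g⁻¹ ∈ zpowers (t * c) := by
  rw [show g * (t * c) * g⁻¹ = t * c * (c⁻¹ * (g * c * g⁻¹)) by rw [← mul_assoc, ht]; group]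
  exact mul_mem (mem_zpowers _) (h.Yx (h.conj_c hg))

theorem exists_cw (cen : ∀ g ∈ T, g ∈ 𝒞(Q) → g * t = t * g → g = 1 ∨ g = z) : ∃ W, Cw z w t η i c T Q W := by
  obtain ⟨W, hW⟩ := exists_ext (mem_norm_zp (h.nx h.tD.1 rfl)) (h.tt.symm ▸ one_mem _)
  exact ⟨W, h, cen, hW⟩

omit [Finite G] in
theorem t_not : t * i ≠ i * t := fun e => h.i_ne (by rw [← h.tY h.iY, e, mul_inv_cancel_right])

end Cq

namespace Cw

variable {z w t η i c : G} {T Q W : Subgroup G} (h : Cw z w t η i c T Q W) {y g u e e' : G}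
include h

omit [Finite G] in
theorem xW (hg : g ∈ zpowers (t * c)) : g ∈ W := (h.memW g).2 (.inl hg)

omit [Finite G] in
theorem tW : t ∈ W := (h.memW t).2 (.inr (by simp))

theorem QW : Q ≤ W := fun g hg => by
  rcases (h.memQ g).1 hg with h1 | h1
  · exact h.xW (h.Yx h1)
  · exact (mul_mem_cancel_left (inv_mem (h.ttm c ▸ mul_mem h.tW (h.xW (mem_zpowers _))))).1 (h.xW (h.Yx h1))

omit [Finite G] in
theorem WT : W ≤ T := fun g hg => by
  have := zpowers_le.2 (mul_mem h.tD.1 h.cT)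
  rcases (h.memW g).1 hg with h1 | h1
  · exact this h1
  · exact (mul_mem_cancel_left (inv_mem h.tD.1)).1 (this h1)

theorem zW : z ∈ W := h.QW (h.YQ h.zY)

theorem DW (hg : g ∈ T) (hz : IsConj z g) : g ∈ W := by
  by_cases e : g = z
  · exact e ▸ h.zW
  · exact (mul_mem_cancel_left h.tW).1 (h.QW (h.YQ ((h.Y g).1 ⟨hg, hz, e⟩)))

theorem cen_x (hg : g ∈ T) (ht : g * t = t * g) (hx : g * (t * c) * g⁻¹ = t * c) : g = 1 ∨ g = z := by
  refine h.cen g hg (h.mem_cent (fun y hy => ?_) ?_) ht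
  · obtain ⟨k, rfl⟩ := mem_zpowers_iff.1 (h.Yx hy)
    rw [← conj_zpow, hx]
  · rw [← mul_assoc, ht, mul_assoc, mul_assoc, mul_right_inj, ← mul_assoc] at hx
    exact hx

theorem dec (hg : g ∈ T) : ∃ e ∈ T, ∃ v ∈ W, e * t = t * e ∧ e * i = i * e ∧ g = e * v := by
  obtain ⟨q, hq, e⟩ : ∃ q ∈ Q, q⁻¹ * t * q = g⁻¹ * t * g := by
    have h0 := h.cm hg
    rw [← h.ttm (g⁻¹ * t * g)]
    generalize t * (g⁻¹ * t * g) = y at h0
    rcases h.η2.sq_or h0 with ⟨u, hu, rfl⟩ | e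
    · exact ⟨u, h.YQ hu, by rw [← h.tY hu]; group⟩
    · obtain ⟨u, hu, rfl⟩ := h.η2.gen_sq h.η1 h0 e
      refine ⟨c * u, h.cYQ hu, ?_⟩
      calc _ = u⁻¹ * (t * (t * (c⁻¹ * t * c))) * u := by rw [h.ttm]; group
        _ = _ := by
          rw [h.tc, ← h.tY hu, mul_assoc (t * u), inv_mul_cancel_left, mul_assoc t u, ← zp_comm (mem_zpowers η) hu]
          group
  have eT : g * q⁻¹ ∈ T := mul_mem hg (inv_mem (h.QT hq))
  have et : g * q⁻¹ * t = t * (g * q⁻¹) := by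
    calc _ = g * (q⁻¹ * t * q) * q⁻¹ := by group
      _ = _ := by rw [e]; group
  rcases zp_sqrt h.z1 h.zz h.iY h.ii (h.nY eT h.iY) ((h.hc eT i).sq_z h.ii) with e1 | e1
  · exact ⟨_, eT, q, h.QW hq, et, mul_inv_eq_iff_eq_mul.1 e1, by group⟩
  · refine ⟨g * q⁻¹ * t, mul_mem eT h.tD.1, t⁻¹ * q, mul_mem (inv_mem h.tW) (h.QW hq),
      by rw [← mul_assoc, ← et], mul_inv_eq_iff_eq_mul.1 ?_, by group⟩
    calc _ = g * q⁻¹ * (t * i * t⁻¹) * (g * q⁻¹)⁻¹ := by group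
      _ = (g * q⁻¹ * i * (g * q⁻¹)⁻¹)⁻¹ := by rw [h.tY h.iY]; group
      _ = i := by rw [e1, inv_inv]

theorem nW : T ≤ 𝒩(W) := fun g hg => by
  obtain ⟨e, he, v, hv, et, -, rfl⟩ := h.dec hg
  refine mul_mem (mem_norm_of_cj_le ((conj_smul_le_iff _ _ _).2 fun a ha => ?_)) (le_normalizer hv)
  have hn := mem_norm_zp (h.nx he et)
  rcases (h.memW a).1 ha with h1 | h1
  · exact h.xW (conj_mem hn h1)
  · rw [show e * a * e⁻¹ = e * t * (t⁻¹ * a) * e⁻¹ by group, et, mul_assoc t, mul_assoc t]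
    exact mul_mem h.tW (h.xW (conj_mem hn h1))

theorem inf_W (he : e ∈ W) (ht : e * t = t * e) (hi : e * i = i * e) : e = 1 ∨ e = z := by
  rcases (h.memW e).1 he with h1 | h1
  · exact h.cen_x (h.WT he) ht (by rw [zp_comm h1 (mem_zpowers _), mul_inv_cancel_right])
  · refine absurd ?_ h.t_not
    have := zp_comm h1 (h.Yx h.iY)
    rw [mul_assoc, hi, ← mul_assoc, ← mul_assoc, mul_left_inj, h.ti] at this
    exact this

theorem comm_W (he : e ∈ T) (he' : e' ∈ T) : (e' * e)⁻¹ * (e * e') ∈ W := by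
  obtain ⟨a, ha, v, hv, a1, -, rfl⟩ := h.dec he
  obtain ⟨b, hb, u, hu, b1, -, rfl⟩ := h.dec he'
  have : (b * a)⁻¹ * (a * b) ∈ W := by
    obtain ⟨k, hk⟩ := mem_zpowers_iff.1 (h.nx ha a1)
    obtain ⟨l, hl⟩ := mem_zpowers_iff.1 (h.nx hb b1)
    have e1 : a * b * (t * c) * (a * b)⁻¹ = b * a * (t * c) * (b * a)⁻¹ := by
      calc _ = a * (b * (t * c) * b⁻¹) * a⁻¹ := by group
        _ = b * (a * (t * c) * a⁻¹) * b⁻¹ := by
          rw [← hl, ← hk, ← conj_zpow, ← conj_zpow, ← hl, ← hk, ← zpow_mul, ← zpow_mul, mul_comm]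
        _ = _ := by group
    rcases h.cen_x (mul_mem (inv_mem (mul_mem hb ha)) (mul_mem ha hb))
      (((show Commute b t from b1).mul_left a1).inv_left.mul_left ((show Commute a t from a1).mul_left b1))
      (by calc _ = (b * a)⁻¹ * (a * b * (t * c) * (a * b)⁻¹) * (b * a) := by group
        _ = _ := by rw [e1]; group) with e | e <;> rw [e]
    exacts [one_mem _, h.zW]
  rw [show (b * u * (a * v))⁻¹ * (a * v * (b * u)) =
    v⁻¹ * (a⁻¹ * u⁻¹ * a) * ((b * a)⁻¹ * (a * b)) * (b⁻¹ * v * b) * u by group]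
  exact mul_mem (mul_mem (mul_mem (mul_mem (inv_mem hv) (conj_mem' (h.nW ha) (inv_mem hu))) this)
    (conj_mem' (h.nW hb) hv)) hu

theorem conj_x (he : e ∈ T) (ht : e * t = t * e) (hi : e * i = i * e) (h2 : e * e = 1) (h1 : e ∉ W) :
    e * (t * c) * e⁻¹ = t * c * z := by
  have hx : e * (t * c) * e⁻¹ ≠ t * c := fun e1 => h1 (by
    rcases h.cen_x he ht e1 with e2 | e2 <;> rw [e2]
    exacts [one_mem _, h.zW])
  have hn := mem_norm_zp (h.nx he ht)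
  have x2 := h.t2 (mul_mem h.tD.1 h.cT)
  have hz := h.Yx h.zY
  have hi' := h.Yx h.iY
  generalize t * c = x at hx hn x2 hz hi' ⊢
  have sq : ∀ u ∈ zpowers x, u⁻¹ * (e * u * e⁻¹) * (u⁻¹ * (e * u * e⁻¹)) = (u * u)⁻¹ * (e * (u * u) * e⁻¹) :=
    fun u hu => by
      rw [mul_assoc, ← mul_assoc _ u⁻¹, zp_comm (conj_mem hn hu) (inv_mem hu)]
      group
  obtain ⟨y, hy, h3, h4⟩ := x2.exists_min (fun y => e * y * e⁻¹ = y) (by group) hx
  have h5 : y⁻¹ * (e * y * e⁻¹) = z := (zp_inv h.z1 h.zz hz (mul_mem (inv_mem hy) (conj_mem hn hy))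
    (by rw [sq y hy, h4, inv_mul_cancel])).resolve_left fun e1 => h3 (inv_mul_eq_one.1 e1).symm
  rcases x2.sq_or hy with ⟨u, hu, rfl⟩ | e1
  · rw [← sq u hu] at h5
    have h6 : e * (u⁻¹ * (e * u * e⁻¹)) * e⁻¹ = u⁻¹ * (e * u * e⁻¹) := by
      rcases zp_sqrt h.z1 h.zz hi' h.ii (mul_mem (inv_mem hu) (conj_mem hn hu)) h5 with e2 | e2 <;> rw [e2]
      exacts [mul_inv_eq_iff_eq_mul.2 hi, mul_inv_eq_iff_eq_mul.2 (show Commute e i from hi).inv_right]
    refine absurd ?_ h.z1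
    rw [← h5]
    nth_rw 2 [← h6]
    calc _ = u⁻¹ * (e * e) * u * (e * e)⁻¹ := by group
      _ = 1 := by rw [h2]; group
  · obtain ⟨k, rfl⟩ := mem_zpowers_iff.1 e1
    have h6 : e * y ^ k * e⁻¹ = y ^ k * z ^ k := by
      rw [← conj_zpow, inv_mul_eq_iff_eq_mul.1 h5, (show Commute y z from zp_comm hy hz).mul_zpow]
    rw [h6] at hx ⊢
    rw [(zp_inv h.z1 h.zz (mem_zpowers z) (zpow_mem (mem_zpowers z) k)
      (by rw [← (Commute.refl z).mul_zpow, h.zz, one_zpow])).resolve_left fun e2 => hx (by rw [e2, mul_one])]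

theorem dec_inv (hg : g ∈ T) (h1 : g ∉ W) (h2 : g * g ∈ W) :
    ∃ e ∈ T, ∃ v ∈ W, e * t = t * e ∧ e * i = i * e ∧ g = e * v ∧ e * e = 1 ∧ e ∉ W := by
  obtain ⟨e, he, v, hv, et, ei, rfl⟩ := h.dec hg
  refine ⟨e, he, v, hv, et, ei, rfl, (h.inf_W ?_ ((show Commute e t from et).mul_left et)
    ((show Commute e i from ei).mul_left ei)).resolve_right (h.not_sq' h.tD.2.1 h.tD.2.2 et),
    fun h3 => h1 (mul_mem h3 hv)⟩
  rw [show e * v * (e * v) = e * e * (e⁻¹ * v * e * v) by group] at h2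
  exact (mul_mem_cancel_right (mul_mem (conj_mem' (h.nW he) hv) hv)).1 h2

theorem inv_eq (hg : g ∈ T) (h1 : g ∉ W) (h2 : g * g ∈ W) (hu : u ∈ T) (h3 : u ∉ W) (h4 : u * u ∈ W) :
    g⁻¹ * u ∈ W := by
  obtain ⟨a, ha, v, hv, a1, a2, rfl, a3, a4⟩ := h.dec_inv hg h1 h2
  obtain ⟨b, hb, v', hv', b1, b2, rfl, b3, b4⟩ := h.dec_inv hu h3 h4
  rw [show (a * v)⁻¹ * (b * v') = v⁻¹ * (a⁻¹ * b) * v' by group]
  refine mul_mem (mul_mem (inv_mem hv) ?_) hv'
  rcases h.cen_x (mul_mem (inv_mem ha) hb) ((show Commute a t from a1).inv_left.mul_left b1) (by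
    calc _ = a⁻¹ * (b * (t * c) * b⁻¹) * a := by group
      _ = _ := by rw [h.conj_x hb b1 b2 b3 b4, ← h.conj_x ha a1 a2 a3 a4]; group) with e | e <;> rw [e]
  exacts [one_mem _, h.zW]

theorem inv_W (hg : g ∈ W) (h2 : g * g = 1) : g = 1 ∨ IsConj z g := by
  rcases (h.memW g).1 hg with h1 | h1
  · exact (zp_inv h.z1 h.zz (h.Yx h.zY) h1 h2).imp_right fun e => by rw [e]
  · rcases h.x_cases h1 with h3 | h3
    · exact .inr ((h.Y g).2 (h.ti ▸ h3)).2.1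
    · refine absurd (h2.symm.trans ?_).symm h.z1
      have := (h.hc_cY h3).sq_z h.ii
      rwa [show c * ((t * c)⁻¹ * (t⁻¹ * g)) = (t * t)⁻¹ * g by group, h.tt, inv_one, one_mul] at this

theorem W_le {N : Subgroup G} [hN : N.Normal] (hz : z ∈ N) : W ≤ N := by
  have d : ∀ s, IsConj z s → s ∈ N := fun s hs => by
    obtain ⟨g, rfl⟩ := isConj_iff.1 hs
    exact hN.conj_mem _ hz g
  have ht := d t h.tD.2.1
  have hc : c ∈ N := by
    obtain ⟨g, -, rfl⟩ := h.ic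
    exact hN.conj_mem _ ((mul_mem_cancel_left ht).1 (d _ (h.dY h.iY).2.1)) g
  intro g hg
  have := zpowers_le.2 (mul_mem ht hc)
  rcases (h.memW g).1 hg with h1 | h1
  · exact this h1
  · exact (mul_mem_cancel_left (inv_mem ht)).1 (this h1)

theorem inf_eq {N : Subgroup G} [hN : N.Normal] (hz : z ∈ N) (hp : commutator N = ⊤) : T ⊓ N = W := by
  refine le_antisymm (fun g hg => by_contra fun h1 => ?_) (le_inf h.WT (h.W_le hz))
  obtain ⟨y, hy, h2, h3⟩ := (h.t2 hg.1).exists_min (· ∈ W) (one_mem _) h1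
  have hy := zpowers_le.2 hg hy
  obtain ⟨b, hb, v, hv, -, -, rfl, bb, bW⟩ := h.dec_inv hy.1 h2 h3
  have bN : b ∈ N := (mul_mem_cancel_right (h.W_le hz hv)).1 hy.2
  have : (W.subgroupOf T).Normal := normal_subgroupOf_of_le_normalizer h.nW
  letI : CommGroup (T ⧸ W.subgroupOf T) :=
    { (inferInstance : Group (T ⧸ W.subgroupOf T)) with
      mul_comm := fun a b => by
        obtain ⟨a, rfl⟩ := QuotientGroup.mk_surjective a
        obtain ⟨b, rfl⟩ := QuotientGroup.mk_surjective b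
        exact QuotientGroup.eq.2 (h.comm_W b.2 a.2) }
  let ϕ : T.subgroupOf N →* T ⧸ W.subgroupOf T :=
    (QuotientGroup.mk' (W.subgroupOf T)).comp (N.subtype.subgroupComap T)
  have hodd : ¬ 2 ∣ (T.subgroupOf N).index := by
    have := (h.syl_top.inf_of_normalized (N := N) le_top (le_normalizer_of_normal)).not_dvd
    rwa [inf_relIndex_right] at this
  obtain ⟨m, hm⟩ := Nat.not_even_iff_odd.1 (mt Even.two_dvd hodd)
  have b2 : ((⟨b, hb⟩ : T) : T ⧸ W.subgroupOf T) ^ 2 = 1 := by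
    rw [← QuotientGroup.mk_pow, show (⟨b, hb⟩ : T) ^ 2 = 1 from Subtype.ext (by simpa [sq] using bb)]
    rfl
  have key := CL.Transfer.transfer_eq_pow_of_conj ϕ ⟨b, bN⟩ ((⟨b, hb⟩ : T) : T ⧸ W.subgroupOf T)
    fun k g hg => by
      have b3 : (⟨b, bN⟩ : N) ^ 2 = 1 := Subtype.ext (by simpa [sq] using bb)
      rcases Nat.even_or_odd' k with ⟨j, rfl | rfl⟩
      · simp only [pow_mul, b2, b3, one_pow, mul_one, inv_mul_cancel]
        exact map_one ϕ
      · simp only [pow_succ, pow_mul, b2, b3, one_pow, one_mul] at hg ⊢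
        have hg' : (g : G)⁻¹ * b * g ∈ T := hg
        have e : (g : G)⁻¹ * b * g * ((g : G)⁻¹ * b * g) = 1 := by
          rw [show (g : G)⁻¹ * b * g * ((g : G)⁻¹ * b * g) = (g : G)⁻¹ * (b * b) * g by group, bb]
          group
        refine QuotientGroup.eq.2 (h.inv_eq hg' (fun h4 => bW ?_) (e ▸ one_mem _) hb bW (bb ▸ one_mem _))
        rcases h.inv_W (g := (g : G)⁻¹ * b * g) h4 e with e1 | e1
        · rw [show b = g * ((g : G)⁻¹ * b * g) * (g : G)⁻¹ by group, e1]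
          simp
        · exact h.DW hb (e1.trans (isConj_iff.2 ⟨g, by group⟩))
  rw [Inv.hom_eq_one_of_perfect hp, hm, pow_succ, pow_mul, b2, one_pow, one_mul, eq_comm,
    QuotientGroup.eq_one_iff] at key
  exact bW key

theorem isQD : IsQuasiDihedral W := by
  have xT := mul_mem h.tD.1 h.cT
  obtain ⟨k, hk⟩ := h.t2 xT
  obtain ⟨n, -, hn⟩ := (Nat.dvd_prime_pow Nat.prime_two).1 (orderOf_dvd_of_pow_eq_one hk)
  have h3 : 3 ≤ n := by
    by_contra h3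
    have h4 : (t * c) ^ 4 = 1 := orderOf_dvd_iff_pow_eq_one.1
      (hn ▸ pow_dvd_pow 2 (by omega : n ≤ 2))
    rw [show (t * c) ^ 4 = t * c * (t * c) * (t * c * (t * c)) by simp only [pow_succ, pow_zero, one_mul, mul_assoc],
      h.xx, mul_assoc, ← mul_assoc η, h.cz (h.YT (mem_zpowers η)), mul_assoc, ← mul_assoc, h.zz, one_mul] at h4
    obtain ⟨j, hj⟩ := mem_zpowers_iff.1 h.iY
    exact h.z1 (by rw [← h.ii, ← hj, ← (Commute.refl η).mul_zpow, h4, one_zpow])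
  have ht : t ∉ zpowers (t * c) := fun h1 => h.t_not (zp_comm h1 (h.Yx h.iY))
  obtain ⟨n, rfl⟩ : ∃ m, n = m + 1 := ⟨n - 1, by omega⟩
  have hz : (t * c) ^ 2 ^ n = z := (zp_inv h.z1 h.zz (h.Yx h.zY) (pow_mem (mem_zpowers _) _) (by
    rw [← sq, ← pow_mul, ← pow_succ, ← hn, pow_orderOf_eq_one])).resolve_left fun e => by
      have := orderOf_dvd_of_pow_eq_one e
      rw [hn, Nat.pow_dvd_pow_iff_le_right one_lt_two] at this
      omega
  refine ⟨n + 1, h3, by rw [card_ext h.memW ht, Nat.card_zpowers, hn, ← pow_succ],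
    ⟨t * c, h.xW (mem_zpowers _)⟩, ⟨t, h.tW⟩, by rw [orderOf_mk, hn], ?_, Subtype.ext ?_⟩
  · rw [orderOf_mk]
    exact orderOf_eq_prime (by rw [sq, h.tt]) fun e => h.t_not (by rw [e, one_mul, mul_one])
  · show t * (t * c) * t⁻¹ = (t * c) ^ (2 ^ n - 1)
    rw [h.txt, inv_mul_eq_iff_eq_mul, ← pow_succ', Nat.sub_add_cancel Nat.one_le_two_pow, hz]

theorem eq_z_of_inv (hg : g ∈ W) (hw : g * w = w * g) (h2 : g * g = 1) : g = 1 ∨ g = z :=
  (h.inv_W hg h2).imp_right fun e => by_contra fun h1 =>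
    h.inv g (h.WT hg) e h1 (mul_inv_eq_iff_eq_mul.2 hw)

end Cw

end CL.TE.X148
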